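import Cfsg.Agent.Sym.Cls
import Cfsg.Agent.Blk.OneSub
import Mathlib.GroupTheory.Perm.ViaEmbedding

/-!
# Defect groups of blocks of symmetric groups
-/

set_option autoImplicit false
set_option linter.unusedSectionVars false
set_option linter.style.haveILetI false

namespace Cfsg.Sym

open Equiv Finset Subgroup

variable {N p w : ℕ} {α : Type*} [Fintype α] [DecidableEq α] {ρ : Fin N → ℕ}
  {M : Ideal AlgInt} {B : Set (IrrCharacter (Perm α))}

theorem pow_apply_of_sameCycle {u y : Perm α} (h : Commute y u) (hu : u ^ p = 1) {x : α}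
    (hx : u.SameCycle x (y x)) : (y ^ p) x = x := by
  obtain ⟨i, hi⟩ := hx.exists_nat_pow_eq
  have : ∀ k, (y ^ k) x = ((u ^ i) ^ k) x := fun k => by
    induction k with
    | zero => rfl
    | succ k ih =>
      rw [pow_succ', Perm.mul_apply, ih, ← Perm.mul_apply, ((h.pow_right i).pow_right k).eq,
        Perm.mul_apply, ← hi, pow_succ, Perm.mul_apply]
  rw [this, ← pow_mul, mul_comm, pow_mul, hu, one_pow, Perm.one_apply]

theorem exists_isDefectGroup_ge (hM : IsPModular p M) (hB : IsPBlock M B)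
    {χ : IrrCharacter (Perm α)} (hχ : χ ∈ B) {u : Perm α} (hu : u ^ p = 1) (h0 : χ u ≠ 0)
    {Q : Subgroup (Perm α)} (hQ : IsPGroup p Q) (hQu : Q ≤ centralizer {u})
    (hs : ∀ g ∈ Q, g.support ⊆ u.support) : ∃ P, IsDefectGroup p M B P ∧ Q ≤ P := by
  haveI := hM.fact
  have h1 := isSec_centralizer (p := p) (x := u)
    (((Nat.dvd_prime_pow hM.prime (m := 1)).1 (orderOf_dvd_of_pow_eq_one (by rwa [pow_one]))).imp
      fun _ h => h.2)
  obtain ⟨b, hb⟩ : ∃ b, Induces M (centralizer {u}).subtype b B := by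
    by_contra hn
    have := congrFun (h1.sum_subPart hM χ.isClassFunction) 1
    rw [sum_eq_zero fun b _ => h1.subPart_irr_eq_zero hM hB hχ b.2 fun h => hn ⟨_, h⟩,
      pRegularPart_apply_one] at this
    exact h0 (by simpa using this.symm)
  obtain ⟨y, hy⟩ := hb.left.exists_isDefectClass hM
  have hc : ∀ g : centralizer {u}, Commute (g : Perm α) u := fun g =>
    mem_centralizer_singleton_iff.1 g.2
  let E : Subgroup (centralizer {u}) :=
    { carrier := {g | ∀ x, u.SameCycle x (g.1 x)}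
      one_mem' := fun _ => .rfl
      mul_mem' := fun h h' x => (h' x).trans (h _)
      inv_mem' := fun {g} h x => by simpa using (h (g.1⁻¹ x)).symm }
  haveI : E.Normal := ⟨fun g hg h x => by
    simpa [(hc h).eq] using (hg (h.1⁻¹ x)).conj (g := h.1)⟩
  have hE : IsPGroup p E := fun g => ⟨1, Subtype.ext (Subtype.ext (Equiv.ext fun x => by
    simpa using pow_apply_of_sameCycle (hc g.1) hu (g.2 x)))⟩
  have h2 : ∀ x ∈ u.support, y.1 x = x := fun x hx => by
    have h3 := Perm.self_mem_cycle_factors_commute (Perm.cycleOf_mem_cycleFactorsFinset_iff.2 hx)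
    have h4 := IsDefectGroup.le_of_normal hb.left hM ⟨y, hy, default, rfl⟩ hE
      (x := ⟨_, mem_centralizer_singleton_iff.2 h3⟩) fun z => by
        simp only [Perm.cycleOf_apply]
        split_ifs <;> simp [Perm.SameCycle.rfl]
    have h5 : Commute (u.cycleOf x) y.1 :=
      congrArg Subtype.val (mem_centralizer_singleton_iff.1 (map_subtype_le _ h4))
    have h6 := (Perm.mem_support_iff_of_commute h5.symm x).2
      (Perm.mem_support_cycleOf_iff.2 ⟨.rfl, hx⟩)
    have h7 := pow_apply_of_sameCycle (hc y) hu (Perm.mem_support_cycleOf_iff.1 h6).1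
    obtain ⟨m, hm⟩ := exists_pow_eq_self_of_coprime (x := y.1)
      ((Nat.Prime.coprime_iff_not_dvd hM.prime).2 (by simpa using hy.not_dvd_orderOf hb.left hM))
    rw [← hm, Perm.pow_apply_eq_self_of_apply_eq_self h7]
  obtain ⟨S, hS⟩ := ((hQ.comap_subtype (K := centralizer {u})).comap_subtype
    (K := centralizer {y})).exists_le_sylow
  obtain ⟨P, hP, h3⟩ := hb.exists_isDefectGroup_ge hM ⟨y, hy, S, rfl⟩
  refine ⟨P, hP, fun g hg => h3 ⟨⟨g, hQu hg⟩, ⟨⟨⟨g, hQu hg⟩, mem_centralizer_singleton_iff.2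
    (Subtype.ext (Perm.Disjoint.commute fun x => ?_).eq)⟩, hS hg, rfl⟩, rfl⟩⟩
  exact or_iff_not_imp_left.2 fun h => h2 x (hs g hg (Perm.mem_support.2 h))

theorem exists_translations {A : Type*} [Group A] [Fintype A] [DecidableEq A] {m : ℕ}
    (h : m * Fintype.card A ≤ Fintype.card α) : ∃ φ : (Fin m → A) →* Perm α,
      Function.Injective φ ∧ (∀ f, #(φ f).support = #{j | f j ≠ 1} * Fintype.card A) ∧
        ∀ f f', (∀ j, f' j ≠ 1) → (φ f).support ⊆ (φ f').support := by
  classical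
  obtain ⟨ι⟩ : Nonempty (Fin m × A ↪ α) := Function.Embedding.nonempty_of_card_le (by simpa)
  let ψ : (Fin m → A) →* Perm (Fin m × A) :=
    { toFun := fun f => prodCongrRight fun j => Equiv.mulLeft (f j)
      map_one' := by ext <;> simp
      map_mul' := fun _ _ => by ext <;> simp }
  have h1 : ∀ f, (ψ f).support = ({j | f j ≠ 1} : Finset _) ×ˢ univ := fun f => by
    ext ⟨j, a⟩; simp [ψ]
  refine ⟨(Perm.extendDomainHom (ofInjective ι ι.2)).comp ψ, (Perm.extendDomainHom_injective _).comp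
    ((injective_iff_map_eq_one _).2 fun f hf => funext fun j => ?_), fun f => ?_, fun f f' hf => ?_⟩
  · simpa [ψ] using congrArg (fun g : Perm _ => (g (j, 1)).2) hf
  · simp [h1]
  · simp only [MonoidHom.comp_apply, Perm.extendDomainHom_apply, Perm.support_extend_domain,
      map_subset_map, h1]
    exact product_subset_product_left fun j _ => by simpa using hf j

/-- Elementary abelian subgroups of a defect group. -/
theorem exists_hom_le_defect (hM : IsPModular p M) (hB : IsPBlock M B) (hρ : ∀ i, ρ i < p)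
    (hN : Fintype.card α ≤ N) (h : ∀ χ ∈ B, InCls p w ρ χ) {D : Subgroup (Perm α)}
    (hD : IsDefectGroup p M B D) {A : Type*} [CommGroup A] [Fintype A] [DecidableEq A]
    [Nontrivial A] (hA : ∀ a : A, a ^ p = 1) {m : ℕ} (hm : m * Fintype.card A = p * w) :
    ∃ φ : (Fin m → A) →* Perm α, Function.Injective φ ∧ φ.range ≤ D ∧
      (∀ f, #(φ f).support = #{j | f j ≠ 1} * Fintype.card A) ∧
        ∃ f, (φ f).cycleType = Multiset.replicate w p := by
  haveI := hM.fact
  obtain ⟨χ, hχ⟩ := hB.nonempty hM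
  obtain ⟨h1, h2⟩ := (h χ hχ).spec hρ hN
  obtain ⟨φ, h3, h4, h5⟩ := exists_translations (A := A) (hm.trans_le h1)
  obtain ⟨a, ha⟩ := exists_ne (1 : A)
  have h6 : ∀ f, φ f ^ p = 1 := fun f => by
    rw [← map_pow, show f ^ p = 1 from funext fun j => hA _, map_one]
  have h7 : (φ fun _ => a).cycleType = Multiset.replicate w p := by
    have h7 := Perm.cycleType_of_pow_prime_eq_one (h6 fun _ => a)
    have h8 := Perm.sum_cycleType (φ fun _ => a)
    rw [h7, h4, Multiset.sum_replicate, filter_true_of_mem fun _ _ => ha, card_fin, hm,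
      smul_eq_mul, mul_comm p, Nat.mul_left_inj hM.prime.ne_zero] at h8
    rwa [h8] at h7
  obtain ⟨P, hP, h8⟩ := exists_isDefectGroup_ge hM hB hχ (h6 fun _ => a) (h2 _ h7) (Q := φ.range)
    (by rintro ⟨_, f, rfl⟩; exact ⟨1, Subtype.ext (by simpa using h6 f)⟩)
    (by rintro _ ⟨f, rfl⟩; rw [mem_centralizer_singleton_iff, ← map_mul, mul_comm, map_mul])
    (by rintro _ ⟨f, rfl⟩; exact h5 _ _ fun _ => ha)
  obtain ⟨g, rfl⟩ := hP.exists_conj hB hM hD
  refine ⟨(MulAut.conj g).toMonoidHom.comp φ, (MulAut.conj g).injective.comp h3, ?_, fun f => ?_,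
    fun _ => a, ?_⟩
  · rw [MonoidHom.range_comp]; exact map_mono h8
  · simp [h4]
  · simp [Perm.cycleType_conj, h7]

theorem card_support_le_of_mem (hM : IsPModular p M) (hB : IsPBlock M B) (hρ : ∀ i, ρ i < p)
    (hN : Fintype.card α ≤ N) (h : ∀ χ ∈ B, InCls p w ρ χ) {D : Subgroup (Perm α)}
    (hD : IsDefectGroup p M B D) {g : Perm α} (hg : g ∈ D) : #g.support ≤ p * w := by
  haveI := hM.fact
  by_cases h1 : g = 1
  · simp [h1]
  obtain ⟨θ, h2, -, h3, -⟩ := hD.exists_section_fun hB hM hg h1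
  obtain ⟨χ, hχ, h4⟩ : ∃ χ ∈ B, χ g ≠ 0 := by
    by_contra hn
    push Not at hn
    rw [← h2, blockPart_eq] at h3
    exact h3 (finsum_mem_of_eqOn_zero fun χ hχ => by simp [hn χ hχ])
  obtain ⟨k, hk⟩ := isPElt_of_mem hD.isPGroup hg
  refine (h χ hχ).card_support_le hN hρ (fun j hj => ?_) h4
  obtain ⟨i, -, rfl⟩ := (Nat.dvd_prime_pow hM.prime).1 (hk ▸ Perm.dvd_of_mem_cycleType hj)
  exact dvd_pow_self p fun e => by simpa [e] using Perm.two_le_of_mem_cycleType hj

theorem card_le_pow_of_rank {G A : Type*} [Group G] [CommGroup A] {s : ℕ}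
    {D : Subgroup G} (hs : SectionalPRankLE p s D) (hA : ∀ a : A, a ^ p = 1) {φ : A →* G}
    (hφ : Function.Injective φ) (h : φ.range ≤ D) : Nat.card A ≤ p ^ s := by
  let ψ : A →* (⊤ : Subgroup D) ⧸ (⊥ : Subgroup (⊤ : Subgroup D)) :=
    (QuotientGroup.quotientBot.trans topEquiv).symm.toMonoidHom.comp
      (φ.codRestrict D fun a => h ⟨a, rfl⟩)
  have h1 : Function.Injective ψ := fun a b e =>
    hφ (congrArg Subtype.val ((QuotientGroup.quotientBot.trans topEquiv).symm.injective e))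
  rw [Nat.card_congr (MonoidHom.ofInjective h1).toEquiv]
  exact hs ⊤ ⊥ ψ.range inferInstance (by rintro _ ⟨a, rfl⟩; rw [← map_pow, hA, map_one])

end Cfsg.Sym
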