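import Cfsg.Agent.Sym.OrbC
import Cfsg.Agent.Grp.Frattini
import Cfsg.Agent.Grp.CommCount
import Cfsg.Agent.Blk.Weight

/-!
# Group theoretic lemmas for blocks of covering groups of alternating groups
-/

set_option autoImplicit false
set_option linter.unusedSectionVars false

namespace Cfsg.Sym

open Equiv Equiv.Perm Finset Subgroup GA

variable {p : ℕ} [hp : Fact p.Prime] {α : Type*} [Fintype α] [DecidableEq α] {G : Type*} [Group G]
  [Finite G]

theorem small_of_le_commutator (hG : IsPGroup p G) {Z : Subgroup G} (h1 : Z ≤ center G)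
    (h2 : Z ≤ commutator G) (h3 : Z.index ∣ p ^ 2) :
    Nat.card G ≤ p ^ 2 ∨ Nat.card G ≤ p ^ 3 ∧ Nat.card (center G) ≤ p := by
  have hp2 := pow_pos hp.out.pos 2
  by_cases hc : IsMulCommutative G
  · rw [(commutator_eq_bot_iff G).2 hc, le_bot_iff] at h2
    exact .inl (Nat.le_of_dvd hp2 (by simpa [h2] using h3))
  have h4 := Nat.dvd_antisymm ((index_dvd_of_le h1).trans h3) (IsPGroup.sq_dvd_index_center hG hc)
  have h5 : Z.index = p ^ 2 := Nat.dvd_antisymm h3 (h4 ▸ index_dvd_of_le h1)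
  obtain ⟨A, h6, _, h7⟩ := IsPGroup.exists_index_eq_ge hG (mt center_eq_top_iff.1 hc)
  have h8 : (center G).relIndex A = p := by
    have := relIndex_mul_index h6
    rwa [h4, h7, sq, Nat.mul_left_inj hp.out.ne_zero] at this
  have : IsCyclic (A ⧸ (center G).subgroupOf A) := isCyclic_of_prime_card h8
  have : IsMulCommutative A := (QuotientGroup.mk' ((center G).subgroupOf A)
    ).isMulCommutative_of_isCyclic_of_ker_le_center fun x hx => mem_center_iff.2 fun y =>
      Subtype.ext (mem_center_iff.1 (by simpa [mem_subgroupOf] using hx) y.1)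
  have : IsCyclic (G ⧸ A) := isCyclic_of_prime_card h7
  have h9 := card_commutator_mul_of_isCyclic_quotient A
  rw [inf_eq_right.2 h6, ← ((center G).subgroupOf A).index_mul_card,
    Nat.card_congr (subgroupOfEquivOfLe h6).toEquiv, Nat.mul_left_inj Nat.card_pos.ne'] at h9
  have h10 := (card_le_of_le h2).trans_eq (h9.trans h8)
  have h11 := Z.index_mul_card
  have h12 := (center G).index_mul_card
  rw [h5] at h11
  rw [h4, ← h11, Nat.mul_right_inj hp2.ne'] at h12
  exact .inr ⟨h11 ▸ pow_succ p 2 ▸ Nat.mul_le_mul_left _ h10, h12 ▸ h10⟩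

theorem card_le_two {S : Subgroup G} {z : G} (h : ∀ x ∈ S, x = 1 ∨ x = z) : Nat.card S ≤ 2 :=
  (Nat.card_mono (t := {1, z}) (Set.toFinite _) h).trans
    (Set.ncard_insert_le _ _ |>.trans (by simp))

open scoped IsMulCommutative in
theorem isCyclic_of_card_eq_eight [IsMulCommutative G] (h : Nat.card G = 8) {z : G}
    (h' : ∀ x : G, x * x = 1 → x = 1 ∨ x = z) : IsCyclic G := by
  have h1 : Nat.card (powMonoidHom 2 : G →* G).ker ≤ 2 :=
    card_le_two fun x hx => h' x (by simpa [sq] using hx)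
  have h2 := (powMonoidHom 2 : G →* G).ker.index_mul_card
  rw [index_ker, h] at h2
  obtain ⟨_, ⟨x, rfl⟩, hx⟩ : ∃ y ∈ (powMonoidHom 2 : G →* G).range, y ∉ (powMonoidHom 2).ker := by
    by_contra! e
    have := card_le_of_le (show (powMonoidHom 2 : G →* G).range ≤ _ from e)
    nlinarith
  refine isCyclic_of_orderOf_eq_card x (h ▸ orderOf_eq_prime_pow (p := 2) (n := 2) ?_ ?_)
  · simpa [← pow_mul] using hx
  · exact (show 8 = 2 ^ (2 + 1) from rfl) ▸ h ▸ pow_card_eq_one'

theorem isSylowIn_inf {P L : Subgroup G} (h : IsSylowIn p P L) (N : Subgroup G) [hN : N.Normal] :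
    IsSylowIn p (P ⊓ N) (L ⊓ N) :=
  ⟨inf_le_inf_right _ h.le, h.isPGroup.to_inf_left, fun Q hQ hQ' hle => by
    obtain ⟨g, -, e⟩ := h.exists_cjS_le hQ' (hQ.trans inf_le_left)
    refine (eq_of_le_of_card_ge hle (card_cjS g Q ▸ card_le_of_le (le_inf e ?_))).symm
    rintro _ ⟨x, hx, rfl⟩
    exact hN.conj_mem _ (hQ hx).2 g⟩

theorem exists_four {σ : Perm α} (h1 : σ * σ = 1) (h2 : σ ≠ 1) (h3 : sign σ = 1) :
    ∃ a c, [a, σ a, c, σ c].Nodup := by
  obtain ⟨a, ha⟩ : ∃ a, σ a ≠ a := by simpa [Equiv.ext_iff] using h2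
  obtain ⟨c, hc⟩ : ∃ c, σ c ≠ swap a (σ a) c := by
    by_contra! e
    rw [Equiv.ext e, sign_swap ha.symm] at h3
    simp at h3
  have h4 : ∀ x, σ (σ x) = x := fun x => by rw [← Perm.mul_apply, h1, Perm.one_apply]
  refine ⟨a, c, ?_⟩
  rw [swap_apply_def] at hc
  grind

theorem exists_eq_swap_mul_swap (h7 : Fintype.card α ≤ 7) {σ : Perm α} (h1 : σ * σ = 1)
    (h2 : σ ≠ 1) (h3 : sign σ = 1) :
    ∃ a b c d, [a, b, c, d].Nodup ∧ σ = swap a c * swap b d := by
  obtain ⟨a, c, h⟩ := exists_four h1 h2 h3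
  have h4 : ∀ x, σ (σ x) = x := fun x => by rw [← Perm.mul_apply, h1, Perm.one_apply]
  refine ⟨a, c, σ a, σ c, by grind, by_contra fun e => ?_⟩
  obtain ⟨a', c', h'⟩ := exists_four (σ := σ⁻¹ * (swap a (σ a) * swap c (σ c))) (by
    ext x; simp only [inv_eq_of_mul_eq_one_right h1, Perm.mul_apply, swap_apply_def, Perm.one_apply]
    grind) (mt inv_mul_eq_one.1 e) (by simp [h3, sign_swap (show a ≠ σ a by grind),
      sign_swap (show c ≠ σ c by grind)])
  have h5 : ∀ x, (σ⁻¹ * (swap a (σ a) * swap c (σ c))) x ≠ x → [a, σ a, c, σ c, x].Nodup ∧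
      (σ⁻¹ * (swap a (σ a) * swap c (σ c))) x = σ x := fun x => by
    simp only [inv_eq_of_mul_eq_one_right h1, Perm.mul_apply, swap_apply_def]; grind
  obtain ⟨h6, h8⟩ := h5 a' (by grind)
  obtain ⟨h9, h10⟩ := h5 c' (by grind)
  rw [h8, h10] at h'
  have := (show [a, σ a, c, σ c, a', σ a', c', σ c'].Nodup by
    clear * - h6 h9 h' h4
    simp at *
    grind).length_le_card
  simp at this
  omega

theorem card_center_le_two {π : G →* Perm α} {z : G} (hz : z ≠ 1) (hzc : z ∈ center G)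
    (h1 : ∀ g, π g = 1 ↔ g = 1 ∨ g = z) (hr : π.range = alternatingGroup α)
    (h2 : ∀ a b c d, [a, b, c, d].Nodup → ∀ y, π y a = b → π y b = a → π y c = d → π y d = c →
      ∃ s, π s = swap a c * swap b d ∧ y * s * y⁻¹ = s * z)
    {P : Subgroup (Perm α)} {F : Set α} (hP : IsSylowIn 2 P (fixingSubgroup (Perm α) F))
    {D : Subgroup G} (hD : P ⊓ alternatingGroup α = D.map π) : Nat.card (center D) ≤ 2 := by
  suffices ∀ y ∈ D, (∀ d ∈ D, Commute d y) → π y * π y = 1 → π y = 1 by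
    rw [← Subgroup.card_subtype]
    refine card_le_two (z := z) ?_
    rintro _ ⟨y, hy, rfl⟩
    obtain ⟨k, hk⟩ := hP.isPGroup ⟨π y, (hD.ge ⟨_, y.2, rfl⟩).1⟩
    rw [Subtype.ext_iff, Subgroup.coe_pow, OneMemClass.coe_one] at hk
    refine (h1 _).1 ?_
    induction k with
    | zero => simpa using hk
    | succ k ih =>
      refine ih (map_pow π _ _ ▸ this _ (pow_mem y.2 _) (fun d hd => Commute.pow_right
        (congrArg Subtype.val (mem_center_iff.1 hy ⟨d, hd⟩)) _) ?_)
      rw [map_pow, ← sq, ← pow_mul, ← pow_succ, hk]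
  intro y hy h3 h4
  by_contra h5
  obtain ⟨a, c, h⟩ := exists_four h4 h5 (hr.le ⟨y, rfl⟩)
  have h6 : ∀ x, π y (π y x) = x := fun x => by rw [← Perm.mul_apply, h4, Perm.one_apply]
  obtain ⟨s, hs, e⟩ := h2 _ _ _ _ h y rfl (h6 a) rfl (h6 c)
  have h7 : ∀ g g', π g = π g' → g' = g ∨ g' = g * z := fun g g' e => by
    simpa [inv_mul_eq_iff_eq_mul] using (h1 (g⁻¹ * g')).1 (by simp [e])
  have h8 := (isSylowIn_inf hP (alternatingGroup α)).of_le (L' := (fixingSubgroup (Perm α) F ⊓
    alternatingGroup α) ⊓ centralizer {π y}) (le_inf (inf_le_inf_right _ hP.le) (by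
      rw [hD]
      rintro _ ⟨d, hd, rfl⟩
      exact mem_centralizer_singleton_iff.2 ((h3 d hd).map π))) inf_le_left
  have h9 := mem_of_not_dvd_relIndex (K := (centralizer {y}).map π) (x := π s) (n := 1) ?_
    (fun e => h8.not_dvd_relIndex (e.trans (relIndex_dvd_of_le_left _ (hD ▸ map_mono fun d hd =>
      mem_centralizer_singleton_iff.2 (h3 d hd))))) ⟨⟨?_, hr.le ⟨s, rfl⟩⟩, ?_⟩ ?_
  · obtain ⟨t, ht, e'⟩ := h9
    have h10 : Commute s y := by
      obtain rfl | rfl := h7 _ _ e'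
      exacts [mem_centralizer_singleton_iff.1 ht, Commute.mul_left
        (mem_centralizer_singleton_iff.1 ht) (mem_center_iff.1 hzc y).symm]
    exact hz (by simpa [← h10.eq] using e.symm)
  · rintro _ ⟨⟨-, h10⟩, h11⟩
    obtain ⟨g, rfl⟩ := hr.ge h10
    refine le_normalizer_map π ⟨g, mem_normalizer_fintype fun x hx => ?_, rfl⟩
    have h12 : Commute x y := mem_centralizer_singleton_iff.1 hx
    have h13 : Commute x (g⁻¹ * y * g) := by
      obtain e | e := h7 y (g⁻¹ * y * g) (by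
        simp [mul_assoc, ← (mem_centralizer_singleton_iff.1 h11)]) <;> rw [e]
      exacts [h12, h12.mul_right (mem_center_iff.1 hzc x)]
    simpa [mul_assoc, mem_centralizer_singleton_iff, Commute, SemiconjBy] using h13.conj g
  · rintro ⟨x, hx⟩
    have := hP.le (hD.ge ⟨_, hy, rfl⟩).1 ⟨x, hx⟩
    change π y x = x at this
    change π s x = x
    simp only [hs, Perm.mul_apply, swap_apply_def]
    clear * - this h h6; grind
  · have := congrArg π e
    simpa [(h1 z).2 (.inr rfl), mem_centralizer_singleton_iff, eq_mul_inv_iff_mul_eq]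
      using this.symm
  · ext x
    simp only [hs, pow_one, sq, Perm.mul_apply, swap_apply_def, Perm.one_apply]
    clear * - h; grind

end Cfsg.Sym
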