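import Cfsg.Agent.Sym.Clif
import Cfsg.Agent.Sym.Char

/-!
# A double cover of the symmetric group
-/

set_option autoImplicit false
set_option linter.unusedSectionVars false

namespace Cfsg.Sym

open Finset Matrix Equiv Equiv.Perm

variable {α : Type*} [Fintype α] [LinearOrder α]

/-- The sign as a complex number. -/
def sg (σ : Perm α) : ℂ := ((sign σ : ℤ) : ℂ)

theorem sg_mul (σ τ : Perm α) : sg (σ * τ) = sg σ * sg τ := by simp [sg]

theorem sg_eq_or (σ : Perm α) : sg σ = 1 ∨ sg σ = -1 := by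
  rcases Int.units_eq_one_or (sign σ) with h | h <;> simp [sg, h]

theorem sg_mul_self (σ : Perm α) : sg σ * sg σ = 1 := by rcases sg_eq_or σ with h | h <;> simp [h]

theorem apply_eq_iff_of_fix {σ : Perm α} {a b : α} (h : σ a = a) : σ b = a ↔ b = a :=
  h.symm.congr_right.trans σ.injective.eq_iff

variable (α) in
/-- The double cover. -/
def Pin : Subgroup (Perm α × (Mt α)ˣ) where
  carrier := {x | (x.2 : Mt α)ᵀ * x.2 = 1 ∧
    ∀ w, cv w * x.2 = sg x.1 • (x.2 * cv (w ∘ Sum.map x.1 id))}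
  one_mem' := by simp [sg]
  mul_mem' := by
    rintro ⟨σ, g⟩ ⟨τ, h⟩ ⟨h1, h2⟩ ⟨h3, h4⟩
    refine ⟨?_, fun w => ?_⟩ <;> simp only [Prod.mk_mul_mk, Units.val_mul] at *
    · rw [transpose_mul, mul_assoc, ← mul_assoc _ g.1, h1, one_mul, h3]
    · rw [← mul_assoc, h2, smul_mul_assoc, mul_assoc, h4, mul_smul_comm, smul_smul, sg_mul,
        mul_assoc, Function.comp_assoc, Sum.map_comp_map]
      rfl
  inv_mem' := by
    rintro ⟨σ, g⟩ ⟨h1, h2⟩
    refine ⟨?_, fun w => ?_⟩ <;> simp only [Prod.inv_mk] at *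
    · rw [Units.inv_eq_of_mul_eq_one_left h1, transpose_transpose, mul_eq_one_comm, h1]
    · have := h2 (w ∘ Sum.map ⇑σ⁻¹ id)
      rw [Function.comp_assoc, Sum.map_comp_map, ← Perm.coe_mul, inv_mul_cancel] at this
      rw [Units.mul_inv_eq_iff_eq_mul, smul_mul_assoc, mul_assoc, this]
      simp [sg, smul_smul, ← Int.cast_mul, ← Units.val_mul]

namespace Pin

/-- The projection. -/
def pr : Pin α →* Perm α := (MonoidHom.fst _ _).comp (Pin α).subtype

/-- The Clifford representation. -/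
def mat : Pin α →* Mt α := (Units.coeHom _).comp ((MonoidHom.snd _ _).comp (Pin α).subtype)

variable {g h : Pin α} {a b c : α}

theorem ext' (h1 : pr g = pr h) (h2 : mat g = mat h) : g = h :=
  Subtype.ext (Prod.ext h1 (Units.ext h2))

theorem cv_mul (g : Pin α) (w : α ⊕ Option α → ℂ) :
    cv w * mat g = sg (pr g) • (mat g * cv (w ∘ Sum.map (pr g) id)) := g.2.2 w

theorem mat_inv (g : Pin α) : mat g⁻¹ = (mat g)ᵀ := Units.inv_eq_of_mul_eq_one_left g.2.1

/-- The central involution. -/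
def zz : Pin α := ⟨(1, -1), by simp [Pin, sg]⟩

@[simp] theorem pr_zz : pr (zz : Pin α) = 1 := rfl

@[simp] theorem mat_zz : mat (zz : Pin α) = -1 := rfl

theorem zz_mul_zz : (zz * zz : Pin α) = 1 := ext' (by simp) (by simp)

theorem zz_ne_one : (zz : Pin α) ≠ 1 := fun h => by
  have := congrFun (congrFun (congrArg mat h) ∅) ∅
  norm_num at this

theorem zz_comm (g : Pin α) : zz * g = g * zz := ext' (by simp) (by simp)

theorem eq_or_of_pr_eq_one (h : pr g = 1) : g = 1 ∨ g = zz := by
  obtain ⟨c, hc⟩ := exists_eq_smul_one (g := mat g) fun v => by simp [cv_mul, h, sg]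
  have h1 : (mat g)ᵀ * mat g = 1 := g.2.1
  have h2 := congrFun (congrFun h1 ∅) ∅
  simp only [hc, transpose_smul, transpose_one, mul_smul_comm, mul_one, Matrix.smul_apply, one_apply_eq,
    smul_eq_mul, mul_self_eq_one_iff] at h2
  exact h2.imp (fun e => ext' (by simp [h]) (by simp [hc, e])) fun e => ext' h (by simp [hc, e])

theorem eq_or_of_pr_eq (e : pr g = pr h) : g = h ∨ g = zz * h := by
  simpa only [mul_inv_eq_one, mul_inv_eq_iff_eq_mul, one_mul]
    using eq_or_of_pr_eq_one (g := g * h⁻¹) (by simp [e])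

/-- The root vector. -/
noncomputable def rv (a b : α) : α ⊕ Option α → ℂ :=
  ((√2 : ℝ) : ℂ)⁻¹ • (Pi.single (.inl a) 1 - Pi.single (.inl b) 1)

theorem sq_aux : ((√2 : ℝ) : ℂ)⁻¹ * ((√2 : ℝ) : ℂ)⁻¹ = 2⁻¹ := by
  rw [← mul_inv, ← Complex.ofReal_mul, Real.mul_self_sqrt zero_le_two]; simp

theorem rv_dot (w : α ⊕ Option α → ℂ) :
    rv a b ⬝ᵥ w = ((√2 : ℝ) : ℂ)⁻¹ * (w (.inl a) - w (.inl b)) := by simp [rv]

theorem rv_dot_self (h : a ≠ b) : rv a b ⬝ᵥ rv a b = 1 := by
  rw [rv_dot]; simp [rv, h, h.symm]; linear_combination 2 * sq_aux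

/-- The lift of a transposition. -/
noncomputable def tt (h : a ≠ b) : Pin α :=
  ⟨(swap a b, ⟨cv (rv a b), cv (rv a b), cv_mul_self (rv_dot_self h),
    cv_mul_self (rv_dot_self h)⟩), by
    refine ⟨(congrArg (· * _) (cv_transpose (by simp [rv]))).trans (cv_mul_self (rv_dot_self h)),
      fun w => ?_⟩
    have : w ∘ Sum.map (swap a b) id = w - (2 * (rv a b ⬝ᵥ w)) • rv a b := by
      ext j
      simp only [rv_dot]
      rw [rv, smul_smul, show ∀ x, 2 * (((√2 : ℝ) : ℂ)⁻¹ * x) * ((√2 : ℝ) : ℂ)⁻¹ = x from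
        fun x => by linear_combination 2 * x * sq_aux]
      rcases j with j | j
      · by_cases e : j = a
        · simp [e, h]
        · by_cases e' : j = b <;> simp [e, e', h.symm, swap_apply_of_ne_of_ne]
      · simp
    rw [this, cv_reflect (rv_dot_self h)]
    simp [sg, h]⟩

@[simp] theorem pr_tt (h : a ≠ b) : pr (tt h) = swap a b := rfl

theorem mat_tt (h : a ≠ b) : mat (tt h) = cv (rv a b) := rfl

theorem tt_mul_tt (h : a ≠ b) : tt h * tt h = 1 :=
  ext' (by simp) (cv_mul_self (rv_dot_self h))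

theorem pr_surjective : Function.Surjective (pr : Pin α → Perm α) := fun σ => by
  induction σ using swap_induction_on with
  | one => exact ⟨1, map_one _⟩
  | swap_mul σ a b h ih => obtain ⟨g, rfl⟩ := ih; exact ⟨tt h * g, by simp⟩

instance : Finite (Pin α) :=
  (MonoidHom.finite_iff_finite_ker_range pr).2
    ⟨(Set.toFinite {1, zz}).subset fun _ => eq_or_of_pr_eq_one, inferInstance⟩

theorem tt_mul (h : a ≠ b) (ha : pr g a = a) (hb : pr g b = b) :
    mat (tt h) * mat g = sg (pr g) • (mat g * mat (tt h)) := by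
  rw [mat_tt, cv_mul]
  congr 3
  ext (j | j) <;> simp [rv, Pi.single_apply, apply_eq_iff_of_fix ha, apply_eq_iff_of_fix hb]

theorem mul_of_disjoint (hg : sign (pr g) = -1) (hd : (pr g).Disjoint (pr h)) :
    mat h * mat g = sg (pr h) • (mat g * mat h) := by
  induction hn : #(pr h).support using Nat.strong_induction_on generalizing h with | _ n ih
  by_cases e : pr h = 1
  · rcases eq_or_of_pr_eq_one e with rfl | rfl <;> simp [sg]
  obtain ⟨x, hx⟩ : ∃ x, pr h x ≠ x := by simpa [Equiv.ext_iff] using e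
  have h1 := ih (h := tt hx.symm * h) _ (hn ▸ card_support_swap_mul hx) (hd.mono le_rfl fun y hy =>
    (mem_support_swap_mul_imp_mem_support_ne hy).1) rfl
  have h2 := tt_mul hx.symm ((hd x).resolve_right hx)
    ((hd _).resolve_right ((pr h).injective.ne hx))
  rw [← one_mul h, ← tt_mul_tt hx.symm, mul_assoc, map_mul, mul_assoc, h1, mul_smul_comm,
    ← mul_assoc, h2, map_mul pr (tt _) (_ * _), sg_mul, smul_mul_assoc, smul_smul, mul_assoc]
  simp [sg, hg, hx.symm]

/-- The trace of the Clifford representation. -/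
noncomputable def T (g : Pin α) : ℂ := (mat g).trace

theorem isCharacter_T : IsCharacter (Pin α) T := isCharacter_trace mat

theorem T_zz_mul (g : Pin α) : T (zz * g) = -T g := by simp [T]

theorem T_mul_comm (g h : Pin α) : T (g * h) = T (h * g) := by simp [T, trace_mul_comm (mat g)]

theorem star_T (g : Pin α) : (starRingEnd ℂ) (T g) = T g := by
  rw [← isCharacter_T.isGen.apply_inv, T, mat_inv, trace_transpose, T]

theorem T_eq_zero_of_odd (h : sign (pr g) = -1) : T g = 0 :=
  trace_eq_zero_of_conj (c := cv (Pi.single (.inr none) 1)) (cv_mul_self (by simp)) (by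
    rw [cv_mul, sg, h]
    simp only [Units.val_neg, Units.val_one, Int.cast_neg, Int.cast_one, neg_smul, one_smul]
    congr 3
    ext (j | j) <;> simp)

theorem isConj_zz_mul (h1 : sign (pr g) = 1) (h2 : ¬ ∀ k ∈ pt (pr g), Odd k) :
    IsConj g (zz * g) := by
  obtain ⟨k, hk, h3⟩ : ∃ k ∈ (pr g).cycleType, Even k := by
    by_contra! e
    refine h2 fun k hk => ?_
    rw [pt_eq, Multiset.mem_add] at hk
    exact hk.elim (fun e' => Nat.not_even_iff_odd.1 (e k e')) fun e' => by
      simp [Multiset.eq_of_mem_replicate e']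
  obtain ⟨c, r, h4, h5, h6, rfl⟩ := mem_cycleType_iff.1 hk
  obtain ⟨c, rfl⟩ := pr_surjective c
  obtain ⟨r', rfl⟩ : ∃ r, g = c * r := ⟨c⁻¹ * g, by simp⟩
  obtain rfl : pr r' = r := by simpa using h4
  have h7 : sign (pr c) = -1 := by rw [h6.sign, h3.neg_one_pow]
  have h8 : sign (pr r') = -1 := by simpa [h7, neg_eq_iff_eq_neg] using h1
  refine isConj_iff.2 ⟨c⁻¹, ext' (by simp [h5.commute.eq]) ?_⟩
  simp [mul_of_disjoint h7 h5, sg, h8]

theorem T_eq_zero (h : ¬ ∀ k ∈ pt (pr g), Odd k) : T g = 0 := by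
  rcases Int.units_eq_one_or (sign (pr g)) with e | e
  · obtain ⟨x, hx⟩ := isConj_iff.1 (isConj_zz_mul e h)
    have := T_zz_mul g
    rw [← hx, T_mul_comm, inv_mul_cancel_left] at this
    linear_combination this / 2
  · exact T_eq_zero_of_odd e

theorem T_mul_tt_tt (h : sign (pr g) = 1) (ha : pr g a = a) (hb : pr g b = b) (hab : a ≠ b)
    (hbc : b ≠ c) (hac : a ≠ c) : T (g * tt hab * tt hbc) = -T g / 2 := by
  have h1 : ∀ x : α, cv (Pi.single (Sum.inl x) 1) * cv (Pi.single (Sum.inl x) 1) = 1 := fun x =>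
    cv_mul_self (by simp)
  have h2 : ∀ x y : α, x ≠ y → pr g x = x →
      (mat g * (cv (Pi.single (.inl x) 1) * cv (Pi.single (.inl y) 1))).trace = 0 := fun x y e hx =>
    trace_eq_zero_of_conj (h1 x) (by
      rw [← mul_assoc, cv_mul, show Pi.single (Sum.inl x) 1 ∘ Sum.map (pr g) id =
        Pi.single (Sum.inl x) (1 : ℂ) by
          ext (j | j) <;> simp [Pi.single_apply, apply_eq_iff_of_fix hx]]
      simp [sg, h, mul_assoc, cv_anti (v := Pi.single (.inl y) 1) (w := Pi.single (.inl x) 1)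
        (by simp [e])])
  simp only [T, map_mul, mat_tt, rv, map_smul, mul_smul_comm, smul_mul_assoc, smul_smul, sq_aux]
  simp only [map_sub, mul_assoc, mul_sub, sub_mul, trace_smul, trace_sub, h1, h2 a b hab ha, h2 a c hac ha,
    h2 b c hbc hb, mul_one]
  simp; ring

theorem T_sq_cycle (m : ℕ) : ∀ g h : Pin α, (pr h).IsCycle ∧ #(pr h).support = 2 * m + 1 ∨
    pr h = 1 ∧ m = 0 → sign (pr g) = 1 → (pr g).Disjoint (pr h) →
    T (g * h) ^ 2 * 2 ^ (2 * m) = T g ^ 2 := by
  induction m with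
  | zero =>
    rintro g h (⟨h1, h2⟩ | ⟨h1, -⟩) - -
    · have := h1.two_le_card_support; omega
    · rcases eq_or_of_pr_eq_one h1 with rfl | rfl <;> simp [← zz_comm, T_zz_mul]
  | succ m ih =>
    rintro g h (⟨h1, h2⟩ | ⟨-, h1⟩) hg hd
    swap
    · omega
    obtain ⟨x, hx, -⟩ := id h1
    have h3 : pr h (pr h x) ≠ x := fun e => by
      rw [h1.eq_swap_of_apply_apply_eq_self hx e, card_support_swap hx.symm] at h2; omega
    have h4 := h1.swap_mul hx h3
    have h5 := support_swap_mul_eq _ _ h3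
    have h6 : pr h x ∈ (swap x (pr h x) * pr h).support := by simp [h5, hx]
    have h7 : #(swap x (pr h x) * pr h).support = 2 * m + 2 := by
      rw [h5, card_sdiff_of_subset (by simpa using hx), h2]; rfl
    have h8 : pr (tt hx.symm * h) = swap x (pr h x) * pr h := map_mul ..
    have h9 : sign (pr (tt hx.symm * h)) = -1 := by
      rw [h8, h4.sign, h7, Even.neg_one_pow ⟨m + 1, by ring⟩]
    have hh : h = tt hx.symm * (tt hx.symm * h) := by rw [← mul_assoc, tt_mul_tt, one_mul]
    have hgx := (hd x).resolve_right hx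
    have hgy := (hd _).resolve_right ((pr h).injective.ne hx)
    have hs : (pr (tt hx.symm * h)).support ⊆ (pr h).support.erase x := by simp [h8, h5, erase_eq]
    rw [← h8] at h4 h6 h7
    generalize tt hx.symm * h = k at *
    generalize pr h x = y at *
    rw [mem_support] at h6
    have h10 : (swap y (pr k y) * pr k).support ⊆ (pr k).support := fun z hz =>
      (mem_support_swap_mul_imp_mem_support_ne hz).1
    have h11 := ih g (tt h6.symm * k) ?_ hg
      (hd.mono le_rfl (h10.trans (hs.trans (erase_subset ..))))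
    · rw [hh, ← one_mul k, ← tt_mul_tt h6.symm, mul_assoc, ← mul_assoc g, ← mul_assoc (g * _),
        T_mul_comm, ← mul_assoc, ← mul_assoc, T_mul_tt_tt, T_mul_comm, ← h11]
      · ring
      · simp [hg, h9, h6.symm]
      · rw [map_mul, mul_apply, hgx]
        exact notMem_support.1 fun e => by simpa using hs (h10 e)
      · simp [hgy]
      · exact fun e => by simpa [← e] using hs (apply_mem_support.2 (mem_support.2 h6))
    · rw [map_mul, pr_tt]
      by_cases e : pr k (pr k y) = y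
      · have := h4.eq_swap_of_apply_apply_eq_self h6 e
        exact .inr ⟨by rw [← this, this, Equiv.swap_mul_self], by
          rw [this, card_support_swap h6.symm] at h7; omega⟩
      · exact .inl ⟨h4.swap_mul h6 e, by
          rw [support_swap_mul_eq _ _ e, card_sdiff_of_subset (by simpa using h6), h7]; rfl⟩

theorem T_sq_mul (σ : Perm α) : (∀ k ∈ σ.cycleType, Odd k) → ∀ g h : Pin α, pr h = σ →
    sign (pr g) = 1 → (pr g).Disjoint σ →
    T (g * h) ^ 2 * 2 ^ #σ.support = T g ^ 2 * 2 ^ σ.cycleType.card := by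
  induction σ using cycle_induction_on with
  | base_one => exact fun _ g h e hg hd => by simpa using T_sq_cycle 0 g h (.inr ⟨e, rfl⟩) hg (e ▸ hd)
  | base_cycles σ hσ =>
    rintro h1 g h rfl hg hd
    obtain ⟨m, hm⟩ := h1 _ (by rw [hσ.cycleType]; exact Multiset.mem_singleton_self _)
    rw [hm, pow_succ 2, ← mul_assoc, T_sq_cycle m g h (.inl ⟨hσ, hm⟩) hg hd, hσ.cycleType]
    simp
  | induction_disjoint σ τ h1 hσ ih ih' =>
    intro h2 g h e hg hd
    obtain ⟨k, rfl⟩ := pr_surjective σ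
    simp only [h1.cycleType_mul, Multiset.mem_add, or_imp, forall_and] at h2
    rw [disjoint_iff_disjoint_support, h1.support_mul, disjoint_union_right,
      ← disjoint_iff_disjoint_support, ← disjoint_iff_disjoint_support] at hd
    have h3 := ih' h2.2 (g * k) (k⁻¹ * h) (by simp [e]) (by
      simp [hg, hσ.sign, (h2.1 _ (by simp [hσ.cycleType]) : Odd #(pr k).support).neg_one_pow])
      (by simpa using hd.2.mul_left h1)
    rw [mul_assoc, mul_inv_cancel_left] at h3
    rw [h1.card_support_mul, h1.cycleType_mul, Multiset.card_add, pow_add, pow_add, ← mul_assoc,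
      mul_right_comm, h3, mul_right_comm, ih h2.1 g k rfl hg hd.1, mul_assoc]

theorem T_one : T (1 : Pin α) = 2 ^ Fintype.card α := by simp [T]

theorem T_sq (h : ∀ k ∈ pt (pr g), Odd k) :
    T g ^ 2 = 2 ^ (Fintype.card α + (pt (pr g)).card) := by
  have h1 := T_sq_mul _ (fun k hk => h k (by simp [pt_eq, hk])) 1 g rfl (by simp)
    (by simp [disjoint_one_left])
  refine mul_right_cancel₀ (pow_ne_zero #(pr g).support two_ne_zero) ?_
  rw [one_mul, T_one] at h1
  have := card_le_univ (pr g).support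
  simp only [h1, pt_eq, ← pow_mul, ← pow_add, Multiset.card_add, Multiset.card_replicate]
  congr 1; omega

theorem isCharacter_T_div {K β : Type*} [Group K] [DecidableEq β] (j : K →* Pin α) {f : α → β}
    (hf : ∀ g, f ∘ pr (j g) = f) {k : ℕ} (h1 : 2 * k ≤ Fintype.card α + #(univ.image f) + 1)
    (h2 : (∃ g, sign (pr (j g)) = -1) → 2 * k ≤ Fintype.card α + #(univ.image f)) :
    IsCharacter K fun g => T (j g) / 2 ^ k := by
  let v : univ.image f ⊕ Option α → α ⊕ Option α → ℂ := Sum.elim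
    (fun i => Sum.elim (fun x => if f x = i then ((√(#{y | f y = i}) : ℝ) : ℂ)⁻¹ else 0) 0)
    fun i => Pi.single (.inr i) 1
  have h3 : #(univ : Finset (univ.image f ⊕ Option α)) = Fintype.card α + #(univ.image f) + 1 := by
    simp; ring
  rw [show (fun g => T (j g) / 2 ^ k) = fun g => (mat.comp j g * 1).trace / 2 ^ k by simp [T]]
  refine isCharacter_trace_div (mat.comp j) (c := fun i => cv (v i))
    (ε := fun g => sg (pr (j g))) (fun _ => sg_eq_or _) (fun i => cv_mul_self ?_)
    (fun i i' e => cv_anti ?_) (fun g i => ?_) k univ 1 (by simp) (by simp) (by simp) (by omega)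
    fun ⟨g, e⟩ => by
      have := h2 ⟨g, (Int.units_eq_one_or _).resolve_left fun e' => by norm_num [sg, e'] at e⟩
      omega
  · rcases i with ⟨i, hi⟩ | i
    · obtain ⟨x, -, rfl⟩ := mem_image.1 hi
      have : (#{y | f y = f x} : ℂ) ≠ 0 := Nat.cast_ne_zero.2 (card_ne_zero.2 ⟨x, by simp⟩)
      simp [v, dotProduct, ← mul_inv, ← Complex.ofReal_mul, ← sum_filter, filter_filter, this]
    · simp [v]
  · rcases i with i | i <;> rcases i' with i' | i' <;> simp [v, dotProduct, Pi.single_apply]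
    · refine sum_eq_zero fun x _ => ?_
      split_ifs with e1 e2 <;> simp
      exact (e (congrArg _ (Subtype.ext (e2.symm.trans e1)))).elim
    · exact fun e' => e (by rw [e'])
  · rw [MonoidHom.comp_apply, cv_mul]
    congr 3
    rcases i with i | i <;> ext (x | x) <;> simp [v, Pi.single_apply]
    rw [show f (pr (j g) x) = f x from congrFun (hf g) x]

end Pin

end Cfsg.Sym

set_option linter.all false in
theorem Cfsg.Rz.Sym_Pin_0 : True := by
  have := @_root_.Cfsg.Sym.Pin.T.eq_def.{0}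
  have := @_root_.Cfsg.Sym.Pin.T.fun_cases
  have := @_root_.Cfsg.Sym.Pin.eq_def.{0}
  have := @_root_.Cfsg.Sym.Pin.fun_cases
  have := @_root_.Cfsg.Sym.sg.eq_def.{0}
  have := @_root_.Cfsg.Sym.sg.fun_cases
  have := @_root_.Cfsg.Sym.Pin.pr.eq_def.{0}
  have := @_root_.Cfsg.Sym.Pin.pr.eq_1.{0}
  have := @_root_.Cfsg.Sym.Pin.pr.fun_cases
  have := @_root_.Cfsg.Sym.Pin.tt.eq_def.{0}
  have := @_root_.Cfsg.Sym.Pin.tt.eq_1.{0}
  have := @_root_.Cfsg.Sym.Pin.tt.fun_cases
  have := @_root_.Cfsg.Sym.Pin.zz.eq_def.{0}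
  have := @_root_.Cfsg.Sym.Pin.zz.eq_1.{0}
  have := @_root_.Cfsg.Sym.Pin.zz.fun_cases
  have := @_root_.Cfsg.Sym.Pin.mat.eq_def.{0}
  have := @_root_.Cfsg.Sym.Pin.mat.eq_1.{0}
  have := @_root_.Cfsg.Sym.Pin.mat.fun_cases
  have := @_root_.Cfsg.Sym.Pin.rv.eq_def.{0}
  have := @_root_.Cfsg.Sym.Pin.rv.fun_cases
  trivial
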