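import Cfsg.Agent.Sym.AltCover
import Cfsg.Agent.Sym.Pin

/-!
# The double cover of an alternating group embeds in the Pin group
-/

set_option autoImplicit false
set_option linter.unusedSectionVars false

namespace Cfsg.Sym

open Equiv Equiv.Perm Finset Subgroup
open scoped commutatorElement

variable {α : Type*} [Fintype α] {H : Type*} [Group H] {π : H →* Perm α}

theorem commutator_le_of_range_le {Q : Type*} [Group Q] {π : H →* Q} (hc : π.ker ≤ center H)
    {K : Subgroup H} (h : π.range ≤ K.map π) : commutator H ≤ ⁅K, K⁆ := by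
  have h3 : ∀ x, ∃ k ∈ K, ∃ c ∈ center H, x = k * c := fun x => by
    obtain ⟨k, hk, e⟩ := h ⟨x, rfl⟩
    exact ⟨k, hk, k⁻¹ * x, hc (by simp [e]), by simp⟩
  refine (commutator_le (H₁ := ⊤) (H₂ := ⊤)).2 fun x _ y _ => ?_
  obtain ⟨k, hk, c, hc, rfl⟩ := h3 x
  obtain ⟨k', hk', c', hc', rfl⟩ := h3 y
  have h4 : Commute c (k' * c') := (mem_center_iff.1 hc _).symm
  have h5 : Commute k c' := mem_center_iff.1 hc' _
  rw [commutatorElement_mul_left_eq_conj_mul, h4.commutator_eq,
    commutatorElement_mul_right_eq_mul_conj, h5.commutator_eq]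
  simpa using commutator_mem_commutator hk hk'

open Pin in
theorem exists_toPin [LinearOrder α] [Finite H] [Group.IsPerfect H] (hc : π.ker ≤ center H)
    (hr : π.range = alternatingGroup α) (h5 : 5 ≤ Fintype.card α) {z : H} (hz : z ≠ 1)
    (hzz : z * z = 1) (h1 : ∀ g, π g = 1 ↔ g = 1 ∨ g = z)
    (h2 : ∀ a b c d, [a, b, c, d].Nodup → ∀ s, π s = swap a c * swap b d → s * s = z) :
    ∃ ι : H →* Pin α, Function.Injective ι ∧ (∀ h, pr (ι h) = π h) ∧ ι z = zz := by
  let Y := (π.comp (.fst H (Pin α))).eqLocus (pr.comp (.snd H _))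
  let f : Y →* H := (MonoidHom.fst H _).comp Y.subtype
  have hf : Function.Surjective f := fun h => by
    obtain ⟨g, e⟩ := pr_surjective (π h)
    exact ⟨⟨(h, g), e.symm⟩, rfl⟩
  have h3 : ∀ y : Y, π (f y) = 1 → y ∈ center Y ∧ y * y = 1 := by
    rintro ⟨⟨h, g⟩, e⟩ e'
    have e1 := mem_center_iff.1 (hc (x := h) e')
    obtain rfl | rfl := eq_or_of_pr_eq_one (e.symm.trans e') <;> obtain rfl | rfl := (h1 h).1 e' <;>
      simp [mem_center_iff, Subtype.ext_iff, zz_comm, zz_mul_zz, e1, hzz]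
  let φ := f.comp (commutator Y).subtype
  have h4 : φ.range = ⊤ := by
    rw [MonoidHom.range_comp, range_subtype, map_commutator_eq, MonoidHom.range_eq_top.2 hf]
    exact Group.IsPerfect.commutator_eq_top
  have h6 : (π.comp φ).range = alternatingGroup α := by
    rw [MonoidHom.range_comp, h4, ← MonoidHom.range_eq_map, hr]
  have : Group.IsPerfect (commutator Y) := Subgroup.isPerfect_iff.2 <|
    (commutator_le_right _ _).antisymm <| commutator_le_of_range_le (π := π.comp f)
      (fun y hy => (h3 y hy).1) <| by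
        rw [← range_subtype (commutator Y), ← MonoidHom.range_comp, MonoidHom.comp_assoc, h6, ← hr]
        rintro _ ⟨y, rfl⟩
        exact ⟨_, rfl⟩
  have h7 : (π.comp φ).ker ≤ center _ := fun y hy =>
    mem_center_iff.2 fun x => Subtype.ext (mem_center_iff.1 (h3 y hy).1 x)
  obtain ⟨z', -, h8, -⟩ := exists_z h7 h6 h5 fun g h => commute_of_not_dvd h7 fun e => by
    obtain ⟨x, hx⟩ := exists_prime_orderOf_dvd_card' 3 e
    have := orderOf_dvd_of_pow_eq_one (x := x) (n := 2)
      (Subtype.ext (Subtype.ext ((sq _).trans (h3 x.1.1 x.2).2)))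
    rw [hx] at this; omega
  obtain ⟨y₀, h9⟩ := h4.ge (mem_top z)
  have h10 : Function.Injective φ := (injective_iff_map_eq_one _).2 fun y hy => by
    refine ((h8 y).1 (by simp [hy])).resolve_right fun e1 => hz ?_
    obtain e2 | e2 := (h8 y₀).1 (by simp [h9, h1]) <;> rw [← h9, e2]
    exacts [map_one _, e1 ▸ hy]
  let e := MulEquiv.ofBijective φ ⟨h10, MonoidHom.range_eq_top.1 h4⟩
  let ι : H →* Pin α := ((MonoidHom.snd H _).comp (Y.subtype.comp (commutator Y).subtype)).comp
    e.symm.toMonoidHom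
  have h11 : ∀ h, pr (ι h) = π h := fun h =>
    (e.symm h).1.2.symm.trans (congrArg π (e.apply_symm_apply h))
  have h12 : ι z = zz := by
    obtain ⟨g⟩ : Nonempty (Fin 4 ↪ α) := Function.Embedding.nonempty_of_card_le (by simp; omega)
    have e1 : g 0 ≠ g 2 := by simp
    have e2 : g 1 ≠ g 3 := by simp
    obtain ⟨s, hs⟩ := hr.ge (show swap (g 0) (g 2) * swap (g 1) (g 3) ∈ alternatingGroup α by
      simp [sign_swap e1, sign_swap e2])
    have e3 : tt e2 * tt e1 = zz * (tt e1 * tt e2) := ext' (by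
      simp [swap_mul_eq_mul_swap (swap (g 0) (g 2)), swap_apply_of_ne_of_ne]) (by
      rw [map_mul, tt_mul e2 (by simp [swap_apply_of_ne_of_ne]) (by simp [swap_apply_of_ne_of_ne])]
      simp [sg, sign_swap e1])
    have e4 : tt e1 * tt e2 * (tt e1 * tt e2) = zz := by
      rw [mul_assoc, ← mul_assoc (tt e2), e3, mul_assoc, mul_assoc, tt_mul_tt, mul_one, zz_comm,
        ← mul_assoc, tt_mul_tt, one_mul]
    rw [← h2 (g 0) (g 1) (g 2) (g 3) (by simp) s hs, map_mul]
    obtain h | h := eq_or_of_pr_eq (g := ι s) (h := tt e1 * tt e2) (by simp [h11, hs]) <;> rw [h]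
    · exact e4
    · rw [mul_assoc, ← mul_assoc _ zz, ← zz_comm, mul_assoc, ← mul_assoc zz, zz_mul_zz, one_mul, e4]
  refine ⟨ι, (injective_iff_map_eq_one _).2 fun h e => ?_, h11, h12⟩
  refine ((h1 h).1 (by rw [← h11, e, map_one])).resolve_right ?_
  rintro rfl
  exact zz_ne_one (h12.symm.trans e)

end Cfsg.Sym
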