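import Cfsg.Agent.Sym.Local
import Cfsg.Agent.Sym.Small
import Cfsg.Agent.Sym.ToPin
import Cfsg.Agent.Blk.Quot
import Cfsg.Agent.Grp.Transfer

/-!
# Robinson's height bound for covering groups of alternating groups
-/

set_option autoImplicit false
set_option linter.unusedSectionVars false

namespace Cfsg.Sym

open Equiv Equiv.Perm Finset Subgroup GA

variable {p : ℕ} [hp : Fact p.Prime] {α : Type*} [Fintype α] [LinearOrder α] {G : Type*} [Group G]
  [Finite G] {M : Ideal AlgInt} {B : Set (IrrCharacter G)} {D : Subgroup G} {χ : IrrCharacter G}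
  {π : G →* Perm α}

theorem exists_cover {b : Set (IrrCharacter (alternatingGroup α))} {Q : Subgroup _}
    {β : IrrCharacter _} (hM : IsPModular p M) (hb : IsPBlock M b) (hQ : IsDefectGroup p M b Q)
    (hβ : β ∈ b) : ∃ P, ∃ F : Set α, ∃ w, IsSylowIn p P (fixingSubgroup (Perm α) F) ∧
      P ⊓ alternatingGroup α = Q.map (alternatingGroup α).subtype ∧
      (charDegree β.1).factorization p + w ≤ (Fintype.card α).factorial.factorization p ∧
      ∀ u ∈ P, (∀ d ∈ P, Commute u d) → #u.support ≤ p * w := by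
  obtain ⟨ψ, hψ⟩ := β.exists_liesOver_above (alternatingGroup α).subtype_injective
  have h1 := hψ.covers_blockOf hM
  rw [← hb.eq_blockOf hM hβ] at h1
  obtain ⟨P, hP, -, h2⟩ := h1.exists_isDefectGroup_inf hM (isPBlock_blockOf ψ) hb hQ
  obtain ⟨F, hF⟩ := exists_isSylowIn_map (π := .id _) (by simp) (by simp [hp.out.ne_one])
    (by simp) hM (isPBlock_blockOf ψ) hP
  obtain ⟨w, h3, h4⟩ := exists_weight_perm p ψ
  refine ⟨P, F, w, by simpa using hF, by simpa using h2, le_trans (Nat.add_le_add_right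
    ((Nat.factorization_le_iff_dvd β.charDegree_pos.ne' ψ.charDegree_pos.ne').2
      hψ.charDegree_dvd p) _) h3, fun u hu hu' => card_support_le_of_central (.id _) hM
    (isPBlock_blockOf ψ) hP (hM.mem_blockOf_self ψ) h4 hu fun d hd =>
      mem_centralizer_singleton_iff.2 (hu' d hd).symm⟩

theorem factorization_card [Nontrivial α] (hr : π.range = alternatingGroup α) :
    (Nat.card G).factorization p + (2 : ℕ).factorization p =
      (Fintype.card α).factorial.factorization p + (Nat.card π.ker).factorization p := by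
  have h1 := π.ker.index_mul_card
  rw [index_ker, hr] at h1
  rw [← Fintype.card_perm, ← Nat.card_eq_fintype_card, ← two_mul_nat_card_alternatingGroup, ← h1,
    Nat.factorization_mul Nat.card_pos.ne' Nat.card_pos.ne',
    Nat.factorization_mul two_ne_zero Nat.card_pos.ne']
  simp only [Finsupp.add_apply]
  omega

theorem nonempty_equiv_map {Q : Type*} [Group Q] {π : G →* Q} (hc : π.ker ≤ center G)
    (hk : ¬ p ∣ Nat.card π.ker) (hD : IsPGroup p D) : Nonempty (D ≃* D.map π) := by
  obtain ⟨k, hk'⟩ := hD.exists_card_eq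
  have h4 : ∀ d : D, d.1 ^ p ^ k = 1 := fun d =>
    hk' ▸ congrArg Subtype.val (pow_card_eq_one' (x := d))
  exact ⟨.ofBijective (π.subgroupMap D) ⟨fun a b e => Subtype.ext
    (eq_of_map_eq hc hk (h4 a) (h4 b) (congrArg Subtype.val e)), π.subgroupMap_surjective D⟩⟩

theorem not_dvd_card_ker {z : G} (hp2 : p ≠ 2)
    (h1 : ∀ g, π g = 1 ↔ g = 1 ∨ g = z) : ¬ p ∣ Nat.card π.ker := fun e => by
  have := Nat.le_of_dvd Nat.card_pos e |>.trans (card_le_two fun g hg => (h1 g).1 hg)
  have := hp.out.two_le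
  omega

theorem card_dvd_of_le_seven [Nontrivial α] (h7 : Fintype.card α ≤ 7) {Q : Subgroup (Perm α)}
    (h : Q ≤ alternatingGroup α) : Nat.card Q ∣ 2520 := by
  refine (card_dvd_of_le h).trans (Nat.dvd_of_mul_dvd_mul_left two_pos ?_)
  rw [two_mul_nat_card_alternatingGroup, Nat.card_eq_fintype_card, Fintype.card_perm]
  exact Nat.factorial_dvd_factorial h7

theorem small_two (hc : π.ker ≤ center G) (hr : π.range = alternatingGroup α) [Group.IsPerfect G]
    (h5 : 5 ≤ Fintype.card α) (h7 : Fintype.card α ≤ 7) (h3 : ¬ 3 ∣ Nat.card π.ker)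
    (hD : IsPGroup 2 D) : Nat.card D ≤ 4 ∨ Nat.card (center D) ≤ 2 ∨ IsCyclic D := by
  obtain ⟨z, hzz, h1, h2, h4⟩ := exists_z hc hr h5 fun g h => commute_of_not_dvd hc h3
  have : Nontrivial α := Fintype.one_lt_card_iff_nontrivial.1 (by omega)
  obtain ⟨P, hP, h6⟩ := exists_isSylowIn_ge (hD.map π)
    (L := fixingSubgroup (Perm α) (∅ : Set α)) (by simp)
  have h8 : D.map π ≤ P ⊓ alternatingGroup α := le_inf h6 (hr ▸ map_le_range _ _)
  have h0 : ∀ k n, 2 ^ k < 2 ^ (n + 1) → 2 ^ k ≤ 2 ^ n := fun k n h => Nat.pow_le_pow_right two_pos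
    (Nat.lt_succ_iff.1 ((Nat.pow_lt_pow_iff_right one_lt_two).1 h))
  obtain h9 | h9 := h8.eq_or_lt
  · by_cases hz : z = 1
    swap; · exact .inr (.inl (card_center_le_two hz (hc ((h1 z).2 (.inr rfl))) h1 hr h4 hP h9.symm))
    obtain ⟨e⟩ := nonempty_equiv_map (p := 2) hc (by
      rw [(MonoidHom.ker_eq_bot_iff π).2 ((injective_iff_map_eq_one' _).2 (by simpa [hz] using h1))]
      simp) hD
    obtain ⟨u, -, w, -, -, h10, h11⟩ := card_le_or_two hP
    rw [← h9, ← Nat.card_congr e.toEquiv, ← Nat.card_congr (centerCongr e).toEquiv] at h11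
    have := (card_le_univ u.support).trans h7
    have h12 : 2 ^ w ≤ 2 ^ 3 := Nat.pow_le_pow_right two_pos (by omega)
    obtain ⟨k, hk⟩ := (hD.to_subgroup (center D)).exists_card_eq
    have := h0 k 1
    omega
  obtain ⟨k, hk⟩ := (hP.isPGroup.to_inf_left (K := alternatingGroup α)).exists_card_eq
  obtain ⟨l, hl⟩ := (hD.map π).exists_card_eq
  obtain ⟨m, hm⟩ := hD.exists_card_eq
  have h10 : k ≤ 3 := by
    by_contra! e
    exact absurd ((pow_dvd_pow 2 (show 4 ≤ k from e)).trans
      (hk ▸ card_dvd_of_le_seven h7 inf_le_right)) (by norm_num)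
  have h11 := (card_lt_of_lt h9).trans_le (hk.trans_le (Nat.pow_le_pow_right two_pos h10))
  have h12 := h0 l 2 (hl ▸ h11)
  have h13 := (π.ker.subgroupOf D).index_mul_card
  rw [← relIndex, relIndex_ker, hl] at h13
  have h14 : Nat.card (π.ker.subgroupOf D) ≤ 2 := by
    rw [← Subgroup.card_subtype]
    exact card_le_two (z := z) (by rintro _ ⟨g, hg, rfl⟩; exact (h1 _).1 hg)
  refine or_iff_not_imp_left.2 fun h15 => ?_
  have h16 : Nat.card D = 8 := by
    have := h0 m 2
    have := Nat.mul_le_mul h12 h14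
    omega
  by_cases h17 : IsMulCommutative D
  swap
  · have := Nat.le_of_dvd (Nat.pos_of_ne_zero FiniteIndex.index_ne_zero) (IsPGroup.sq_dvd_index_center hD h17)
    have := (center D).index_mul_card
    exact .inl (by nlinarith)
  obtain ⟨y, hy⟩ : ∃ y : D, y ≠ 1 ∧ π y = 1 := by
    by_contra! e
    rw [show π.ker.subgroupOf D = ⊥ from (eq_bot_iff_forall _).2 fun x hx =>
      by_contra fun e' => e x e' hx, card_bot] at h13
    omega
  have h18 : y.1 = z := ((h1 _).1 hy.2).resolve_left (by simpa using hy.1)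
  refine .inr (isCyclic_of_card_eq_eight h16 (z := y) fun x hx => ?_)
  by_cases e : π x = 1
  · simpa [← h18] using (h1 _).1 e
  have h19 : x.1 * x.1 = 1 := congrArg Subtype.val hx
  obtain ⟨a, b, c, d, h20, e'⟩ := exists_eq_swap_mul_swap h7 (by rw [← map_mul, h19, map_one]) e
    (hr.le ⟨_, rfl⟩)
  exact absurd (Subtype.ext (h18.trans ((h2 a b c d h20 _ e').symm.trans h19))) hy.1

variable (hM : IsPModular p M) (hB : IsPBlock M B) (hD : IsDefectGroup p M B D) (hχ : χ ∈ B)
  (hc : π.ker ≤ center G) (hr : π.range = alternatingGroup α)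
include hM hB hD hχ hc hr

theorem htOk_of_ker [Nontrivial α] (hk : ¬ p ∣ Nat.card π.ker) (h : ∀ g, π g = 1 → χ g = χ 1) :
    HtOk p B D χ := by
  let π' := π.codRestrict (alternatingGroup α) fun g => hr.le ⟨g, rfl⟩
  have h1 : Function.Surjective π' := fun σ => (hr.ge σ.2).imp fun g e => Subtype.ext e
  have h2 : π'.ker = π.ker := π.ker_codRestrict ..
  obtain ⟨β, rfl⟩ := χ.exists_inflate_eq π' h1 (h2 ▸ h)
  obtain ⟨P, F, w, h3, h4, h5, h6⟩ := exists_cover hM (isPBlock_blockOf β)
    (IsDefectGroup.map_of_image_inflate hM h1 (h2 ▸ hk) (isPBlock_blockOf β) (P := D) (by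
      rwa [image_inflate_blockOf hM h1 (h2 ▸ hk), ← hB.eq_blockOf hM hχ])) (hM.mem_blockOf_self β)
  rw [Subgroup.map_map, show (alternatingGroup α).subtype.comp π' = π from rfl] at h4
  rw [show charDegree β.1 = charDegree (β.inflate π' h1).1 from (charDegree_comp β.1 π').symm] at h5
  have h7 := factorization_card (p := p) hr
  rw [Nat.factorization_eq_zero_of_not_dvd hk] at h7
  obtain ⟨e⟩ := nonempty_equiv_map hc hk hD.isPGroup
  have e1 := Nat.card_congr e.toEquiv
  have e2 := Nat.card_congr (centerCongr e).toEquiv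
  obtain rfl | hp2 := eq_or_ne p 2
  · obtain ⟨u, hu, w', h8, -, h9, h10⟩ := card_le_or_two h3
    have h11 := h9 ▸ h6 u hu h8
    rw [h4, ← e1, ← e2] at h10
    rw [Nat.prime_two.factorization_self] at h7
    obtain h10 | h10 := h10
    · exact htOk_of_small hM hB hD hχ (.inl h10)
    obtain _ | w' := w'
    · have := Nat.card_pos (α := D)
      have := Nat.card_pos (α := center D)
      omega
    exact htOk_of_le hM hB hD hχ (w := w') (by omega) (by omega)
  · have h8 : ¬ p ∣ 2 := by rwa [Nat.prime_dvd_prime_iff_eq hp.out Nat.prime_two]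
    rw [inf_eq_left.2 (le_of_isPGroup_of_not_dvd_index h3.isPGroup
      (by rwa [alternatingGroup.index_eq_two]))] at h4
    obtain ⟨u, hu, w', h8', -, h9, h10⟩ := card_le_or_odd h3
    have h11 := Nat.le_of_mul_le_mul_left (h9 ▸ h6 u hu h8') hp.out.pos
    rw [Nat.factorization_eq_zero_of_not_dvd h8] at h7
    exact htOk_of_le hM hB hD hχ (w := w') (by omega) (by rwa [e1, e2, ← h4])

theorem htOk_of_spin [Group.IsPerfect G] (h5 : 5 ≤ Fintype.card α) (hp2 : p ≠ 2) {z : G}
    (hz : χ z = -χ 1) (hzz : z * z = 1) (h1 : ∀ g, π g = 1 ↔ g = 1 ∨ g = z)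
    (h2 : ∀ a b c d, [a, b, c, d].Nodup → ∀ s, π s = swap a c * swap b d → s * s = z) :
    HtOk p B D χ := by
  have : Nontrivial α := Fintype.one_lt_card_iff_nontrivial.1 (by omega)
  obtain ⟨ι, h3, h4, h6⟩ := exists_toPin hc hr h5 (fun e => χ.apply_one_ne_zero (by
    rw [e] at hz; linear_combination hz / 2)) hzz h1 h2
  have h7 : ι.range = (alternatingGroup α).comap Pin.pr := by
    refine le_antisymm (fun _ ⟨g, e⟩ => by rw [← e, mem_comap, h4]; exact hr.le ⟨g, rfl⟩)
      fun g hg => ?_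
    obtain ⟨h, e⟩ := hr.ge hg
    obtain e' | e' := Pin.eq_or_of_pr_eq (e.symm.trans (h4 h).symm)
    exacts [⟨h, e'.symm⟩, ⟨z * h, by rw [e', map_mul, h6]⟩]
  have : IsNormalEmb ι := ⟨h3, h7 ▸ inferInstance⟩
  have h8 : ι.range.index = 2 := by
    rw [h7, index_comap_of_surjective _ Pin.pr_surjective, alternatingGroup.index_eq_two]
  obtain ⟨w, h9, h10⟩ := Pin.exists_weight (fun g => by rw [h7]; rfl) h8 χ h6 hz hp2
  have hk := not_dvd_card_ker hp2 h1
  have h11 : ¬ p ∣ 2 := by rwa [Nat.prime_dvd_prime_iff_eq hp.out Nat.prime_two]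
  have h12 := factorization_card (p := p) hr
  rw [Nat.factorization_eq_zero_of_not_dvd hk, Nat.factorization_eq_zero_of_not_dvd h11] at h12
  refine htOk_of_weight hM hB hD hχ hc hk (fun σ k e => hr.ge ?_) (w := w) (by omega)
    fun u hu hu' => ?_
  · refine (Int.units_eq_one_or _).resolve_right fun e' => ?_
    simpa [e', (hp.out.odd_of_ne_two hp2).pow.neg_one_pow] using congrArg sign e
  obtain ⟨ψ, e | ⟨-, e⟩⟩ := index_two_cases h8 χ
  · have h13 : LiesOver ι ψ.1 χ.1 :=
      (liesOver_iff_ip_ind ψ.isClassFunction _).2 (by simp [e, ψ.ip_self])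
    have h14 := h13.covers_blockOf hM
    rw [← hB.eq_blockOf hM hχ] at h14
    obtain ⟨P, hP, -, h15⟩ := h14.exists_isDefectGroup_inf hM (isPBlock_blockOf ψ) hB hD
    rw [inf_eq_left.2 (le_of_isPGroup_of_not_dvd_index hP.isPGroup (h8 ▸ h11))] at h15
    rw [← h4]
    refine card_support_le_of_central Pin.pr hM (isPBlock_blockOf ψ) hP (hM.mem_blockOf_self ψ)
      (e ▸ h10) (h15.ge ⟨u, hu, rfl⟩) (h15.trans_le ?_)
    rintro _ ⟨d, hd, rfl⟩
    rw [mem_centralizer_singleton_iff, ← map_mul, mem_centralizer_singleton_iff.1 (hu' hd), map_mul]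
  · refine card_support_le_of_central π hM hB hD hχ (fun g hg => h4 g ▸ h10 _ ?_) hu hu'
    simpa [show ind ι χ.1 (ι g) = _ from congrFun e g] using hg

theorem htOk_of_small_odd [Group.IsPerfect G] (h5 : 5 ≤ Fintype.card α) (h7 : Fintype.card α ≤ 7)
    (hp2 : p ≠ 2) : HtOk p B D χ := by
  have : Nontrivial α := Fintype.one_lt_card_iff_nontrivial.1 (by omega)
  obtain ⟨S, hS⟩ := hD.isPGroup.exists_le_sylow
  have h1 := small_of_le_commutator S.isPGroup' (Z := π.ker.subgroupOf S)
    (fun x hx => mem_center_iff.2 fun y => Subtype.ext (mem_center_iff.1 (hc hx) y))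
    (fun x hx => by
      have := inf_commutator_inf_center_le S.card_coprime_index
        ⟨⟨x.2, Group.IsPerfect.mem_commutator⟩, hc hx⟩
      rw [← map_subtype_commutator] at this
      simpa using this)
    (by
      rw [← relIndex, relIndex_ker]
      obtain ⟨k, hk⟩ := (S.isPGroup'.map π).exists_card_eq
      refine hk ▸ pow_dvd_pow p (not_lt.1 fun e => ?_)
      have h1 := (pow_dvd_pow p e).trans (hk ▸ card_dvd_of_le_seven h7 (hr ▸ map_le_range π S))
      have h2 := (Nat.pow_le_pow_iff_left three_ne_zero).1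
        ((Nat.le_of_dvd (by simp) h1).trans (show 2520 ≤ 14 ^ 3 by simp))
      have h3 := hp.out.two_le
      interval_cases p <;> simp at h1 hp2)
  refine htOk_of_small hM hB hD hχ ?_
  obtain h1 | ⟨h1, h2⟩ := h1
  · exact .inl ((card_le_of_le hS).trans h1)
  obtain rfl | h3 := hS.eq_or_lt
  · exact .inr h2
  obtain ⟨k, hk⟩ := hD.isPGroup.exists_card_eq
  exact .inl (hk ▸ Nat.pow_le_pow_right hp.out.pos (Nat.lt_succ_iff.1
    ((Nat.pow_lt_pow_iff_right hp.out.one_lt).1 (hk ▸ (card_lt_of_lt h3).trans_le h1))))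

theorem htOk [Group.IsPerfect G] (h5 : 5 ≤ Fintype.card α) : HtOk p B D χ := by
  have : Nontrivial α := Fintype.one_lt_card_iff_nontrivial.1 (by omega)
  obtain h7 | h8 := le_or_gt (Fintype.card α) 7
  · obtain rfl | hp2 := eq_or_ne p 2
    swap; · exact htOk_of_small_odd hM hB hD hχ hc hr h5 h7 hp2
    obtain ⟨N, hN⟩ := exists_isSylowIn 3 π.ker
    have : N.Normal := ⟨fun x hx g => by
      rwa [mem_center_iff.1 (hc (hN.le hx)) g, mul_inv_cancel_right]⟩
    have hs := QuotientGroup.mk'_surjective N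
    have := Group.IsPerfect.ofSurjective hs
    obtain ⟨e⟩ := nonempty_equiv_map (π := QuotientGroup.mk' N) (by simpa using hN.le.trans hc) (by
      obtain ⟨k, hk⟩ := hN.isPGroup.exists_card_eq
      rw [QuotientGroup.ker_mk', hk]
      exact fun e => by simpa using Nat.prime_two.dvd_of_dvd_pow e) hD.isPGroup
    have h1 := small_two (π := QuotientGroup.lift N π hN.le) (D := D.map (QuotientGroup.mk' N))
      (by
        rw [QuotientGroup.ker_lift]
        rintro _ ⟨g, hg, rfl⟩
        exact mem_center_iff.2 (hs.forall.2 fun x => by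
          rw [← map_mul, mem_center_iff.1 (hc hg), map_mul]))
      (by rw [← hr, MonoidHom.range_eq_map, ← map_top_of_surjective _ hs, Subgroup.map_map,
        QuotientGroup.lift_comp_mk', MonoidHom.range_eq_map]) h5 h7
      (by rw [QuotientGroup.ker_lift, ← relIndex_ker, QuotientGroup.ker_mk']
          exact hN.not_dvd_relIndex) (hD.isPGroup.map _)
    rw [← Nat.card_congr e.toEquiv, ← Nat.card_congr (centerCongr e).toEquiv, ← e.isCyclic,
      ← or_assoc] at h1
    exact h1.elim (htOk_of_small hM hB hD hχ) fun _ =>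
      .inl (hD.blockHeight_eq_zero_of_isCyclic hM hB hχ)
  obtain ⟨z, hzz, h1, h2, h4⟩ := exists_z hc hr h5 fun g h => commute_of_eight_le hc hr h8
  have hzc := hc ((h1 z).2 (.inr rfl))
  obtain rfl | hz := eq_or_ne z 1
  · refine htOk_of_ker hM hB hD hχ hc hr ?_ fun g hg => by rw [((h1 g).1 hg).elim id id]
    rw [(MonoidHom.ker_eq_bot_iff π).2 ((injective_iff_map_eq_one' _).2 (by simpa using h1))]
    simp [hp.out.ne_one]
  obtain rfl | hp2 := eq_or_ne p 2
  · let π' := π.codRestrict (alternatingGroup α) fun g => hr.le ⟨g, rfl⟩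
    obtain ⟨b, hb, -, h3⟩ := hD.exists_block_quotient hM (π := π')
      (fun σ => (hr.ge σ.2).imp fun g e => Subtype.ext e) (fun ⟨g, hg⟩ => ⟨1, Subtype.ext <| by
        obtain rfl | rfl := (h1 g).1 (congrArg Subtype.val hg) <;> simp [sq, hzz]⟩) hB
    obtain ⟨β, hβ⟩ := hb.nonempty hM
    obtain ⟨P, F, -, h6, h7, -⟩ := exists_cover hM hb h3 hβ
    exact htOk_of_small hM hB hD hχ (.inr (card_center_le_two hz hzc h1 hr h4 h6
      (h7.trans (Subgroup.map_map ..))))
  have h3 := χ.isCharacter.apply_mul_of_mem_charCenter (χ.center_le_charCenter hzc) z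
  obtain h6 | h6 := mul_self_eq_mul_self_iff.1 (hzz ▸ h3).symm
  · refine htOk_of_ker hM hB hD hχ hc hr (not_dvd_card_ker hp2 h1) fun g hg => ?_
    obtain rfl | rfl := (h1 g).1 hg
    exacts [rfl, h6]
  · exact htOk_of_spin hM hB hD hχ hc hr h5 hp2 h6 hzz h1 h2

end Cfsg.Sym
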