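import Mathlib.GroupTheory.SpecificGroups.Alternating.Centralizer
import Mathlib.GroupTheory.IsPerfect
import Mathlib.Logic.Equiv.Fintype
import Mathlib.GroupTheory.GroupAction.FixingSubgroup

/-!
# Central extensions of alternating groups
-/

set_option autoImplicit false
set_option linter.unusedSectionVars false

namespace Cfsg.Sym

open Equiv Equiv.Perm Finset Subgroup

variable {α : Type*} [Fintype α] [DecidableEq α] {H : Type*} [Group H] {π : H →* Perm α}
  {L : Set H} {a b c d : α}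

/-- The three-cycle `(a b c)`. -/
def c3 (a b c : α) : Perm α := swap a b * swap b c

theorem conj_c3 (σ : Perm α) (a b c : α) : σ * c3 a b c * σ⁻¹ = c3 (σ a) (σ b) (σ c) := by
  simp [c3, swap_apply_apply, mul_assoc]

theorem c3_rot (h : [a, b, c].Nodup) : c3 b c a = c3 a b c := by
  ext x; simp only [c3, Perm.mul_apply, swap_apply_def]; grind

theorem c3_inv (h : [a, b, c].Nodup) : (c3 a b c)⁻¹ = c3 b a c := by
  rw [inv_eq_iff_mul_eq_one]
  ext x; simp only [c3, Perm.mul_apply, swap_apply_def, Perm.one_apply]; grind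

theorem isThreeCycle_c3 (h : [a, b, c].Nodup) : IsThreeCycle (c3 a b c) := by
  rw [c3, swap_comm]
  exact isThreeCycle_swap_mul_swap_same (by grind) (by grind) (by grind)

theorem c3_mul_c3 (h : [a, b, c, d].Nodup) : c3 a b c * c3 a b d = swap a c * swap b d := by
  ext x; simp only [c3, Perm.mul_apply, swap_apply_def]; grind

theorem commute_of_not_dvd [Finite H] (hc : π.ker ≤ center H) (h3 : ¬ 3 ∣ Nat.card π.ker) {g h : H}
    (hg : IsThreeCycle (π g)) (e : Commute (π g) (π h)) : Commute g h := by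
  have h1 : h * g * h⁻¹ * g⁻¹ ∈ π.ker := by simp [← e.eq]
  have h2 : g ^ 3 ∈ π.ker := by simp [← hg.orderOf]
  have h4 : (h * g * h⁻¹ * g⁻¹) ^ 3 * g ^ 3 = g ^ 3 := by
    rw [← Commute.mul_pow (mem_center_iff.1 (hc h1) g).symm, inv_mul_cancel_right, conj_pow,
      mem_center_iff.1 (hc h2), mul_inv_cancel_right]
  have h5 := Nat.eq_one_of_dvd_coprimes (Nat.prime_three.coprime_iff_not_dvd.2 h3)
    (orderOf_dvd_of_pow_eq_one (mul_eq_right.1 h4)) (π.ker.orderOf_dvd_natCard h1)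
  rw [orderOf_eq_one_iff, mul_inv_eq_one, mul_inv_eq_iff_eq_mul] at h5
  exact h5.symm

theorem commute_of_eight_le (hc : π.ker ≤ center H) (hr : π.range = alternatingGroup α)
    (h8 : 8 ≤ Fintype.card α) {g h : H} (hg : IsThreeCycle (π g)) (e : Commute (π g) (π h)) :
    Commute g h := by
  obtain ⟨a, ha⟩ := hg.isCycle.nonempty_support
  obtain ⟨i, hi⟩ := hg.isCycle.exists_zpow_eq (mem_support.1 ha)
    (mem_support.1 ((mem_support_iff_of_commute e.symm a).2 ha))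
  suffices Commute g (g ^ (-i) * h) by simpa using (Commute.self_zpow g i).mul_right this
  have h1 : Commute (π g) (π (g ^ (-i) * h)) := by
    simpa using (Commute.self_zpow (π g) i).inv_right.mul_right e
  have h2 : π (g ^ (-i) * h) a = a := by simp [← hi]
  generalize g ^ (-i) * h = r at h1 h2
  let A := (alternatingGroup ((π g).supportᶜ : Finset α)).map (ofSubtype (p := (· ∈ (π g).supportᶜ)))
  have h3 : ∀ σ, σ ∈ A ↔ σ.support ⊆ (π g).supportᶜ ∧ σ ∈ π.range := fun σ => by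
    simp only [A]
    rw [alternatingGroup.map_ofSubtype, mem_inf, mem_range_ofSubtype_iff, hr]; rfl
  have h4 : ⁅A, A⁆ = A := by
    simp only [A]
    rw [← map_commutator, commutator_alternatingGroup_eq_self]
    rw [Nat.card_eq_fintype_card, Fintype.card_coe, card_compl, hg.card_support]; omega
  have h5 : ⁅A.comap π, zpowers g⁆ ≤ center H := commutator_le.2 fun k hk _ ⟨j, e⟩ => hc <| by
    have : Commute (π k) (π g) := (disjoint_iff_disjoint_support.2
      (disjoint_compl_left.mono_left ((h3 _).1 hk).1)).commute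
    simp [← e, map_commutatorElement, (this.zpow_right j).commutator_eq]
  have h6 : ⁅⁅A.comap π, A.comap π⁆, zpowers g⁆ = ⊥ := by
    refine commutator_commutator_eq_bot_of_rotate ?_ ?_
    swap; rw [commutator_comm (zpowers g)]
    all_goals exact commutator_eq_bot_iff_le_centralizer.2 (h5.trans (center_le_centralizer _))
  have h7 : π r ∈ ⁅A.comap π, A.comap π⁆.map π := by
    rw [map_commutator, map_comap_eq_self fun σ hσ => ((h3 σ).1 hσ).2, h4, h3]
    refine ⟨fun x hx => mem_compl.2 fun hx' => mem_support.1 hx ?_, r, rfl⟩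
    obtain ⟨j, rfl⟩ := hg.isCycle.exists_zpow_eq (mem_support.1 ha) (mem_support.1 hx')
    rw [← Perm.mul_apply, ← (h1.zpow_left j).eq, Perm.mul_apply, h2]
  obtain ⟨k, hk, e⟩ := h7
  have h9 : Commute g k := commutator_eq_bot_iff_le_centralizer.1 h6 hk g (mem_zpowers g)
  simpa using h9.mul_right (mem_center_iff.1 (hc (x := k⁻¹ * r) (by simp [e])) g)

variable (π L) in
/-- An equivariant lifting of the three-cycles. -/
structure IsLift : Prop where
  three : ∀ g ∈ L, IsThreeCycle (π g)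
  cube : ∀ g ∈ L, g ^ 3 = 1
  inv : ∀ g ∈ L, g⁻¹ ∈ L
  conj : ∀ g ∈ L, ∀ h, h * g * h⁻¹ ∈ L
  inj : ∀ g ∈ L, ∀ h ∈ L, π g = π h → g = h
  surj : ∀ σ, IsThreeCycle σ → ∃ g ∈ L, π g = σ

open scoped IsMulCommutative in
theorem exists_isLift (hc : π.ker ≤ center H) (hr : π.range = alternatingGroup α)
    (h5 : 5 ≤ Fintype.card α)
    (h : ∀ g h : H, IsThreeCycle (π g) → Commute (π g) (π h) → Commute g h) : ∃ L, IsLift π L := by
  have h1 : ∀ g σ, IsThreeCycle (π g) → IsThreeCycle σ → ∃ h, π (h * g * h⁻¹) = σ := by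
    intro g σ hg hσ
    obtain ⟨⟨τ, hτ⟩, e⟩ := isConj_iff.1 (alternatingGroup.isThreeCycle_isConj (by simpa)
      (σ := ⟨_, hg.mem_alternatingGroup⟩) (τ := ⟨_, hσ.mem_alternatingGroup⟩) hg hσ)
    obtain ⟨h, rfl⟩ := hr.ge hτ
    exact ⟨h, by simpa using congrArg Subtype.val e⟩
  obtain ⟨σ, hσ⟩ : ∃ σ : Perm α, IsThreeCycle σ := by
    obtain ⟨a, b, c, -, -, -, h1, h2, h3⟩ := two_lt_card_iff.1 (show 2 < #(univ : Finset α) by
      rw [card_univ]; omega)
    exact ⟨_, isThreeCycle_swap_mul_swap_same h1 h2 h3⟩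
  obtain ⟨g, rfl⟩ := hr.ge hσ.mem_alternatingGroup
  obtain ⟨k, hk⟩ := h1 g _ hσ hσ.inv
  have h2 : k * g * k⁻¹ * g ∈ π.ker := by simp [hk, -map_mul, map_mul π _ g]
  have h3 : g ^ 3 ∈ π.ker := by simp [← hσ.orderOf]
  obtain ⟨s, hs⟩ : ∃ s : center H, s.1 = k * g * k⁻¹ * g := ⟨⟨_, hc h2⟩, rfl⟩
  obtain ⟨t, ht⟩ : ∃ t : center H, t.1 = g ^ 3 := ⟨⟨_, hc h3⟩, rfl⟩
  have h4 : ∀ (c : center H) x, Commute c.1 x := fun c x => (mem_center_iff.1 c.2 x).symm
  have h6 : k * g * k⁻¹ = s * g⁻¹ := by simp [hs]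
  have h7 : s ^ 3 = t ^ 2 := Subtype.ext <| by
    have := congrArg (· ^ 3) h6
    simp only [conj_pow, (h4 s _).mul_pow, inv_pow, ← ht, ← (h4 t k).eq, mul_inv_cancel_right,
      eq_mul_inv_iff_mul_eq] at this
    simp [← this, sq]
  obtain ⟨c, hc'⟩ : ∃ c, c = t * s⁻¹ ^ 2 := ⟨_, rfl⟩
  have h8 : π (c * g) = π g := by simp [hc', hs, ht, MonoidHom.mem_ker.1 h2, MonoidHom.mem_ker.1 h3,
    -map_mul, map_mul π _ g, map_mul π (g ^ 3)]
  have h9 : (c * g) ^ 3 = 1 := by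
    rw [(h4 c g).mul_pow, ← ht, ← Subgroup.coe_pow, ← Subgroup.coe_mul, OneMemClass.coe_eq_one,
      hc', mul_pow, ← pow_mul, mul_comm 2, pow_mul, inv_pow, h7]
    group
  have h10 : k * (c * g) * k⁻¹ = (c * g)⁻¹ := by
    rw [← mul_assoc, ← (h4 c k).eq, mul_assoc, mul_assoc, ← mul_assoc k, h6, mul_inv_rev,
      ← Subgroup.coe_inv, ← (h4 c⁻¹ _).eq, ← mul_assoc, ← Subgroup.coe_mul]
    congr 2
    rw [eq_inv_iff_mul_eq_one, mul_right_comm, ← sq, hc', mul_pow, ← h7]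
    group
  rw [← h8] at hσ
  generalize c * g = g at hσ h9 h10
  refine ⟨{x | ∃ h, h * g * h⁻¹ = x}, ?_, ?_, ?_, ?_, ?_, fun σ hσ' => ?_⟩
  · rintro _ ⟨h, rfl⟩
    simpa [IsThreeCycle] using hσ.cycleType
  · rintro _ ⟨h, rfl⟩
    simp [h9]
  · rintro _ ⟨h, rfl⟩
    exact ⟨h * k, by rw [conj_inv, ← h10]; group⟩
  · rintro _ ⟨h, rfl⟩ h'
    exact ⟨h' * h, by group⟩
  · rintro _ ⟨x, rfl⟩ _ ⟨y, rfl⟩ e
    have := (h g (y⁻¹ * x) hσ (by
      simp only [map_mul, map_inv] at e ⊢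
      rw [Commute, SemiconjBy, ← mul_right_inj (π y), ← mul_left_inj (π x)⁻¹]
      simp only [mul_assoc] at e ⊢
      simp [e])).eq
    rw [← mul_right_inj y⁻¹, ← mul_left_inj x]
    simp only [mul_assoc] at this ⊢
    simp [this]
  · obtain ⟨h, e⟩ := h1 g σ hσ hσ'
    exact ⟨_, ⟨h, rfl⟩, e⟩

theorem IsLift.conj_eq (hL : IsLift π L) {x y h : H} (hx : x ∈ L) (hy : y ∈ L)
    (e : π x = c3 a b c) (e' : π y = c3 (π h a) (π h b) (π h c)) : h * x * h⁻¹ = y :=
  hL.inj _ (hL.conj x hx h) _ hy (by simp [e, e', conj_c3])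

theorem IsLift.exists_sq (hL : IsLift π L) (hc : π.ker ≤ center H)
    (hr : π.range = alternatingGroup α) (h4 : 4 ≤ Fintype.card α) :
    ∃ z ∈ π.ker, z * z = 1 ∧ ∀ a b c d, [a, b, c, d].Nodup → ∀ x ∈ L, ∀ y ∈ L, π x = c3 a b c →
      π y = c3 a b d → (x * y) ^ 2 = z := by
  have h0 : ∀ a b c d, [a, b, c, d].Nodup → ∀ x y, π x = c3 a b c → π y = c3 a b d →
      (x * y) ^ 2 ∈ π.ker := fun a b c d h x y e e' => by
    rw [MonoidHom.mem_ker, map_pow, map_mul, e, e', c3_mul_c3 h]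
    ext x; simp only [sq, Perm.mul_apply, swap_apply_def, Perm.one_apply]; grind
  obtain ⟨f⟩ : Nonempty (Fin 4 ↪ α) := Function.Embedding.nonempty_of_card_le (by simpa)
  have hf : [f 0, f 1, f 2, f 3].Nodup := by simp
  obtain ⟨x₀, hx₀, e₀⟩ := hL.surj _ (isThreeCycle_c3 (a := f 0) (b := f 1) (c := f 2) (by simp))
  obtain ⟨y₀, hy₀, e₁⟩ := hL.surj _ (isThreeCycle_c3 (a := f 0) (b := f 1) (c := f 3) (by simp))
  have hz := h0 _ _ _ _ hf _ _ e₀ e₁
  have h1 : ∀ σ ∈ alternatingGroup α, ∀ x ∈ L, ∀ y ∈ L, π x = c3 (σ (f 0)) (σ (f 1)) (σ (f 2)) →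
      π y = c3 (σ (f 0)) (σ (f 1)) (σ (f 3)) → (x * y) ^ 2 = (x₀ * y₀) ^ 2 := by
    intro σ hσ x hx y hy e e'
    obtain ⟨h, rfl⟩ := hr.ge hσ
    rw [← hL.conj_eq hx₀ hx e₀ e, ← hL.conj_eq hy₀ hy e₁ e', conj_mul, conj_pow,
      mem_center_iff.1 (hc hz), mul_inv_cancel_right]
  have h2 : ∀ a b c d, [a, b, c, d].Nodup → ∀ x ∈ L, ∀ y ∈ L, π x = c3 a b c →
      π y = c3 a b d → (x * y) ^ 2 = (x₀ * y₀) ^ 2 := by
    intro a b c d h x hx y hy e e'
    obtain ⟨σ, hσ⟩ := Perm.exists_extending_pair f ![a, b, c, d] f.injective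
      (List.nodup_ofFn.1 (by simpa using h))
    obtain hs | hs := Int.units_eq_one_or (sign σ)
    · exact h1 σ hs x hx y hy (by simp [hσ, e]) (by simp [hσ, e'])
    · have := h1 (swap c d * σ) (by simp [hs, sign_swap (show c ≠ d by grind)]) y hy x hx
        (by simp [hσ, e', swap_apply_of_ne_of_ne, show a ≠ c ∧ a ≠ d ∧ b ≠ c ∧ b ≠ d by grind])
        (by simp [hσ, e, swap_apply_of_ne_of_ne, show a ≠ c ∧ a ≠ d ∧ b ≠ c ∧ b ≠ d by grind])
      rw [← mul_right_inj y, mem_center_iff.1 (hc hz), ← this]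
      simp [sq, mul_assoc]
  refine ⟨_, hz, ?_, h2⟩
  nth_rw 1 [← h2 (f 1) (f 0) (f 3) (f 2) (by simp) _ (hL.inv _ hy₀) _ (hL.inv _ hx₀)
    (by rw [map_inv, e₁, c3_inv (by simp)]) (by rw [map_inv, e₀, c3_inv (by simp)])]
  rw [← mul_inv_rev, inv_pow, inv_mul_cancel]

theorem eq_c3 {σ : Perm α} (h : IsThreeCycle σ) (ha : σ a ≠ a) :
    σ = c3 a (σ a) (σ (σ a)) ∧ [a, σ a, σ (σ a)].Nodup := by
  have := h.eq_swap_mul_swap_iff_mem_support.2 (mem_support.2 ha)
  refine ⟨this, ?_⟩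
  have h1 : σ (σ a) ≠ a := fun e => by
    rw [e, swap_comm (σ a), swap_mul_self] at this
    exact ha (by rw [this]; rfl)
  simp [ha.symm, h1.symm, (σ.injective.ne ha).symm]

open scoped commutatorElement in
theorem IsLift.eq_or (hL : IsLift π L) (hc : π.ker ≤ center H)
    (hr : π.range = alternatingGroup α) [Group.IsPerfect H] {z : H} (hz : z ∈ π.ker)
    (hzz : z * z = 1) (h : ∀ a b c d, [a, b, c, d].Nodup → ∀ x ∈ L, ∀ y ∈ L, π x = c3 a b c →
      π y = c3 a b d → (x * y) ^ 2 = z) {g : H} (hg : π g = 1) : g = 1 ∨ g = z := by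
  let F (U : Finset α) := (fixingSubgroup (Perm α) (U : Set α)ᶜ).comap π
  have hF : ∀ U g, g ∈ F U ↔ ∀ x ∉ U, π g x = x := fun U g => by
    simp [F, mem_fixingSubgroup_iff]
  let K (U : Finset α) := closure (insert z {g ∈ L | g ∈ F U})
  have hz1 : π z = 1 := hz
  have hzc := mem_center_iff.1 (hc hz)
  have hzK : ∀ U, z ∈ K U := fun U => subset_closure (.inl rfl)
  have h1 : ∀ U, K U ≤ F U := fun U => (closure_le _).2 <| by
    rintro _ (rfl | hk)
    exacts [(hF _ _).2 (by simp [hz1]), hk.2]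
  have h2 : ∀ U, ∀ g ∈ K U, π g = 1 → g = 1 ∨ g = z := by
    intro U
    induction U using Finset.induction_on with
    | empty =>
      intro g hg _
      have : K ∅ ≤ zpowers z := (closure_le _).2 <| by
        rintro _ (rfl | ⟨h1, h2⟩)
        exacts [mem_zpowers _,
          absurd (Equiv.ext fun x => (hF _ _).1 h2 x (by simp)) (hL.three _ h1).ne_one]
      obtain ⟨i, rfl⟩ := this hg
      obtain ⟨j, rfl | rfl⟩ := Int.even_or_odd' i <;>
        simp only [zpow_add, zpow_mul, zpow_two, hzz] <;> simp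
    | insert a U ha ih =>
      let T := {g ∈ L | g ∈ F (insert a U)}
      have h0 : ∀ g ∈ K U, π g a = a := fun g hg => (hF _ _).1 (h1 U hg) a ha
      have h3 : ∀ g ∈ T, π g a = a → g ∈ K U := fun g hg e =>
        subset_closure (.inr ⟨hg.1, (hF _ _).2 fun x hx => by
          have := (hF _ _).1 hg.2 x; clear * - this hx e; grind⟩)
      have h4 : ∀ g ∈ T, g⁻¹ ∈ T := fun g hg => ⟨hL.inv _ hg.1, inv_mem hg.2⟩
      have h5 : ∀ g ∈ T, ∀ k ∈ T, k * g * k⁻¹ ∈ T := fun g hg k hk =>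
        ⟨hL.conj _ hg.1 _, mul_mem (mul_mem hk.2 hg.2) (inv_mem hk.2)⟩
      have h6 : ∀ x ∈ T, ∀ y ∈ T, π x a ≠ a → π y a = π x a → y⁻¹ * x ∈ K U := by
        intro x hx y hy e e'
        obtain ⟨e1, n1⟩ := eq_c3 (hL.three _ hx.1) e
        obtain ⟨e2, n2⟩ := eq_c3 (hL.three _ hy.1) (e' ▸ e)
        rw [e'] at e2 n2
        by_cases e3 : π y (π x a) = π x (π x a)
        · simp [hL.inj _ hx.1 _ hy.1 (by rw [e1, e2, e3])]
        have e4 : y⁻¹ * x = y * x⁻¹ * y⁻¹ * z := by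
          nth_rw 1 [← h _ _ _ _ (by clear * - n1 n2 e3; grind) y hy.1 x hx.1 e2 e1,
            inv_eq_of_mul_eq_one_right (show y * (y * y) = 1 by rw [← hL.cube y hy.1, pow_three])]
          simp [sq, mul_assoc]
        rw [e4]
        refine mul_mem (h3 _ (h5 _ (h4 _ hx) _ hy) ?_) (hzK U)
        rw [← mul_inv_eq_iff_eq_mul.2 e4]
        simp [hz1, ← e']
      have h7 : ∀ g ∈ T, ∀ w, (w ∈ K U ∨ ∃ k ∈ T, π k a ≠ a ∧ k⁻¹ * w ∈ K U) →
          (g * w ∈ K U ∨ ∃ k ∈ T, π k a ≠ a ∧ k⁻¹ * (g * w) ∈ K U) := by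
        rintro g hg w (hw | ⟨k, hk, e, hw⟩) <;> by_cases e1 : π g a = a
        · exact .inl (mul_mem (h3 g hg e1) hw)
        · exact .inr ⟨g, hg, e1, by simpa⟩
        · refine .inr ⟨_, h5 k hk g hg, ?_, by simpa [mul_assoc] using mul_mem (h3 g hg e1) hw⟩
          rw [map_mul, map_mul, Perm.mul_apply, Perm.mul_apply, h3 _ (h4 g hg) _ |> h0 _]
          · exact fun e2 => e ((π g).injective (e2.trans e1.symm))
          · rw [map_inv, Perm.inv_eq_iff_eq, e1]
        by_cases e2 : π g (π k a) = π k a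
        · refine .inr ⟨k, hk, e, ?_⟩
          simpa [mul_assoc] using mul_mem (h3 _ (h5 g hg _ (h4 k hk)) (by simp [e2])) hw
        by_cases e3 : π g (π k a) = a
        · simpa [mul_assoc] using Or.inl (mul_mem (h6 k hk _ (h4 g hg) e (by
            rw [map_inv, Perm.inv_eq_iff_eq, e3])) hw)
        have e4 : π g a = π k a := by
          obtain ⟨e5, n⟩ := eq_c3 (hL.three _ hg.1) e1
          rw [e5] at e2 e3
          simp only [c3, Perm.mul_apply, swap_apply_def] at e2 e3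
          clear * - e2 e3 n e; grind
        refine .inr ⟨_, h4 g hg, fun e5 => e1 ?_, ?_⟩
        · rwa [map_inv, Perm.inv_eq_iff_eq, eq_comm] at e5
        · have := mul_mem (h6 k hk g hg e e4) hw
          rw [inv_eq_of_mul_eq_one_right (show g * (g * g) = 1 by
            rw [← hL.cube g hg.1, pow_three])] at this
          simpa [mul_assoc] using this
      have h8 : ∀ w, (w ∈ K U ∨ ∃ k ∈ T, π k a ≠ a ∧ k⁻¹ * w ∈ K U) →
          (z * w ∈ K U ∨ ∃ k ∈ T, π k a ≠ a ∧ k⁻¹ * (z * w) ∈ K U) := by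
        rintro w (hw | ⟨k, hk, e, hw⟩)
        · exact .inl (mul_mem (hzK U) hw)
        · exact .inr ⟨k, hk, e, by simpa [← mul_assoc, hzc] using mul_mem (hzK U) hw⟩
      intro g hg e
      obtain h | ⟨k, hk, e1, e2⟩ := closure_induction_left
        (p := fun w _ => w ∈ K U ∨ ∃ g ∈ T, π g a ≠ a ∧ g⁻¹ * w ∈ K U) (.inl (one_mem _))
        (by rintro x (rfl | hx) y -; exacts [h8 y, h7 x hx y])
        (by rintro x (rfl | hx) y -
            exacts [by rw [inv_eq_of_mul_eq_one_right hzz]; exact h8 y, h7 _ (h4 x hx) y]) hg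
      · exact ih g h e
      · have := h0 _ e2
        rw [map_mul, e, mul_one, map_inv, Perm.inv_eq_iff_eq] at this
        exact absurd this.symm e1
  refine h2 univ g ?_ hg
  have h3 : ∀ x, ∃ k ∈ K univ, ∃ c ∈ center H, x = k * c := fun x => by
    have : alternatingGroup α ≤ (K univ).map π := by
      rw [← closure_three_cycles_eq_alternating, closure_le]
      intro σ hσ
      obtain ⟨g, hg, rfl⟩ := hL.surj σ hσ
      exact mem_map_of_mem _ (subset_closure (.inr ⟨hg, (hF _ _).2 (by simp)⟩))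
    obtain ⟨k, hk, e⟩ := this (hr.le ⟨x, rfl⟩)
    exact ⟨k, hk, k⁻¹ * x, hc (by simp [e]), by simp⟩
  refine (commutator_le (H₁ := ⊤) (H₂ := ⊤)).2 (fun x _ y _ => ?_) Group.IsPerfect.mem_commutator
  obtain ⟨k, hk, c, hc, rfl⟩ := h3 x
  obtain ⟨k', hk', c', hc', rfl⟩ := h3 y
  have : ⁅k * c, k' * c'⁆ = ⁅k, k'⁆ := by
    have h4 : Commute c (k' * c') := (mem_center_iff.1 hc _).symm
    have h5 : Commute k c' := mem_center_iff.1 hc' _
    rw [commutatorElement_mul_left_eq_conj_mul, h4.commutator_eq,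
      commutatorElement_mul_right_eq_mul_conj, h5.commutator_eq]
    simp
  rw [this]
  exact mul_mem (mul_mem (mul_mem hk hk') (inv_mem hk)) (inv_mem hk')

/-- Structure of a perfect central extension of an alternating group in which the three-cycles
lift: the kernel is generated by an element `z` of order at most two. -/
theorem exists_z (hc : π.ker ≤ center H) (hr : π.range = alternatingGroup α) [Group.IsPerfect H]
    (h5 : 5 ≤ Fintype.card α)
    (h : ∀ g h : H, IsThreeCycle (π g) → Commute (π g) (π h) → Commute g h) :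
    ∃ z : H, z * z = 1 ∧ (∀ g, π g = 1 ↔ g = 1 ∨ g = z) ∧
      (∀ a b c d, [a, b, c, d].Nodup → ∀ s, π s = swap a c * swap b d → s * s = z) ∧
      ∀ a b c d, [a, b, c, d].Nodup → ∀ y, π y a = b → π y b = a → π y c = d → π y d = c →
        ∃ s, π s = swap a c * swap b d ∧ y * s * y⁻¹ = s * z := by
  obtain ⟨L, hL⟩ := exists_isLift hc hr h5 h
  obtain ⟨z, hz, hzz, h1⟩ := hL.exists_sq hc hr (by omega)
  have h2 : ∀ g, π g = 1 → g = 1 ∨ g = z := fun g => hL.eq_or hc hr hz hzz h1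
  have h3 : ∀ a b c d, [a, b, c, d].Nodup → ∃ x ∈ L, ∃ y ∈ L, π x = c3 a b c ∧ π y = c3 a b d := by
    intro a b c d h
    obtain ⟨x, hx, e⟩ := hL.surj _ (isThreeCycle_c3 (a := a) (b := b) (c := c) (by grind))
    obtain ⟨y, hy, e'⟩ := hL.surj _ (isThreeCycle_c3 (a := a) (b := b) (c := d) (by grind))
    exact ⟨x, hx, y, hy, e, e'⟩
  refine ⟨z, hzz, fun g => ⟨h2 g, by rintro (rfl | rfl); exacts [map_one _, hz]⟩, ?_, ?_⟩
  · intro a b c d h s hs
    obtain ⟨x, hx, y, hy, e, e'⟩ := h3 a b c d h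
    have h4 := h1 a b c d h x hx y hy e e'
    obtain h5 | h5 := h2 ((x * y)⁻¹ * s) (by rw [map_mul, map_inv, map_mul, e, e', c3_mul_c3 h, hs,
      inv_mul_cancel]) <;> rw [inv_mul_eq_iff_eq_mul] at h5
    · rw [h5, mul_one, ← sq, h4]
    · rw [h5, ← sq, Commute.mul_pow (mem_center_iff.1 (hc hz) _), h4, sq, hzz, mul_one]
  · intro a b c d h y e1 e2 e3 e4
    obtain ⟨x, hx, w, hw, e, e'⟩ := h3 a b c d h
    refine ⟨x * w, by rw [map_mul, e, e', c3_mul_c3 h], ?_⟩
    rw [← conj_mul, hL.conj_eq hx (hL.inv w hw) e (by rw [map_inv, e', c3_inv (by grind), e1, e2, e3]),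
      hL.conj_eq hw (hL.inv x hx) e' (by rw [map_inv, e, c3_inv (by grind), e1, e2, e4]),
      ← mul_inv_rev, inv_eq_iff_mul_eq_one, ← mul_assoc, ← sq, h1 a b c d h x hx w hw e e', hzz]

end Cfsg.Sym

set_option linter.all false in
theorem Cfsg.Rz.Sym_AltCover_0 : True := by
  have := @_root_.Cfsg.Sym.IsLift.mk.congr_simp.{0, 0}
  have := @_root_.Cfsg.Sym.c3.eq_def.{0}
  have := @_root_.Cfsg.Sym.c3.fun_cases
  trivial
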