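import Cfsg.Agent.Sym.QFun
import Cfsg.Agent.Sym.Hook

/-!
# Degrees of spin characters and bar weights
-/

set_option autoImplicit false
set_option linter.unusedSectionVars false

namespace Cfsg.Sym

open Finset Polynomial
open Finsupp (single)

variable {S : Finset ℕ} {p : ℕ}

theorem prod_pairs_erase {M : Type*} [CommMonoid M] {h : ℕ → ℕ → M} (hs : ∀ a b, h a b = h b a)
    {x : ℕ} (hx : x ∈ S) : ∏ a ∈ S, ∏ b ∈ S with b < a, h a b =
      (∏ a ∈ S.erase x, ∏ b ∈ S.erase x with b < a, h a b) * ∏ b ∈ S.erase x, h x b := by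
  simp only [prod_filter, ← mul_prod_erase _ _ hx, lt_irrefl, if_false, one_mul, prod_mul_distrib]
  rw [← mul_assoc, mul_comm, ← prod_mul_distrib]
  congr 1
  refine prod_congr rfl fun b hb => ?_
  rcases lt_or_gt_of_ne (ne_of_mem_erase hb) with e | e <;> simp [e, e.not_gt, hs b x]

/-- Removal of a box from a strict partition. -/
def mv (S : Finset ℕ) : ℕ → Finset ℕ
  | 0 => S.erase 0
  | c + 1 => insert c (S.erase (c + 1))

theorem nf_single_max {b : ℕ} (hb : ∀ c ∈ S, c ≤ b) :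
    nf (b + 1) (single S 1) = if b ∈ S then 0 else single (insert b S) 1 := by
  rw [nf_succ, fW_single, fsg, filter_false_of_mem fun c hc => (hb c hc).not_gt]
  split_ifs with h <;> simp [tog_of_notMem, h]

theorem nP_one_single (S : Finset ℕ) :
    nP 1 (single S 1) = ∑ a ∈ S, if a = 0 ∨ a - 1 ∉ S then single (mv S a) 1 else 0 := by
  induction S using Finset.induction_on_max with
  | empty => exact nP_vac one_pos
  | insert b S hb ih =>
    have h3 : b ∉ S := fun h => (hb b h).false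
    have h4 := nf_single_max (S := S) fun c hc => (hb c hc).le
    rw [if_neg h3] at h4
    rw [← h4, nP_nf odd_one, ih, map_sum, add_sub_cancel_right, sum_insert h3, add_comm]
    congr 1
    · rcases b with _ | c
      · obtain rfl : S = ∅ := eq_empty_of_forall_notMem fun c hc => by simpa using hb c hc
        simpa [mv, vac] using nf_zero_vac
      · rw [Nat.cast_succ, nf_single_max fun d hd => Nat.le_of_lt_succ (hb d hd)]
        simp [mv, erase_insert h3]
    · refine sum_congr rfl fun a ha => ?_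
      have h5 := hb a ha
      have h6 : ∀ c ∈ mv S a, c < b := by
        rcases a with _ | a <;> simp only [mv, mem_insert, mem_erase]
        · exact fun c hc => hb c hc.2
        · rintro c (rfl | hc)
          · omega
          · exact hb c hc.2
      rw [apply_ite (nf _), map_zero, nf_single_max fun c hc => (h6 c hc).le,
        if_neg fun e => (h6 b e).false]
      simp only [mem_insert, show a - 1 ≠ b by omega, false_or]
      congr 2
      rcases a with _ | a <;> simp only [mv]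
      · rw [erase_insert_of_ne h5.ne']
      · rw [erase_insert_of_ne h5.ne', Finset.insert_comm]

/-- The number of shifted standard tableaux. -/
noncomputable def gS (n : ℕ) (S : Finset ℕ) : ℂ :=
  fB 2 (pv (Multiset.replicate n 1)) (single S 1)

theorem gS_succ (n : ℕ) (S : Finset ℕ) :
    gS (n + 1) S = ∑ a ∈ S, if a = 0 ∨ a - 1 ∉ S then gS n (mv S a) else 0 := by
  rw [gS, Multiset.replicate_succ, pv_cons, fB_nP, neg_neg, Nat.cast_one, nP_one_single, map_sum]
  exact sum_congr rfl fun a _ => by split_ifs <;> simp [gS]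

theorem lagrange_id (S : Finset ℕ) : ∑ a ∈ S, (a + 1 : ℂ) *
    ∏ b ∈ S.erase a, ((a - b - 1 : ℂ) * (a + b + 2) / ((a - b) * (a + b + 1))) = ∑ a ∈ S, (a + 1 : ℂ) := by
  rcases S.eq_empty_or_nonempty with rfl | hS
  · simp
  have h1 : Set.InjOn (fun a : ℕ => (a * (a + 1) : ℂ)) S := fun a _ b _ e => by
    have : a * (a + 1) = b * (b + 1) := by simp only at e; exact_mod_cast e
    nlinarith
  have h2 : ∀ f : ℕ → ℂ, (∏ a ∈ S, (Polynomial.X - C (f a))).degree = (#S : WithBot ℕ) := fun f => by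
    simp [degree_prod]
  have h3 := Lagrange.coeff_eq_sum h1 (P := ∏ a ∈ S, (Polynomial.X - C (a * (a + 1) : ℂ)) -
    ∏ a ∈ S, (Polynomial.X - C ((a + 1) * (a + 2) : ℂ))) (h2 _ ▸ degree_sub_lt_left (by rw [h2, h2])
      (monic_prod_X_sub_C _ _).ne_zero ((monic_prod_X_sub_C _ _).trans (monic_prod_X_sub_C _ _).symm))
  rw [coeff_sub, prod_X_sub_C_coeff_card_pred _ _ hS.card_pos,
    prod_X_sub_C_coeff_card_pred _ _ hS.card_pos, neg_sub_neg, ← sum_sub_distrib] at h3
  refine mul_left_cancel₀ two_ne_zero ?_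
  rw [mul_sum, mul_sum]
  refine (sum_congr rfl fun a ha => ?_).trans (h3.symm.trans (sum_congr rfl fun a _ => by ring))
  simp only [eval_sub, eval_prod, eval_X, eval_C]
  simp only [← mul_prod_erase _ _ ha, sub_self, zero_mul, zero_sub, prod_div_distrib]
  rw [← neg_mul, mul_div_assoc, ← mul_assoc]
  congr 1
  · ring
  · congr 1 <;> exact prod_congr rfl fun b _ => by ring

/-- The closed formula. -/
noncomputable def gF (S : Finset ℕ) : ℂ :=
  (∏ a ∈ S, ∏ b ∈ S with b < a, ((a.dist b : ℂ) / (a + b + 2))) / ∏ a ∈ S, ((a + 1).factorial : ℂ)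

theorem gF_erase {a : ℕ} (ha : a ∈ S) : gF S =
    gF (S.erase a) * (∏ b ∈ S.erase a, ((a.dist b : ℂ) / (a + b + 2))) / (a + 1).factorial := by
  rw [gF, gF, prod_pairs_erase (fun a b => by rw [Nat.dist_comm, add_comm (a : ℂ)]) ha,
    ← mul_prod_erase _ _ ha]
  ring

theorem gF_mv {a : ℕ} (ha : a ∈ S) : (if a = 0 ∨ a - 1 ∉ S then gF (mv S a) else 0) = gF S *
    ((a + 1 : ℂ) * ∏ b ∈ S.erase a, ((a - b - 1 : ℂ) * (a + b + 2) / ((a - b) * (a + b + 1)))) := by
  have h0 : ∀ m : ℕ, (m + 1 : ℂ) ≠ 0 := Nat.cast_add_one_ne_zero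
  rw [gF_erase ha]
  rcases a with _ | c
  · simp only [true_or, if_true, mv, Nat.cast_zero, zero_add, Nat.factorial_one, Nat.cast_one,
      div_one, one_mul, mul_assoc, ← prod_mul_distrib]
    rw [prod_eq_one, mul_one]
    intro b hb
    have h1 : (b : ℂ) ≠ 0 := Nat.cast_ne_zero.2 (ne_of_mem_erase hb)
    have h2 := h0 b
    have h3 : (b + 2 : ℂ) ≠ 0 := by exact_mod_cast (show b + 2 ≠ 0 by omega)
    rw [Nat.dist_zero_left]
    field_simp
    ring
  simp only [Nat.add_sub_cancel, Nat.succ_ne_zero, false_or, mv]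
  split_ifs with h
  · rw [prod_eq_zero (i := c) (by simp [h]) (f := fun b : ℕ => _ * _ / _) (by simp)]; simp
  have h1 : c ∉ S.erase (c + 1) := fun e => h (mem_of_mem_erase e)
  rw [gF_erase (mem_insert_self c _), erase_insert h1, Nat.factorial_succ (c + 1), Nat.cast_mul]
  have h2 : ∀ b ∈ S.erase (c + 1), ((c.dist b : ℂ) / (c + b + 2)) =
      (((c + 1).dist b : ℂ) / ((c + 1 : ℕ) + b + 2)) * ((((c + 1 : ℕ) : ℂ) - b - 1) *
        ((c + 1 : ℕ) + b + 2) / (((c + 1 : ℕ) - b) * ((c + 1 : ℕ) + b + 1))) := fun b hb => by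
    have h3 : (c + b + 2 : ℂ) ≠ 0 := by exact_mod_cast (show c + b + 2 ≠ 0 by omega)
    have h4 : (c + 1 + b + 2 : ℂ) ≠ 0 := by exact_mod_cast (show c + 1 + b + 2 ≠ 0 by omega)
    have h5 : (c + 1 - b : ℂ) ≠ 0 := sub_ne_zero.2 (by exact_mod_cast (ne_of_mem_erase hb).symm)
    have h6 : (c + 1 + b + 1 : ℂ) ≠ 0 := by exact_mod_cast (show c + 1 + b + 1 ≠ 0 by omega)
    rcases le_or_gt b c with e | e
    · rw [Nat.dist_eq_sub_of_le_right e, Nat.dist_eq_sub_of_le_right (e.trans c.le_succ),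
        Nat.cast_sub e, Nat.cast_sub (e.trans c.le_succ)]
      push_cast
      field_simp
      ring
    · rw [Nat.dist_eq_sub_of_le e.le, Nat.dist_eq_sub_of_le e, Nat.cast_sub e.le, Nat.cast_sub e]
      push_cast
      field_simp
      ring
  rw [prod_congr rfl h2, prod_mul_distrib]
  have := h0 (c + 1)
  push_cast at this ⊢
  field_simp

theorem sum_mv {a : ℕ} (ha : a ∈ S) (h : a = 0 ∨ a - 1 ∉ S) :
    ∑ b ∈ mv S a, (b + 1) + 1 = ∑ b ∈ S, (b + 1) := by
  rw [← add_sum_erase _ _ ha]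
  rcases a with _ | c
  · simp [mv, add_comm]
  · rw [mv, sum_insert fun e => by simp [mem_of_mem_erase e] at h]; ring

theorem gS_eq (n : ℕ) : ∀ S : Finset ℕ, ∑ a ∈ S, (a + 1) = n → gS n S = n.factorial * gF S := by
  induction n with
  | zero =>
    intro S h
    obtain rfl : S = ∅ := by simpa [eq_empty_iff_forall_notMem] using h
    simp [gS, gF, pv_zero, fB_vac]
  | succ n ih =>
    intro S h
    have h1 : ∑ a ∈ S, (a + 1 : ℂ) = n + 1 := by exact_mod_cast h
    rw [gS_succ, Nat.factorial_succ, Nat.cast_mul, Nat.cast_succ, ← h1, ← lagrange_id, mul_assoc,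
      mul_comm, mul_sum]
    refine sum_congr rfl fun a ha => ?_
    rw [mul_assoc, ← gF_mv ha]
    split_ifs with e
    · exact ih _ (by have := sum_mv ha e; omega)
    · simp

theorem exists_gS_nat (n : ℕ) : ∀ S : Finset ℕ, ∃ x : ℕ, gS n S = x := by
  induction n with
  | zero =>
    intro S
    by_cases h : S = ∅ <;> simp [gS, pv_zero, fB_vac, h]
    exacts [⟨1, by simp⟩, ⟨0, by simp⟩]
  | succ n ih =>
    intro S
    choose x hx using ih
    exact ⟨∑ a ∈ S, if a = 0 ∨ a - 1 ∉ S then x (mv S a) else 0, by simp [gS_succ, hx]⟩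

/-- The bar weight. -/
def barWt (p : ℕ) (S : Finset ℕ) : ℕ := ∑ a ∈ S, ((a + 1) / p - #{b ∈ S | b < a ∧ p ∣ a - b} +
  #{b ∈ S | b < a ∧ p ∣ a + b + 2})

theorem exists_barWt (p : ℕ) (S : Finset ℕ) (a : ℕ) :
    ∃ k, k + #{b ∈ S | b < a ∧ p ∣ a - b} = (a + 1) / p ∧
      p ^ k * ∏ b ∈ S with b < a, (a - b) ∣ (a + 1).factorial := by
  simpa only [filter_filter, Nat.add_sub_add_right] using exists_pow_mul_prod_dvd p (a + 1)
    (s := {b ∈ S | b < a}) (c := (· + 1)) (add_left_injective 1).injOn fun b hb => by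
      simpa using (mem_filter.1 hb).2

theorem factorization_add_barWt_le [hp : Fact p.Prime] {n x : ℕ} (h : ∑ a ∈ S, (a + 1) = n)
    (hx : gS n S = x) : x ≠ 0 ∧ x.factorization p + barWt p S ≤ n.factorial.factorization p := by
  have h0 : (∏ a ∈ S, (a + 1).factorial) * ∏ a ∈ S, ∏ b ∈ S with b < a, (a + b + 2) ≠ 0 := by
    simp [prod_eq_zero_iff, Nat.factorial_ne_zero]
  have h1 : x * ((∏ a ∈ S, (a + 1).factorial) * ∏ a ∈ S, ∏ b ∈ S with b < a, (a + b + 2)) =
      n.factorial * ∏ a ∈ S, ∏ b ∈ S with b < a, (a - b) := by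
    rw [prod_congr rfl fun a _ => prod_congr rfl fun b hb =>
      (Nat.dist_eq_sub_of_le_right (mem_filter.1 hb).2.le).symm]
    rw [← Nat.cast_ne_zero (R := ℂ)] at h0
    refine Nat.cast_injective (R := ℂ) ?_
    push_cast at h0 ⊢
    rw [← hx, gS_eq n S h, gF]
    simp only [prod_div_distrib]
    have := left_ne_zero_of_mul h0
    have := right_ne_zero_of_mul h0
    field_simp
  have h2 : x ≠ 0 := by
    rintro rfl
    simp only [zero_mul, zero_eq_mul, Nat.factorial_ne_zero, prod_eq_zero_iff, mem_filter,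
      false_or] at h1
    obtain ⟨a, -, b, h1, h2⟩ := h1
    omega
  choose k hk1 hk2 using exists_barWt p S
  refine ⟨h2, Sym.factorization_add_le h2 h0 h1 ?_⟩
  simp only [barWt, ← hk1, Nat.add_sub_cancel, ← prod_pow_eq_pow_sum, ← prod_mul_distrib]
  refine prod_dvd_prod_of_dvd _ _ fun a _ => ?_
  rw [pow_add, mul_right_comm, ← filter_filter, ← prod_const]
  exact mul_dvd_mul (hk2 a) ((prod_dvd_prod_of_dvd _ _ fun d hd => (mem_filter.1 hd).2).trans
    (prod_dvd_prod_of_subset _ _ _ (filter_subset _ _)))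

theorem two_mul_barWt (hp : p.Prime) (h2 : p ≠ 2) (S : Finset ℕ) : 2 * (p : ℤ) * barWt p S =
    2 * wtf id S - wtf (fun x => if (p : ℤ) ∣ x then 0 else 2 * (x % p) - p) S -
      p * wtf (fun x => wtf (fun y => (if (p : ℤ) ∣ x - y then 1 else 0) -
        if (p : ℤ) ∣ x + y then 1 else 0) S) S := by
  have h1 : ∀ g : ℕ → ℕ → ℤ, (∀ a b, g a b = g b a) → ∑ a ∈ S, ∑ b ∈ S, g a b =
      ∑ a ∈ S, (g a a + 2 * ∑ b ∈ S with b < a, g a b) := fun g hg => by
    simp only [sum_filter, two_mul, sum_add_distrib]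
    nth_rewrite 3 [sum_comm]
    simp only [← sum_add_distrib]
    refine sum_congr rfl fun a ha => ?_
    rw [← sum_ite_eq_of_mem _ a (g a) ha, ← sum_add_distrib]
    refine sum_congr rfl fun b _ => ?_
    rcases lt_trichotomy a b with e | e | e
    · simp [e, e.ne, e.not_gt, hg b a]
    · simp [e]
    · simp [e, e.ne', e.not_gt]
  simp only [wtf]
  rw [h1 _ fun a b => by
    simp only [dvd_sub_comm (b := (a : ℤ) + 1), add_comm ((a : ℤ) + 1)], barWt]
  simp only [Nat.cast_sum, mul_sum, ← sum_sub_distrib]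
  refine sum_congr rfl fun a _ => ?_
  obtain ⟨k, hk, -⟩ := exists_barWt p S a
  have h3 : (p : ℤ) ∣ a + 1 + (a + 1) ↔ (p : ℤ) ∣ a + 1 := by
    rw [← two_mul, (Nat.prime_iff_prime_int.1 hp).dvd_mul, or_iff_right]
    exact_mod_cast fun e => h2 ((Nat.prime_dvd_prime_iff_eq hp Nat.prime_two).1 e)
  have h4 : ∑ b ∈ S with b < a, ((if (p : ℤ) ∣ a + 1 - (b + 1) then (1 : ℤ) else 0) -
      if (p : ℤ) ∣ a + 1 + (b + 1) then 1 else 0) =
      #{b ∈ S | b < a ∧ p ∣ a - b} - #{b ∈ S | b < a ∧ p ∣ a + b + 2} := by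
    simp only [sum_sub_distrib, sum_boole, filter_filter]
    congr 3 <;> refine filter_congr fun b _ => and_congr_right fun e => ?_
    · rw [add_sub_add_right_eq_sub, ← Nat.cast_sub e.le, Int.natCast_dvd_natCast]
    · rw [← Int.natCast_dvd_natCast]; push_cast; ring_nf
  have h5 := Int.mul_ediv_add_emod (a + 1 : ℤ) p
  have h6 : (k : ℤ) + #{b ∈ S | b < a ∧ p ∣ a - b} = (a + 1) / p := by exact_mod_cast hk
  rw [← mul_sum, h4, ← hk, sub_self, if_pos (dvd_zero _), Nat.add_sub_cancel, id]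
  simp only [h3]
  split_ifs with e
  · rw [Int.emod_eq_zero_of_dvd e] at h5
    push_cast
    linear_combination (2 * p) * h6 + 2 * h5
  · push_cast
    linear_combination (2 * p) * h6 + 2 * h5

theorem sum_le_barWt (hp : p.Prime) (h2 : p ≠ 2) {μ ν : Multiset ℕ} (hμ : ∀ k ∈ μ, p ∣ k)
    (h : pv (μ + ν) S ≠ 0) : μ.sum ≤ p * barWt p S := by
  obtain ⟨T, -, h3, h4⟩ := exists_of_pv_ne_zero p hμ h
  have h5 := two_mul_barWt hp h2 S
  have h6 := two_mul_barWt hp h2 T
  have h7 : ∀ x : ℤ, ∀ U, wtf (fun y => (if (p : ℤ) ∣ x - y then 1 else 0) -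
      if (p : ℤ) ∣ x + y then 1 else 0) U = ∑ a ∈ U, ((if (p : ℤ) ∣ x - (a + 1) then 1 else 0) -
      if (p : ℤ) ∣ x + (a + 1) then 1 else 0) := fun _ _ => rfl
  rw [h3, h4 _ (fun i => ?_) (fun i => by simp), h4 _ (fun i => ?_) (fun i => ?_)] at h5
  · simp only [fun x : ℤ => h4 (fun y => (if (p : ℤ) ∣ x - y then 1 else 0) -
      if (p : ℤ) ∣ x + y then 1 else 0) (fun i => by simp [sub_eq_add_neg]) fun i => by
        simp [← sub_sub, ← add_assoc]] at h5
    have : μ.sum + p * barWt p T = p * barWt p S := by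
      generalize μ.sum = m at h5 ⊢
      zify; linarith
    omega
  · simp only [h7, ← sum_neg_distrib]
    exact sum_congr rfl fun a _ => by
      simp only [neg_sub, ← neg_add', dvd_neg, neg_add_eq_sub, dvd_sub_comm (b := i)]
  · simp only [h7, add_sub_right_comm _ (p : ℤ), add_right_comm _ (p : ℤ), dvd_add_self_right]
  · simp only [dvd_neg]
    split_ifs with e
    · simp
    · rw [Int.neg_emod, if_neg e, Int.natAbs_natCast]; ring

end Cfsg.Sym

set_option linter.all false in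
theorem Cfsg.Rz.Sym_Bar_0 : True := by
  have := @_root_.Cfsg.Sym.barWt.eq_def
  have := @_root_.Cfsg.Sym.barWt.fun_cases
  have := @_root_.Cfsg.Sym.gF.eq_def
  have := @_root_.Cfsg.Sym.gF.fun_cases
  have := @_root_.Cfsg.Sym.gS.eq_def
  have := @_root_.Cfsg.Sym.gS.fun_cases
  have := @_root_.Cfsg.Sym.mv.eq_def
  have := @_root_.Cfsg.Sym.mv.fun_cases
  trivial
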