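import Cfsg.Agent.Sym.Fock
import Cfsg.Agent.Char.MatRep
import Mathlib.LinearAlgebra.Matrix.ToLin

/-!
# Clifford matrices
-/

set_option autoImplicit false
set_option linter.unusedSectionVars false

namespace Cfsg.Sym

open Finset Matrix Complex
open Finsupp (single)

theorem trace_eq_zero_of_conj {n : Type*} [Fintype n] [DecidableEq n] {A c : Matrix n n ℂ}
    (h1 : c * c = 1) (h2 : c * A = -(A * c)) : A.trace = 0 := by
  have := trace_mul_comm (c * A) c
  rw [← mul_assoc, h1, one_mul, h2, neg_mul, mul_assoc, h1, mul_one, trace_neg] at this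
  linear_combination -this / 2

/-- Anticommuting involutions split a representation. -/
theorem isCharacter_trace_div {K n J : Type*} [Group K] [Fintype n] [DecidableEq n]
    [DecidableEq J] (X : K →* Matrix n n ℂ) {c : J → Matrix n n ℂ} {ε : K → ℂ}
    (hε : ∀ g, ε g = 1 ∨ ε g = -1) (h1 : ∀ i, c i * c i = 1)
    (h2 : ∀ i j, i ≠ j → c i * c j = -(c j * c i)) (h3 : ∀ g i, c i * X g = ε g • (X g * c i))
    (k : ℕ) : ∀ (R : Finset J) (P : Matrix n n ℂ), P * P = P → (∀ g, X g * P = P * X g) →
      (∀ i ∈ R, c i * P = P * c i) → 2 * k ≤ #R → ((∃ g, ε g = -1) → 2 * k < #R) →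
      IsCharacter K fun g => (X g * P).trace / 2 ^ k := by
  induction k with
  | zero => exact fun R P hP h _ _ _ => by simpa using isCharacter_matrix_trace_mul_idem X P hP h
  | succ k ih =>
    intro R P hP h4 h5 h6 h7
    obtain ⟨a, ha, b, hb, hab⟩ := one_lt_card.1 (show 1 < #R by omega)
    have hR : #((R.erase a).erase b) + 2 = #R := by
      rw [← card_erase_add_one ha, ← card_erase_add_one (mem_erase.2 ⟨hab.symm, hb⟩)]
    have e1 : c a * c b * (c a * c b) = -1 := by
      rw [mul_assoc, ← mul_assoc (c b), h2 b a hab.symm, neg_mul, mul_assoc, h1, mul_one, mul_neg, h1]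
    have e2 : ∀ A, c a * A = A * c a → c b * A = A * c b → c a * c b * A = A * (c a * c b) :=
      fun A e e' => by rw [mul_assoc, e', ← mul_assoc, e, mul_assoc]
    have e3 : ∀ (s : ℂ) A, s * s = 1 → c a * A = s • (A * c a) → c b * A = s • (A * c b) →
        c a * c b * A = A * (c a * c b) := fun s A hs e e' => by
      rw [mul_assoc, e', mul_smul_comm, ← mul_assoc, e, smul_mul_assoc, smul_smul, hs, one_smul,
        mul_assoc]
    have e4 := e2 P (h5 a ha) (h5 b hb)
    have e5 : ∀ g, c a * c b * X g = X g * (c a * c b) := fun g =>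
      e3 _ _ (by rcases hε g with e | e <;> simp [e]) (h3 g a) (h3 g b)
    have e6 : ∀ i ∈ (R.erase a).erase b, c a * c b * c i = c i * (c a * c b) := fun i hi => by
      simp only [mem_erase] at hi
      exact e3 (-1) _ (by simp) (by simpa using h2 a i (Ne.symm hi.2.1))
        (by simpa using h2 b i (Ne.symm hi.1))
    generalize hC : c a * c b = C at e1 e4 e5 e6
    have e7 : ∀ A, A * P = P * A → C * A = A * C → A * ((2⁻¹ : ℂ) • (P + I • (P * C))) =
        ((2⁻¹ : ℂ) • (P + I • (P * C))) * A := fun A e e' => by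
      simp only [mul_smul_comm, smul_mul_assoc, mul_add, add_mul, mul_assoc, e', e]
      rw [← mul_assoc, e, mul_assoc]
    have := ih ((R.erase a).erase b) ((2⁻¹ : ℂ) • (P + I • (P * C))) ?_
      (fun g => e7 _ (h4 g) (e5 g))
      (fun i hi => e7 _ (h5 i (mem_of_mem_erase (mem_of_mem_erase hi))) (e6 i hi)) (by omega)
      fun e => by have := h7 e; omega
    · convert this using 2 with g
      have e8 : (X g * (P * C)).trace = 0 := by
        rcases hε g with e | e
        · refine trace_eq_zero_of_conj (h1 a) ?_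
          rw [← mul_assoc, h3, e, one_smul, mul_assoc, ← mul_assoc (c a), h5 a ha, ← hC]
          simp only [mul_assoc, h2 b a hab.symm, mul_neg, neg_neg]
        · obtain ⟨i, hi⟩ := card_pos.1 (show 0 < #((R.erase a).erase b) by
            have := h7 ⟨g, e⟩; omega)
          refine trace_eq_zero_of_conj (h1 i) ?_
          rw [← mul_assoc, h3, e, neg_one_smul, neg_mul, mul_assoc, ← mul_assoc (c i),
            h5 i (mem_of_mem_erase (mem_of_mem_erase hi)), mul_assoc, ← e6 i hi]
          simp only [mul_assoc]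
      simp only [mul_smul_comm, mul_add, trace_smul, trace_add, e8]
      simp [pow_succ]; ring
    · have e8 : P * (P * C) = P * C := by rw [← mul_assoc, hP]
      have e9 : P * C * (P * C) = -P := by
        rw [mul_assoc, ← mul_assoc C, e4, mul_assoc, e1, ← mul_assoc, hP, mul_neg_one]
      simp only [mul_smul_comm, smul_mul_assoc, mul_add, add_mul, hP, e8, e9, mul_assoc P C P, e4,
        smul_smul]
      match_scalars
      · linear_combination (-1 / 4) * I_mul_I
      · ring

variable {α : Type*} [Fintype α] [LinearOrder α]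

/-- Matrices on the Fock space. -/
abbrev Mt (α : Type*) := Matrix (Finset α) (Finset α) ℂ

/-- The matrix of an operator. -/
noncomputable def toMt : Module.End ℂ (Fk α) ≃ₐ[ℂ] Mt α :=
  LinearMap.toMatrixAlgEquiv Finsupp.basisSingleOne

theorem toMt_apply (L : Module.End ℂ (Fk α)) (T S : Finset α) : toMt L T S = L (single S 1) T := by
  simp [toMt, LinearMap.toMatrixAlgEquiv_apply]

/-- The Clifford generators. -/
noncomputable def clE : α ⊕ Option α → Module.End ℂ (Fk α)
  | .inl x => fW x 1 1
  | .inr (some x) => fW x I (-I)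
  | .inr none => fpar

/-- The Clifford vectors. -/
noncomputable def cv : (α ⊕ Option α → ℂ) →ₗ[ℂ] Mt α :=
  Fintype.linearCombination ℂ fun j => toMt (clE j)

theorem cv_single (j : α ⊕ Option α) : cv (Pi.single j 1) = toMt (clE j) := by
  simp [cv]

theorem clE_mul_add (i j : α ⊕ Option α) :
    clE i * clE j + clE j * clE i = (if i = j then 2 else 0 : ℂ) • 1 := by
  refine LinearMap.ext fun v => ?_
  simp only [LinearMap.add_apply, Module.End.mul_apply, LinearMap.smul_apply, Module.End.one_apply]
  rcases i with i | _ | i <;> rcases j with j | _ | j <;> simp only [clE]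
  any_goals rw [fW_fW, sub_add_cancel]; congr 1; split_ifs <;> simp_all <;> norm_num
  any_goals simp [fpar_fW]
  simp [fpar_fpar, two_smul]

theorem cv_mul_add (v w : α ⊕ Option α → ℂ) :
    cv v * cv w + cv w * cv v = (2 * (v ⬝ᵥ w)) • 1 := by
  have h : ∀ i j, toMt (clE i) * toMt (clE j) + toMt (clE j) * toMt (clE i) =
      (if i = j then 2 else 0 : ℂ) • (1 : Mt α) := fun i j => by
    rw [← map_mul, ← map_mul, ← map_add, clE_mul_add, map_smul, map_one]
  simp only [cv, Fintype.linearCombination_apply, sum_mul_sum, smul_mul_smul_comm]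
  nth_rewrite 2 [sum_comm]
  simp only [← sum_add_distrib, mul_comm (w _), ← smul_add, h, smul_smul, ← sum_smul]
  simp only [mul_ite, mul_zero, sum_ite_eq, mem_univ, if_true, dotProduct, mul_sum, mul_comm]

theorem cv_mul_self {v : α ⊕ Option α → ℂ} (h : v ⬝ᵥ v = 1) : cv v * cv v = 1 := by
  have := cv_mul_add v v
  rw [h, mul_one, ← two_smul ℂ] at this
  exact smul_right_injective _ two_ne_zero this

theorem cv_anti {v w : α ⊕ Option α → ℂ} (h : v ⬝ᵥ w = 0) : cv v * cv w = -(cv w * cv v) := by
  rw [eq_neg_iff_add_eq_zero, cv_mul_add, h, mul_zero, zero_smul]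

theorem cv_reflect {v : α ⊕ Option α → ℂ} (h : v ⬝ᵥ v = 1) (w : α ⊕ Option α → ℂ) :
    cv v * cv (w - (2 * (v ⬝ᵥ w)) • v) = -(cv w * cv v) := by
  rw [map_sub, map_smul, mul_sub, mul_smul_comm, cv_mul_self h, ← cv_mul_add]; abel

theorem cv_transpose {v : α ⊕ Option α → ℂ} (h : ∀ j, v (.inr j) = 0) : (cv v)ᵀ = cv v := by
  have : ∀ x : α, (toMt (fW x 1 1))ᵀ = toMt (fW x 1 1) := fun x => by
    ext S T
    rw [transpose_apply, toMt_apply, toMt_apply, fW_apply, fW_single]
    by_cases e : S = symmDiff T {x}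
    · simp [e]
    · simp [e, Ne.symm e]
  simp [cv, Fintype.linearCombination_apply, h, clE, transpose_sum, this]

theorem exists_eq_smul_one {g : Mt α} (h : ∀ v, g * cv v = cv v * g) : ∃ c : ℂ, g = c • 1 := by
  obtain ⟨L, rfl⟩ := toMt.surjective g
  have h1 : ∀ j v, L (clE j v) = clE j (L v) := fun j v => by
    have := h (Pi.single j 1)
    rw [cv_single, ← map_mul, ← map_mul, toMt.injective.eq_iff] at this
    exact LinearMap.congr_fun this v
  have h2 : ∀ a s t v, L (fW a s t v) = fW a s t (L v) := fun a s t v => by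
    have : fW a s t = ((s + t) / 2) • fW a 1 1 + ((t - s) * I / 2) • fW a I (-I) := by
      rw [← fW_smul, ← fW_smul, ← fW_add]
      congr 1
      · linear_combination (s - t) / 2 * I_mul_I
      · linear_combination (t - s) / 2 * I_mul_I
    simp only [this, LinearMap.add_apply, LinearMap.smul_apply, map_add, map_smul]
    rw [show L (fW a 1 1 v) = _ from h1 (.inl a) v,
      show L (fW a I (-I) v) = _ from h1 (.inr (some a)) v]
    rfl
  refine ⟨L (single ∅ 1) ∅, ?_⟩
  rw [← map_one toMt, ← map_smul]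
  exact congrArg _ (LinearMap.ext (eq_smul_of_commute (fun _ => h2 _ _ _) fun _ => h2 _ _ _))

end Cfsg.Sym

set_option linter.all false in
theorem Cfsg.Rz.Sym_Clif_0 : True := by
  have := @_root_.Cfsg.Sym.toMt.eq_def.{0}
  have := @_root_.Cfsg.Sym.toMt.fun_cases
  have := @_root_.Cfsg.Sym.clE.eq_def.{0}
  have := @_root_.Cfsg.Sym.clE.fun_cases.{0}
  have := @_root_.Cfsg.Sym.Mt.eq_def.{0}
  have := @_root_.Cfsg.Sym.Mt.eq_1.{0}
  have := @_root_.Cfsg.Sym.Mt.fun_cases
  have := @_root_.Cfsg.Sym.cv.eq_def.{0}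
  have := @_root_.Cfsg.Sym.cv.fun_cases
  trivial
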