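import Mathlib.LinearAlgebra.Finsupp.LinearCombination
import Mathlib.Data.Finset.SymmDiff
import Mathlib.Data.Finset.Max
import Mathlib.Data.Complex.Basic
import Mathlib.Algebra.BigOperators.Ring.Finset
import Mathlib.Tactic.Ring
import Mathlib.Tactic.LinearCombination
import Mathlib.Tactic.FieldSimp

/-!
# The fermionic Fock space
-/

set_option autoImplicit false
set_option linter.unusedSectionVars false

namespace Cfsg.Sym

open Finset Finsupp
open scoped symmDiff

variable {ι : Type*} [LinearOrder ι] {a b : ι} {S T : Finset ι} {s t s' t' w : ℂ}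

/-- The Fock space. -/
abbrev Fk (ι : Type*) := Finset ι →₀ ℂ

/-- The sign of moving past the larger modes. -/
noncomputable def fsg (a : ι) (S : Finset ι) : ℂ := (-1) ^ #{b ∈ S | a < b}

theorem fsg_mul_self (a : ι) (S : Finset ι) : fsg a S * fsg a S = 1 := by
  rw [fsg, ← mul_pow]; simp

theorem fsg_ne_zero (a : ι) (S : Finset ι) : fsg a S ≠ 0 := by simp [fsg]

theorem tog_of_mem (h : a ∈ S) : S ∆ {a} = S.erase a := by
  ext x; by_cases e : x = a <;> simp [mem_symmDiff, e, h]

theorem tog_of_notMem (h : a ∉ S) : S ∆ {a} = insert a S := by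
  ext x; by_cases e : x = a <;> simp [mem_symmDiff, e, h]

theorem tog_tog (a : ι) (S : Finset ι) : S ∆ {a} ∆ {a} = S := symmDiff_symmDiff_cancel_right ..

theorem mem_tog : b ∈ S ∆ {a} ↔ (b ∈ S ↔ b ≠ a) := by
  by_cases e : b = a <;> simp [mem_symmDiff, e]

theorem neg_one_pow_card_tog (a : ι) (S : Finset ι) : (-1 : ℂ) ^ #(S ∆ {a}) = -(-1) ^ #S := by
  by_cases h : a ∈ S
  · rw [tog_of_mem h, ← card_erase_add_one h, pow_succ]; ring
  · rw [tog_of_notMem h, card_insert_of_notMem h, pow_succ]; ring

theorem fsg_tog (a b : ι) (S : Finset ι) :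
    fsg a (S ∆ {b}) = if a < b then -fsg a S else fsg a S := by
  simp only [fsg]
  split_ifs with h
  · rw [← neg_one_pow_card_tog b]
    congr 2; ext x; by_cases e : x = b <;> simp [mem_tog, e, h]
  · congr 2; ext x; by_cases e : x = b <;> simp [mem_tog, e, h]

/-- `s` times annihilation plus `t` times creation. -/
noncomputable def fW (a : ι) (s t : ℂ) : Module.End ℂ (Fk ι) :=
  linearCombination ℂ fun S => single (S ∆ {a}) ((if a ∈ S then s else t) * fsg a S)

/-- The parity operator. -/
noncomputable def fpar : Module.End ℂ (Fk ι) := linearCombination ℂ fun S => single S ((-1) ^ #S)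

theorem fW_single (c : ℂ) :
    fW a s t (single S c) = single (S ∆ {a}) (c * ((if a ∈ S then s else t) * fsg a S)) := by
  simp [fW]

theorem fpar_single (c : ℂ) : fpar (single S c) = single S (c * (-1) ^ #S) := by simp [fpar]

theorem fW_apply (v : Fk ι) (T : Finset ι) :
    fW a s t v T = (if a ∈ T then t else s) * fsg a T * v (T ∆ {a}) := by
  induction v using Finsupp.induction_linear with
  | zero => simp
  | add u v hu hv => simp [hu, hv, mul_add]
  | single S c =>
    rw [fW_single]
    by_cases h : S = T ∆ {a}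
    · subst h
      by_cases e : a ∈ T <;> simp [mem_tog, fsg_tog, e, mul_comm]
    · rw [single_eq_of_ne (Ne.symm h), single_eq_of_ne fun e => h (by rw [e, tog_tog]), mul_zero]

theorem fpar_apply (v : Fk ι) (T : Finset ι) : fpar v T = (-1) ^ #T * v T := by
  induction v using Finsupp.induction_linear with
  | zero => simp
  | add u v hu hv => simp [hu, hv, mul_add]
  | single S c => rw [fpar_single]; by_cases h : S = T <;> simp [h, mul_comm]

theorem fW_fW (a b : ι) (s t s' t' : ℂ) (v : Fk ι) : fW a s t (fW b s' t' v) =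
    (if a = b then s * t' + s' * t else 0) • v - fW b s' t' (fW a s t v) := by
  ext T
  simp only [fW_apply, mem_tog, fsg_tog, symmDiff_right_comm T {a}, Finsupp.sub_apply,
    Finsupp.smul_apply, smul_eq_mul]
  rcases lt_trichotomy a b with h | rfl | h
  · simp only [h, h.not_gt, h.ne, h.ne', ne_eq, not_false_iff, iff_true, if_true, if_false]; ring
  · have := fsg_mul_self a T
    by_cases e : a ∈ T <;> simp [e] <;> linear_combination (s * t' + s' * t) * v T * this
  · simp only [h, h.not_gt, h.ne, h.ne', ne_eq, not_false_iff, iff_true, if_true, if_false]; ring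

theorem fpar_fW (v : Fk ι) : fpar (fW a s t v) = -fW a s t (fpar v) := by
  ext T
  simp only [Finsupp.neg_apply, fW_apply, fpar_apply, neg_one_pow_card_tog]
  ring

theorem fpar_fpar (v : Fk ι) : fpar (fpar v) = v := by
  ext T
  simp [fpar_apply, ← mul_assoc, ← mul_pow]

attribute [irreducible] fW fpar

theorem fW_add : fW a (s + s') (t + t') = fW a s t + fW a s' t' := by
  ext S T
  simp only [LinearMap.comp_apply, LinearMap.add_apply, Finsupp.add_apply, fW_apply]
  split_ifs <;> ring

theorem fW_smul (c : ℂ) : fW a (c * s) (c * t) = c • fW a s t := by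
  ext S T
  simp only [LinearMap.comp_apply, LinearMap.smul_apply, Finsupp.smul_apply, fW_apply, smul_eq_mul]
  split_ifs <;> ring

/-- The weighted standard form. -/
noncomputable def fB (w : ℂ) : Fk ι →ₗ[ℂ] Fk ι →ₗ[ℂ] ℂ :=
  linearCombination ℂ fun S => w ^ #S • lapply S

theorem fB_single (c : ℂ) (v : Fk ι) : fB w (single S c) v = c * (w ^ #S * v S) := by simp [fB]

theorem fB_eq_sum (u v : Fk ι) {U : Finset (Finset ι)} (h : u.support ⊆ U) :
    fB w u v = ∑ S ∈ U, w ^ #S * (u S * v S) := by
  rw [fB, linearCombination_apply, sum_of_support_subset _ h _ (by simp), LinearMap.sum_apply]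
  exact sum_congr rfl fun _ _ => by simp [mul_left_comm]

theorem fB_single_right (c : ℂ) (v : Fk ι) : fB w v (single S c) = c * (w ^ #S * v S) := by
  induction v using Finsupp.induction_linear with
  | zero => simp
  | add u v hu hv => simp [hu, hv, mul_add]
  | single T d => rw [fB_single]; by_cases h : S = T <;> simp [h, Ne.symm]; ring

theorem fB_fW (hw : w ≠ 0) (u v : Fk ι) :
    fB w (fW a s t u) v = fB w u (fW a (w * t) (s / w) v) := by
  induction u using Finsupp.induction_linear with
  | zero => simp
  | add u v hu hv => simp [hu, hv]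
  | single S c =>
    rw [fW_single, fB_single, fB_single, fW_apply]
    by_cases h : a ∈ S
    · rw [if_pos h, if_pos h, ← card_erase_add_one h, ← tog_of_mem h, pow_succ]; field_simp
    · rw [if_neg h, if_neg h, tog_of_notMem h, card_insert_of_notMem h, pow_succ]; ring

theorem fB_fpar (u v : Fk ι) : fB w (fpar u) v = fB w u (fpar v) := by
  induction u using Finsupp.induction_linear with
  | zero => simp
  | add u v hu hv => simp [hu, hv]
  | single S c => rw [fpar_single, fB_single, fB_single, fpar_apply]; ring

attribute [irreducible] fB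

/-- An operator commuting with all creation and annihilation operators is a scalar. -/
theorem eq_smul_of_commute {L : Module.End ℂ (Fk ι)} (h : ∀ a v, L (fW a 1 0 v) = fW a 1 0 (L v))
    (h' : ∀ a v, L (fW a 0 1 v) = fW a 0 1 (L v)) (v : Fk ι) : L v = L (single ∅ 1) ∅ • v := by
  have h1 : L (single ∅ 1) = single ∅ (L (single ∅ 1) ∅) := by
    ext T
    rcases T.eq_empty_or_nonempty with rfl | ⟨a, ha⟩
    · simp
    have := congrArg (· (T ∆ {a})) (h a (single ∅ 1))
    simp only [fW_single, fW_apply, tog_tog] at this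
    rw [single_eq_of_ne (ne_empty_of_mem ha)]
    simpa [mem_tog, ha, fsg_ne_zero] using this.symm
  generalize L (single ∅ 1) ∅ = c at h1
  have h2 : ∀ S, L (single S 1) = single S c := fun S => by
    induction S using Finset.induction_on with
    | empty => exact h1
    | insert a S ha ih =>
      have := congrArg (fsg a S • ·) (h' a (single S 1))
      simp only [fW_single, ih, ← map_smul, smul_single, tog_of_notMem ha,
        if_neg ha, smul_eq_mul, one_mul, fsg_mul_self] at this
      rw [this, mul_left_comm, fsg_mul_self, mul_one]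
  induction v using Finsupp.induction_linear with
  | zero => simp
  | add u v hu hv => simp [hu, hv]
  | single S d => rw [← smul_single_one, map_smul, h2]; simp [mul_comm]

end Cfsg.Sym

set_option linter.all false in
theorem Cfsg.Rz.Sym_Fock_0 : True := by
  have := @_root_.Cfsg.Sym.fpar.eq_def.{0}
  have := @_root_.Cfsg.Sym.fpar.fun_cases
  have := @_root_.Cfsg.Sym.fsg.eq_def.{0}
  have := @_root_.Cfsg.Sym.fsg.fun_cases
  have := @_root_.Cfsg.Sym.fB.eq_def.{0}
  have := @_root_.Cfsg.Sym.fB.fun_cases
  have := @_root_.Cfsg.Sym.fW.eq_def.{0}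
  have := @_root_.Cfsg.Sym.fW.fun_cases
  have := @_root_.Cfsg.Sym.Fk.eq_def.{0}
  have := @_root_.Cfsg.Sym.Fk.eq_1.{0}
  have := @_root_.Cfsg.Sym.Fk.fun_cases
  trivial
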