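import Cfsg.Agent.Sym.Pin
import Cfsg.Agent.Sym.Bar
import Cfsg.Agent.Char.CliffordBasic
import Cfsg.Agent.Char.Ker

/-!
# Spin characters
-/

set_option autoImplicit false
set_option linter.unusedSectionVars false

namespace Cfsg.Sym

open Finset Equiv Equiv.Perm MulAction
open Finsupp (single)

theorem isGen_sum_fixed {G Ω : Type*} [Group G] [Finite G] [Fintype Ω] [DecidableEq Ω]
    [MulAction G Ω] {θ : G → ℂ} (hθ : IsClassFunction G θ) {c : Ω → ℂ}
    (hc : ∀ (g : G) ω, c (g • ω) = c ω)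
    (h : ∀ ω, IsGeneralizedCharacter (stabilizer G ω) fun g => c ω * θ g) :
    IsGeneralizedCharacter G fun g => (∑ ω with g • ω = ω, c ω) * θ g := by
  classical
  have : (fun g => (∑ ω with g • ω = ω, c ω) * θ g) = ∑ q : orbitRel.Quotient G Ω,
      ind (stabilizer G q.out).subtype fun g => c q.out * θ g := by
    funext g
    rw [Finset.sum_apply, ← sum_fiberwise _ (Quotient.mk (orbitRel G Ω)), sum_mul]
    refine sum_congr rfl fun q _ => ?_
    have h1 := permChar_eq_ind_stabilizer (G := G) (orbit G q.out) ⟨_, mem_orbit_self _⟩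
    have h2 : ∀ ω, Quotient.mk (orbitRel G Ω) ω = q ↔ ω ∈ orbit G q.out := fun ω => by
      rw [← orbitRel_apply, ← Quotient.eq, q.out_eq]
    rw [show stabilizer G (⟨_, mem_orbit_self _⟩ : orbit G q.out) = stabilizer G q.out from
      Subgroup.ext fun _ => Subtype.ext_iff] at h1
    rw [show (fun g : stabilizer G q.out => c q.out * θ g) =
      c q.out • ((fun _ => 1) * θ ∘ (stabilizer G q.out).subtype) by ext; simp, ind_smul,
      ind_mul_comp _ _ hθ, ← h1, sum_congr rfl (g := fun _ => c q.out) fun ω hω => by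
        obtain ⟨x, rfl⟩ := (h2 ω).1 (mem_filter.1 hω).2
        exact hc x _]
    simp only [Pi.smul_apply, Pi.mul_apply, smul_eq_mul, permChar_apply, sum_const, nsmul_eq_mul,
      filter_filter, h2, ← Fintype.card_subtype, ← Nat.card_eq_fintype_card]
    rw [mul_left_comm, mul_assoc]
    congr 2
    exact Nat.card_congr ⟨fun ω => ⟨⟨ω.1, ω.2.2⟩, Subtype.ext ω.2.1⟩,
      fun ω => ⟨ω.1.1, congrArg Subtype.val ω.2, ω.1.2⟩, fun _ => rfl, fun _ => rfl⟩
  exact this ▸ .sum fun q _ => (h _).ind _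

theorem index_two_cases {G H : Type*} [Group G] [Finite G] [Group H] [Finite H] {ι : H →* G}
    [IsNormalEmb ι] (h2 : ι.range.index = 2) (χ : IrrCharacter H) : ∃ ψ : IrrCharacter G,
      ind ι χ.1 = ψ.1 ∨ ψ.1 ∘ ι = χ.1 ∧ ind ι χ.1 ∘ ι = (2 : ℂ) • χ.1 := by
  obtain ⟨ψ, h⟩ := χ.exists_liesOver_above (f := ι) IsNormalEmb.injective
  obtain ⟨m, hm⟩ := h.charDegree_dvd
  refine ⟨ψ, (le_or_gt 2 m).imp (fun e => h.ind_eq_of_le_charDegree IsNormalEmb.injective
    χ.isCharacter (by rw [hm, h2, mul_comm]; gcongr)) fun e => ?_⟩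
  have h1 := h.comp_eq_of_charDegree_le ψ.isCharacter
    (hm ▸ mul_le_of_le_one_right (Nat.zero_le _) (by omega))
  refine ⟨h1, (ind_comp_of_inertia_eq_top (eq_top_iff.2 fun g _ =>
    mem_inertia_iff_forall_conjAut.2 fun n => ?_)).trans (by rw [h2]; rfl)⟩
  simp [← h1, ψ.isClassFunction _ g]

namespace Pin

variable {α : Type*} [Fintype α] [LinearOrder α] {S : Finset ℕ}

/-- The spin class functions. -/
noncomputable def spinF (S : Finset ℕ) (g : Pin α) : ℂ :=
  fB 2 (pv (pt (pr g))) (single S 1) * T g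

theorem isGen_spinF_div {K : Type*} [Group K] [Finite K] (j : K →* Pin α) {k : ℕ}
    (h1 : 2 * k ≤ Fintype.card α + #S + 1)
    (h2 : (∃ g, sign (pr (j g)) = -1) → 2 * k ≤ Fintype.card α + #S) :
    IsGeneralizedCharacter K fun g => spinF S (j g) / 2 ^ k := by
  obtain ⟨a, ha, e⟩ := exists_wd_eq S
  let : MulAction K (α → Fin #S) :=
    { smul := fun g f => f ∘ (pr (j g)).symm
      one_smul := fun f => by change f ∘ _ = f; rw [map_one, map_one]; rfl
      mul_smul := fun g h f => by change f ∘ _ = (f ∘ _) ∘ _; rw [map_mul, map_mul]; rfl }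
  have h3 : ∀ (g : K) (f : α → Fin #S), g • f = f ↔ f ∘ pr (j g) = f := fun g f =>
    (Equiv.comp_symm_eq ..).trans eq_comm
  convert isGen_sum_fixed (isCharacter_T.isClassFunction.comp j)
    (c := fun f : α → Fin #S => wd (a - fun i => (#{x | f x = i} : ℤ)) ∅ / 2 ^ k)
    (fun g f => ?_) fun f => ?_ using 2 with g
  · simp only [h3, spinF, Function.comp_apply]
    by_cases h : ∀ k ∈ pt (pr (j g)), Odd k
    · rw [← e, fB_pv_wd h, ← sum_div]; ring
    · simp [T_eq_zero h]
  · congr 5 with i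
    exact congrArg _ (card_equiv (pr (j g)).symm fun x => by simp; rfl)
  · obtain ⟨z, hz⟩ := exists_wd_empty (a - fun i => (#{x | f x = i} : ℤ))
    have h4 : #S ≤ #{i | 0 < (a - fun i => (#{x | f x = i} : ℤ)) i} + #(univ.image f) := by
      refine (card_fin _).ge.trans ((card_le_card fun i _ => ?_).trans (card_union_le _ _))
      by_cases e : i ∈ univ.image f
      · exact mem_union_right _ e
      · refine mem_union_left _ ?_
        simp [filter_false_of_mem fun x _ e' => e (mem_image.2 ⟨x, mem_univ x, e'⟩), ha i]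
    rw [hz]
    generalize #{i | 0 < (a - fun i => (#{x | f x = i} : ℤ)) i} = r at h4
    convert (isCharacter_T_div (j.comp (stabilizer K f).subtype) (f := f)
      (fun g => (h3 _ _).1 g.2) (k := k - r) (by omega) fun ⟨g, e⟩ => by
        have := h2 ⟨g, e⟩; omega).isGen.zsmul (2 ^ (r - k) * z) using 2 with g
    have : (2 : ℂ) ^ r * 2 ^ (k - r) = 2 ^ (r - k) * 2 ^ k := by
      rw [← pow_add, ← pow_add]; congr 1; omega
    simp only [Pi.smul_apply, smul_eq_mul, Function.comp_apply, MonoidHom.comp_apply,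
      Subgroup.subtype_apply]
    push_cast
    field_simp
    linear_combination z * T (j g) * this

theorem isClassFunction_spinF : IsClassFunction (Pin α) (spinF S) := by
  simpa using (isGen_spinF_div (S := S) (.id (Pin α)) (k := 0) (by simp) (by simp)).isClassFunction

theorem star_spinF (g : Pin α) : (starRingEnd ℂ) (spinF S g) = spinF S g := by
  have := (isGen_spinF_div (S := S) (.id (Pin α)) (k := 0) (by simp) (by simp)).apply_inv g
  simp only [pow_zero, div_one, MonoidHom.id_apply] at this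
  rw [← this, spinF, spinF, isCharacter_T.isGen.apply_inv, star_T, map_inv,
    isConj_iff_pt.1 (isConj_iff_cycleType_eq.2 (cycleType_inv _))]

theorem eq_sum_spinF {f : Pin α → ℂ} (hf : IsClassFunction (Pin α) f)
    (hz : ∀ g, f (zz * g) = -f g) (h0 : ∀ g, sign (pr g) = -1 → f g = 0) :
    f = ∑ S ∈ (range (Fintype.card α)).powerset with ∑ a ∈ S, (a + 1) = Fintype.card α,
      (ip f (spinF S) / 2 ^ (Fintype.card α + #S)) • spinF S := by
  classical
  let := Fintype.ofFinite (Pin α)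
  funext g
  simp only [Finset.sum_apply, Pi.smul_apply, smul_eq_mul]
  by_cases hg : ∀ k ∈ pt (pr g), Odd k
  swap
  · simp only [spinF, T_eq_zero hg, mul_zero, sum_const_zero]
    refine (Int.units_eq_one_or _).elim (fun e => ?_) (h0 g)
    have := hf.eq_of_isConj (isConj_zz_mul e hg)
    linear_combination (this + hz g) / 2
  have h1 : ∀ h : Pin α, ∑ S ∈ (range (Fintype.card α)).powerset with
      ∑ a ∈ S, (a + 1) = Fintype.card α, f h * spinF S h / 2 ^ (Fintype.card α + #S) * spinF S g =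
      if IsConj (pr g) (pr h) then f g * zc (pt (pr g)) else 0 := fun h => by
    have h2 : IsConj (pr g) (pr h) → f h * T h = f g * T g := fun e => by
      obtain ⟨x, hx⟩ := isConj_iff.1 e
      obtain ⟨x, rfl⟩ := pr_surjective x
      rcases eq_or_of_pr_eq (g := h) (h := x * g * x⁻¹) (by simp [hx]) with rfl | rfl <;>
        simp [hz, T_zz_mul, hf g x, isCharacter_T.isClassFunction g x]
    by_cases hh : ∀ k ∈ pt (pr h), Odd k
    swap
    · rw [if_neg fun e : IsConj (pr g) (pr h) => hh (isConj_iff_pt.1 e ▸ hg)]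
      simp [spinF, T_eq_zero hh]
    have h3 := fB_pv hh hg
    rw [fB_eq_sum _ _ (U := {S ∈ (range (Fintype.card α)).powerset |
      ∑ a ∈ S, (a + 1) = Fintype.card α}) fun S hS => by
        have := (sum_eq_of_pv_ne_zero (Finsupp.mem_support_iff.1 hS)).trans (sum_pt _)
        exact mem_filter.2 ⟨mem_powerset.2 fun a ha => mem_range.2
          (this ▸ single_le_sum (f := (· + 1)) (fun _ _ => Nat.zero_le _) ha), this⟩] at h3
    rw [sum_congr rfl (g := fun S => f h * T h * T g / 2 ^ Fintype.card α *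
      (2 ^ #S * (pv (pt (pr h)) S * pv (pt (pr g)) S))) fun S _ => by
        simp only [spinF, fB_single_right, pow_add]; field_simp, ← mul_sum, h3]
    simp only [← isConj_iff_pt, isConj_comm (g := pr h)]
    split_ifs with e
    · rw [h2 e, ← isConj_iff_pt.1 e, mul_assoc (f g), ← sq, T_sq hg, pow_add]; field_simp
    · simp
  simp only [ip_def, star_spinF, mul_div_assoc, mul_assoc, ← mul_sum, sum_div, sum_mul]
  rw [sum_comm]
  simp only [mul_div_assoc, mul_assoc] at h1
  simp only [h1]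
  rw [sum_comp_of_surjective pr pr_surjective fun σ =>
    if IsConj (pr g) σ then f g * zc (pt (pr g)) else 0, ← sum_filter, sum_const,
    ← card_centralizer_eq_zc, ← pr.ker.card_mul_index, Subgroup.index_ker,
    pr.range_eq_top_of_surjective pr_surjective, Subgroup.card_top,
    ← card_filter_isConj_mul_card_centralizer (pr g)]
  have := natCard_cast_ne_zero (pr (α := α)).ker
  have := natCard_cast_ne_zero (Subgroup.centralizer {pr g})
  have : (#(univ.filter (IsConj (pr g))) : ℂ) ≠ 0 :=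
    Nat.cast_ne_zero.2 (card_ne_zero.2 ⟨pr g, mem_filter.2 ⟨mem_univ _, .refl _⟩⟩)
  simp only [nsmul_eq_mul, Nat.cast_mul]
  field_simp

theorem exists_ind_eq_smul {H : Type*} [Group H] [Finite H] {ι : H →* Pin α} [IsNormalEmb ι]
    (hr : ∀ g, g ∈ ι.range ↔ sign (pr g) = 1) (h2 : ι.range.index = 2) (χ : IrrCharacter H) {z : H}
    (hz : ι z = zz) (hχ : χ z = -χ 1) : ∃ (S : Finset ℕ) (c : ℂ) (e : ℕ),
      ∑ a ∈ S, (a + 1) = Fintype.card α ∧ ind ι χ.1 = c • spinF S ∧
      c ^ 2 * 2 ^ (Fintype.card α + #S) = 2 ^ e := by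
  classical
  let := Fintype.ofFinite (Pin α)
  have h3 : ∀ h, χ.1 (z * h) = -χ.1 h := fun h => mul_right_cancel₀ χ.apply_one_ne_zero <| by
    refine (χ.isCharacter.apply_mul_of_mem_charCenter (χ.center_le_charCenter
      (Subgroup.mem_center_iff.2 fun g => IsNormalEmb.injective (f := ι) ?_)) h).trans ?_
    · simp [hz, zz_comm]
    · exact (congrArg (· * _) hχ).trans (by ring)
  have h4 : ∀ g, g ∉ ι.range → ind ι χ.1 g = 0 := fun g => ind_apply_eq_zero_of_normal ι _ le_rfl
  have h5 := eq_sum_spinF (ind_isClassFunction ι χ.1) (fun g => ?_) fun g e =>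
    h4 g (by simp [hr, e])
  swap
  · by_cases e : g ∈ ι.range
    · obtain ⟨g, rfl⟩ := e
      have : ∀ x, (conjAut ι x)⁻¹ z = z := fun x => IsNormalEmb.injective (f := ι) <| by
        simp [hz, mul_assoc, zz_comm]
      simp only [← hz, ← map_mul, ind_apply_map_normal]
      simp only [map_mul, this, h3, sum_neg_distrib, mul_neg]
    · rw [h4 g e, h4 _ (by simpa [hr] using e), neg_zero]
  obtain ⟨e, he, h6⟩ : ∃ e : ℕ, ip (ind ι χ.1) (ind ι χ.1) = 2 ^ e ∧ ∀ S : Finset ℕ, ∃ m : ℕ,
      ip (ind ι χ.1) (spinF S) ^ 2 / 2 ^ (Fintype.card α + #S) = m ∧ (m = 0 ∨ 2 ^ e ≤ m) ∧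
      (starRingEnd ℂ) (ip (ind ι χ.1) (spinF S)) = ip (ind ι χ.1) (spinF S) := by
    have h7 : ∀ S : Finset ℕ, ∃ m : ℤ, ip χ.1 (spinF S ∘ ι) =
        2 ^ ((Fintype.card α + #S + 1) / 2) * m := fun S => by
      obtain ⟨m, hm⟩ := χ.isCharacter.isGen.exists_ip_eq_int (isGen_spinF_div (S := S) ι
        (k := (Fintype.card α + #S + 1) / 2) (by omega) fun ⟨g, e⟩ => by
          simp [(hr _).1 ⟨g, rfl⟩] at e)
      refine ⟨m, ?_⟩
      rw [← hm, show spinF S ∘ ι = (2 : ℂ) ^ ((Fintype.card α + #S + 1) / 2) •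
        fun g => spinF S (ι g) / 2 ^ ((Fintype.card α + #S + 1) / 2) by
          ext g; simp [mul_div_cancel₀], ip_smul_right, map_pow, map_ofNat]
    have h8 : ∀ S : Finset ℕ, ∀ m : ℤ, ip χ.1 (spinF S ∘ ι) =
        2 ^ ((Fintype.card α + #S + 1) / 2) * m → ip (ind ι χ.1) (spinF S) ^ 2 /
          2 ^ (Fintype.card α + #S) = (2 ^ ((Fintype.card α + #S) % 2) * m.natAbs ^ 2 : ℕ) ∧
        (starRingEnd ℂ) (ip (ind ι χ.1) (spinF S)) = ip (ind ι χ.1) (spinF S) := fun S m hm => by
      rw [ip_ind_left _ _ isClassFunction_spinF, hm]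
      refine ⟨?_, by simp [map_ofNat]⟩
      rw [mul_pow, ← pow_mul, show (Fintype.card α + #S + 1) / 2 * 2 =
        Fintype.card α + #S + (Fintype.card α + #S) % 2 by omega, pow_add, Nat.cast_mul,
        Nat.cast_pow, Nat.cast_pow, ← Int.cast_natCast m.natAbs, ← Int.cast_pow (m.natAbs : ℤ),
        Int.natAbs_sq]
      push_cast
      field_simp
    obtain ⟨ψ, hψ | ⟨hψ, hψ'⟩⟩ := index_two_cases h2 χ
    · refine ⟨0, by rw [hψ, ψ.ip_self, pow_zero], fun S => ?_⟩
      obtain ⟨m, hm⟩ := h7 S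
      exact ⟨_, (h8 S m hm).1, by omega, (h8 S m hm).2⟩
    refine ⟨1, by rw [ip_ind_left _ _ (ind_isClassFunction ι _), hψ', ip_smul_right, χ.ip_self]
                  simp [map_ofNat], fun S => ?_⟩
    obtain ⟨m, hm⟩ := h7 S
    refine ⟨_, (h8 S m hm).1, ?_, (h8 S m hm).2⟩
    rcases Nat.mod_two_eq_zero_or_one (Fintype.card α + #S) with e | e <;> rw [e]
    swap
    · omega
    obtain ⟨m', hm'⟩ := (isGen_spinF_div (S := S) (.id (Pin α))
      (k := (Fintype.card α + #S + 1) / 2) (by omega) fun _ => by omega).exists_ip_eq_int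
        ψ.isCharacter.isGen
    have h9 := ip_comp_of_vanish (f := ι) IsNormalEmb.injective (χ := spinF S) (fun g e => by
      rw [spinF, T_eq_zero_of_odd ((Int.units_eq_one_or _).resolve_left (mt (hr g).2 e)),
        mul_zero]) ψ.1
    rw [hψ, ← conj_ip, hm, h2, show spinF S = (2 : ℂ) ^ ((Fintype.card α + #S + 1) / 2) •
      fun g => spinF S (MonoidHom.id (Pin α) g) / 2 ^ ((Fintype.card α + #S + 1) / 2) by
        ext g; simp [mul_div_cancel₀], ip_smul_left, hm', mul_left_comm] at h9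
    simp only [map_mul, map_pow, map_ofNat, map_intCast, mul_eq_mul_left_iff] at h9
    obtain rfl : m = 2 * m' := by exact_mod_cast h9.resolve_right (by simp)
    rw [Int.natAbs_mul, mul_pow]
    change 1 * (4 * _) = 0 ∨ 2 ≤ 1 * (4 * _)
    omega
  choose m hm1 hm2 hm3 using h6
  generalize hU : {S ∈ (range (Fintype.card α)).powerset | ∑ a ∈ S, (a + 1) = Fintype.card α} = U
    at h5
  have h7 : ∑ S ∈ U, m S = 2 ^ e := by
    nth_rewrite 1 [h5] at he
    simp only [ip_sum_left, ip_smul_left, ← conj_ip (ind ι χ.1) (spinF _), hm3, div_mul_eq_mul_div,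
      ← sq, hm1] at he
    exact_mod_cast he
  obtain ⟨S, hS, h8⟩ := exists_ne_zero_of_sum_ne_zero (h7.trans_ne (by simp))
  have h9 := (hm2 S).resolve_left h8
  rw [← add_sum_erase _ _ hS] at h7 h5
  refine ⟨S, _, e, (mem_filter.1 (hU.ge hS)).2, h5.trans (add_eq_left.2 (sum_eq_zero fun T hT => ?_)),
    ?_⟩
  · have := hm1 T
    rw [sum_eq_zero_iff.1 (show ∑ S ∈ U.erase S, m S = 0 by omega) T hT] at this
    simp at this
    simp [this]
  · rw [show (2 : ℂ) ^ e = m S by exact_mod_cast (show 2 ^ e = m S by omega), ← hm1]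
    field_simp

/-- The defect of a spin character is at least its bar weight. -/
theorem exists_weight {H : Type*} [Group H] [Finite H] {ι : H →* Pin α} [IsNormalEmb ι]
    (hr : ∀ g, g ∈ ι.range ↔ sign (pr g) = 1) (h2 : ι.range.index = 2) (χ : IrrCharacter H) {z : H}
    (hz : ι z = zz) (hχ : χ z = -χ 1) {p : ℕ} [hp : Fact p.Prime] (hp2 : p ≠ 2) : ∃ w,
      (charDegree χ.1).factorization p + w ≤ (Fintype.card α).factorial.factorization p ∧
      ∀ g, ind ι χ.1 g ≠ 0 → ((pt (pr g)).filter (p ∣ ·)).sum ≤ p * w := by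
  obtain ⟨S, c, e, h3, h4, h5⟩ := exists_ind_eq_smul hr h2 χ hz hχ
  obtain ⟨x, hx⟩ := exists_gS_nat (Fintype.card α) S
  obtain ⟨h6, h7⟩ := factorization_add_barWt_le (p := p) h3 hx
  refine ⟨barWt p S, le_of_eq_of_le ?_ h7, fun g hg => sum_le_barWt hp.out hp2
    (ν := (pt (pr g)).filter (¬ p ∣ ·)) (fun k hk => (Multiset.mem_filter.1 hk).2) fun e => ?_⟩
  · have h8 := congrFun h4 1
    rw [ind_apply_one IsNormalEmb.injective, h2, Pi.smul_apply, spinF, map_one, pt_one, ← gS, hx,
      T_one, show χ.1 1 = _ from χ.apply_one, smul_eq_mul] at h8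
    have h9 : 2 ^ (2 + (Fintype.card α + #S)) * charDegree χ.1 ^ 2 =
        2 ^ (e + 2 * Fintype.card α) * x ^ 2 := Nat.cast_injective (R := ℂ) <| by
      push_cast at h8 ⊢
      rw [pow_add 2 e, ← h5]
      linear_combination 2 ^ (Fintype.card α + #S) *
        (2 * charDegree χ.1 + c * (x * 2 ^ Fintype.card α)) * h8
    have h10 := congrArg (·.factorization p) h9
    simp only [Nat.factorization_mul (pow_ne_zero _ two_ne_zero) (pow_ne_zero _ h6),
      Nat.factorization_mul (pow_ne_zero _ two_ne_zero) (pow_ne_zero _ χ.charDegree_pos.ne'),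
      Nat.factorization_pow, Nat.prime_two.factorization] at h10
    simpa [hp2.symm] using h10
  · rw [Multiset.filter_add_not] at e
    simp [h4, spinF, fB_single_right, e] at hg

end Pin

end Cfsg.Sym

set_option linter.all false in
theorem Cfsg.Rz.Sym_Spin_0 : True := by
  have := @_root_.Cfsg.Sym.Pin.spinF.eq_def.{0}
  have := @_root_.Cfsg.Sym.Pin.spinF.fun_cases
  trivial
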