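import Cfsg.Agent.Sym.OrbC
import Cfsg.Agent.Sym.Spin
import Cfsg.Agent.Blk.FrobCorr
import Cfsg.Agent.Blk.PExt
import Cfsg.Agent.Blk.BrauerFeit
import Cfsg.Agent.Blk.Covering

/-!
# Defect groups of blocks of central extensions of permutation groups
-/

set_option autoImplicit false
set_option linter.unusedSectionVars false

namespace Cfsg.Sym

open Equiv Equiv.Perm Finset Subgroup GA

variable {p : ℕ} [hp : Fact p.Prime] {α : Type*} [Fintype α] [DecidableEq α] {G : Type*} [Group G]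
  [Finite G] {M : Ideal AlgInt} {B : Set (IrrCharacter G)} {D : Subgroup G} {χ : IrrCharacter G}

section lift

variable {Q : Type*} [Group Q] {π : G →* Q} (hc : π.ker ≤ center G) (hk : ¬ p ∣ Nat.card π.ker)
include hc hk

theorem eq_of_map_eq {g s : G} {k l : ℕ} (hg : g ^ p ^ k = 1) (hs : s ^ p ^ l = 1)
    (h : π g = π s) : g = s := by
  have h1 : s⁻¹ * g ∈ π.ker := by simp [h]
  have h2 : Commute s⁻¹ g := by
    have := mem_center_iff.1 (hc h1) g
    rwa [← mul_assoc, mul_left_inj, eq_comm] at this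
  have h3 : (s⁻¹ * g) ^ p ^ (k + l) = 1 := by
    rw [h2.mul_pow, inv_pow, pow_add, pow_mul g, hg, pow_mul', hs]; simp
  rw [eq_comm, ← inv_mul_eq_one, ← orderOf_eq_one_iff]
  exact Nat.eq_one_of_dvd_coprimes (Nat.Coprime.pow_left _ (hp.out.coprime_iff_not_dvd.2 hk))
    (orderOf_dvd_of_pow_eq_one h3) (π.ker.orderOf_dvd_natCard h1)

theorem commute_of_map {g s : G} {k : ℕ} (hs : s ^ p ^ k = 1) (h : Commute (π s) (π g)) :
    Commute s g :=
  (mul_inv_eq_iff_eq_mul.1 (eq_of_map_eq hc hk (g := g * s * g⁻¹) (k := k) (by simp [conj_pow, hs]) hs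
    (by simp [← h.eq]))).symm

end lift

theorem exists_map_eq {Q : Type*} [Group Q] {π : G →* Q} {A : Subgroup Q} (hA : IsPGroup p A)
    (h : A ≤ π.range) (hD : IsPGroup p D) (h' : D.map π ≤ A) :
    ∃ S : Subgroup G, IsPGroup p S ∧ D ≤ S ∧ S.map π = A := by
  obtain ⟨S, hS, h1⟩ := exists_isSylowIn_ge hD (map_le_iff_le_comap.1 h')
  refine ⟨S, hS.isPGroup, h1, ?_⟩
  obtain ⟨S, rfl⟩ := isSylowIn_iff.1 hS
  have := isSylowIn_iff.2 ⟨S.mapSurjective (π.subgroupMap_surjective _), rfl⟩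
  rw [Sylow.coe_mapSurjective, Subgroup.map_map] at this
  rw [Subgroup.map_map]
  exact (this.maximal A (map_comap_eq_self h).ge hA (this.le.trans (map_comap_le ..))).symm

theorem exists_isSylowIn_map {π : G →* Perm α} (hc : π.ker ≤ center G)
    (hk : ¬ p ∣ Nat.card π.ker) (hr : ∀ σ k, σ ^ p ^ k = 1 → σ ∈ π.range) (hM : IsPModular p M)
    (hB : IsPBlock M B) (hD : IsDefectGroup p M B D) :
    ∃ F : Set α, IsSylowIn p (D.map π) (fixingSubgroup (Perm α) F) := by
  obtain ⟨x, hx, h1⟩ := isDefectGroup_iff_isSylowIn.1 hD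
  have h2 : ∀ A : Subgroup (Perm α), IsPGroup p A → A ≤ π.range := fun A hA σ hσ => by
    obtain ⟨k, hk⟩ := hA ⟨σ, hσ⟩
    exact hr σ k (congrArg Subtype.val hk)
  have h3 := hD.isPGroup.map π
  have h4 : orbC (D.map π) ≤ D.map π := by
    obtain ⟨S, h4, -, h5⟩ := exists_map_eq (isPGroup_orbC h3) (h2 _ (isPGroup_orbC h3))
      IsPGroup.of_bot (by simp)
    obtain ⟨c, hc1, hc2⟩ := hD.exists_correspondent hM hB le_rfl
    have : (S.subgroupOf (normalizer (D : Set G))).Normal := ⟨fun s hs n => by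
      obtain ⟨k, hk'⟩ := h4 ⟨s, hs⟩
      obtain ⟨t, ht, e⟩ := h5.ge (conj_mem_orbC (le_normalizer_map π ⟨n, n.2, rfl⟩)
        (h5.le ⟨s, hs, rfl⟩))
      obtain ⟨l, hl⟩ := h4 ⟨t, ht⟩
      change n.1 * s.1 * n.1⁻¹ ∈ S
      exact (eq_of_map_eq hc hk (g := t) (s := n.1 * s.1 * n.1⁻¹) (congrArg Subtype.val hl)
        (by rw [conj_pow, show s.1 ^ p ^ k = 1 from congrArg Subtype.val hk']; simp)
        (by simpa using e)) ▸ ht⟩
    rw [← h5]
    refine map_mono fun s hs => hc2.le_of_normal (P := S.subgroupOf _) hc1.left hM h4.comap_subtype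
      (x := ⟨s, centralizer_le_normalizer _ fun d hd => ?_⟩) hs
    obtain ⟨k, hk'⟩ := h4 ⟨s, hs⟩
    exact (commute_of_map hc hk (congrArg Subtype.val hk')
      ((h5.le ⟨s, hs, rfl⟩).1 _ ⟨d, hd, rfl⟩)).symm
  have h5 : ∀ d ∈ D, Commute (π d) (π x) := fun d hd =>
    (show Commute d x from mem_centralizer_singleton_iff.1 (h1.le hd)).map π
  refine ⟨(π x).support, ?_, h3, fun Q hQ hQ' h => ?_⟩
  · rintro _ ⟨d, hd, rfl⟩ ⟨y, hy⟩
    by_contra e
    obtain ⟨a, h6, -, h7, h8⟩ := exists_mem_orbC h3 ⟨d, hd, rfl⟩ e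
    obtain ⟨a, ha, rfl⟩ := h4 h6
    obtain ⟨y₀, h9⟩ : ∃ y, π a y ≠ y := by simpa [Equiv.ext_iff] using h7
    obtain ⟨_, ⟨e₀, he₀, rfl⟩, rfl⟩ := h8 _ h9
    obtain ⟨_, ⟨e₁, he₁, rfl⟩, h10⟩ := h8 _ (mem_support.1
      ((mem_support_iff_of_commute (h5 a ha).symm _).2 (mem_support.2 h9)))
    have h11 : π x y = π (e₀⁻¹ * e₁) y := by
      rw [← Perm.mul_apply, ← (h5 e₀ he₀).eq] at h10
      simp [← h10]
    have h12 := mul_mem (inv_mem he₀) he₁
    generalize e₀⁻¹ * e₁ = d' at h11 h12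
    have h13 : ∀ n, (π x ^ n) y = (π d' ^ n) y := fun n => by
      induction n with
      | zero => rfl
      | succ n ih =>
        rw [pow_succ', Perm.mul_apply, ih, ← Perm.mul_apply, ← ((h5 d' h12).pow_left n).eq,
          Perm.mul_apply, h11, pow_succ, Perm.mul_apply]
    obtain ⟨k, hk'⟩ := hD.isPGroup ⟨d', h12⟩
    obtain ⟨m, hm⟩ := exists_pow_eq_self_of_coprime (x := x) (n := p ^ k)
      (Nat.Coprime.pow_left k (hp.out.coprime_iff_not_dvd.2 (hx.not_dvd_orderOf hB hM)))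
    refine mem_support.1 hy ?_
    rw [← hm, map_pow, map_pow]
    refine pow_apply_eq_self_of_apply_eq_self ?_ m
    rw [h13, ← map_pow, show d' ^ p ^ k = 1 from congrArg Subtype.val hk', map_one, Perm.one_apply]
  · obtain ⟨S, h6, h7, rfl⟩ := exists_map_eq hQ' (h2 Q hQ') hD.isPGroup h
    rw [h1.maximal S (fun s hs => mem_centralizer_singleton_iff.2 ?_) h6 h7]
    obtain ⟨k, hk'⟩ := h6 ⟨s, hs⟩
    exact commute_of_map hc hk (congrArg Subtype.val hk') (Perm.Disjoint.commute fun y =>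
      or_iff_not_imp_right.2 fun e => hQ ⟨s, hs, rfl⟩ ⟨y, mem_support.2 e⟩)

/-- The defect of a character of a symmetric group is at least its weight. -/
theorem exists_weight_perm (p : ℕ) [hp : Fact p.Prime] (ψ : IrrCharacter (Perm α)) : ∃ w,
    (charDegree ψ.1).factorization p + w ≤ (Fintype.card α).factorial.factorization p ∧
      ∀ g, ψ g ≠ 0 → ((pt g).filter (p ∣ ·)).sum ≤ p * w := by
  obtain ⟨a, ha⟩ := exists_mult_ne_zero le_rfl ψ
  have h1 : res p (fun i => a i % p) (fun i => a i / p) = a :=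
    funext fun i => by simp [res, Nat.mod_add_div]
  have hρ := fun i => Nat.mod_lt (a i) hp.out.pos
  rw [← h1] at ha
  have h2 := cinj_of_injective (inj_of_XF_ne_zero (XF_ne_zero_of_mult ha)).1
  obtain ⟨w, hw⟩ := exists_add_of_le (h2.sum_rk' ▸ sum_le_sum fun i _ => h2.rk_le i)
  refine ⟨w, InCls.factorization_add_le le_rfl hρ ⟨_, ha, hw⟩, fun g hg => ?_⟩
  have := sum_le_of_X_ne_zero hρ (μ := (pt g).filter (p ∣ ·)) (ν := (pt g).filter (¬ p ∣ ·))
    (fun k hk => (Multiset.mem_filter.1 hk).2) (fun i => a i / p) fun e => hg (by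
      rw [Multiset.filter_add_not] at e
      rw [show ψ g = _ from congrFun (eq_smul_XF le_rfl ha) g]; simp [XF, e])
  rw [hw, mul_add] at this
  omega

theorem card_support_le_of_central (π : G →* Perm α) (hM : IsPModular p M) (hB : IsPBlock M B)
    (hD : IsDefectGroup p M B D) (hχ : χ ∈ B) {m : ℕ}
    (h : ∀ g, χ g ≠ 0 → ((pt (π g)).filter (p ∣ ·)).sum ≤ m) {u : G} (hu : u ∈ D)
    (hu' : D ≤ centralizer {u}) : #(π u).support ≤ m := by
  obtain ⟨y, h1, h2, h3⟩ := hD.exists_apply_ne_zero hM hB hu hu' hχ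
  obtain ⟨k, hk⟩ := hD.isPGroup ⟨u, hu⟩
  refine (card_support_le_sum_filter (k := k) ?_ (fun e => h1 (e.trans (orderOf_map_dvd π y)))
    (h2.map π)).trans (map_mul π u y ▸ h _ h3)
  rw [← map_pow, show u ^ p ^ k = 1 from congrArg Subtype.val hk, map_one]

variable (p B D χ) in
/-- Robinson's bound. -/
def HtOk : Prop :=
  blockHeight p B χ.1 = 0 ∨ Nat.card (center D) * p ^ blockHeight p B χ.1 < Nat.card D

variable (hM : IsPModular p M) (hB : IsPBlock M B) (hD : IsDefectGroup p M B D) (hχ : χ ∈ B)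
include hM hB hD hχ

theorem htOk_of_le {w : ℕ} (hw : (charDegree χ.1).factorization p + w ≤ (Nat.card G).factorization p)
    (h : Nat.card D ≤ p ^ w ∨ Nat.card (center D) < p ^ w) : HtOk p B D χ := by
  have h1 := factorization_charDegree_add_blockDefect (p := p) hχ
  rw [HtOk, hD.card_eq hB hM] at *
  refine h.imp (fun e => ?_) fun e => ?_
  · have := (Nat.pow_le_pow_iff_right hp.out.one_lt).1 e; omega
  · refine (Nat.mul_lt_mul_of_pos_right e (pow_pos hp.out.pos _)).trans_le ?_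
    rw [← pow_add]
    exact Nat.pow_le_pow_right hp.out.pos (by omega)

theorem htOk_of_small (h : Nat.card D ≤ p ^ 2 ∨ Nat.card (center D) ≤ p) : HtOk p B D χ := by
  refine or_iff_not_imp_left.2 fun e => ?_
  have h1 := hB.blockHeight_add_two_le hM hχ e
  rw [hD.card_eq hB hM] at *
  rcases h with h | h
  · have := (Nat.pow_le_pow_iff_right hp.out.one_lt).1 h; omega
  · refine (Nat.mul_le_mul_right _ h).trans_lt ?_
    rw [← pow_succ']
    exact Nat.pow_lt_pow_right hp.out.one_lt (by omega)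

theorem htOk_of_weight {π : G →* Perm α} (hc : π.ker ≤ center G) (hk : ¬ p ∣ Nat.card π.ker)
    (hr : ∀ σ k, σ ^ p ^ k = 1 → σ ∈ π.range) {w : ℕ}
    (hw : (charDegree χ.1).factorization p + w ≤ (Nat.card G).factorization p)
    (h : ∀ u ∈ D, D ≤ centralizer {u} → #(π u).support ≤ p * w) : HtOk p B D χ := by
  obtain ⟨F, hF⟩ := exists_isSylowIn_map hc hk hr hM hB hD
  obtain ⟨_, ⟨u, hu, rfl⟩, w', h1, -, h2, h3⟩ := card_le_or_odd hF
  obtain ⟨k, hk'⟩ := hD.isPGroup.exists_card_eq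
  have h4 : ∀ d : D, d.1 ^ p ^ k = 1 := fun d => hk' ▸ congrArg Subtype.val (pow_card_eq_one' (x := d))
  have h5 := h u hu fun d hd => mem_centralizer_singleton_iff.2
    (commute_of_map hc hk (h4 ⟨u, hu⟩) (h1 _ ⟨d, hd, rfl⟩)).symm
  let e := MulEquiv.ofBijective (π.subgroupMap D) ⟨fun a b e => Subtype.ext
    (eq_of_map_eq hc hk (h4 a) (h4 b) (congrArg Subtype.val e)), π.subgroupMap_surjective D⟩
  rw [← Nat.card_congr e.toEquiv, ← Nat.card_congr (centerCongr e).toEquiv] at h3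
  exact htOk_of_le hM hB hD hχ ((Nat.add_le_add_left
    (Nat.le_of_mul_le_mul_left (h2 ▸ h5) hp.out.pos) _).trans hw) h3

end Cfsg.Sym

set_option linter.all false in
theorem Cfsg.Rz.Sym_Local_0 : True := by
  have := @_root_.Cfsg.Sym.HtOk.eq_def.{0}
  have := @_root_.Cfsg.Sym.HtOk.fun_cases
  trivial
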