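import Cfsg.Agent.Sym.Fock
import Cfsg.Agent.Sym.Frob
import Mathlib.Algebra.BigOperators.Finprod
import Mathlib.Algebra.Ring.NegOnePow
import Mathlib.Data.Int.Interval

/-!
# Neutral fermions and the odd power sums
-/

set_option autoImplicit false
set_option linter.unusedSectionVars false

namespace Cfsg.Sym

open Finset Finsupp
open scoped symmDiff

variable {i j r s : ℤ} {u v : Fk ℕ}

/-- `(-1) ^ i`. -/
noncomputable def eps (i : ℤ) : ℂ := (-1) ^ i

theorem eps_add (i j : ℤ) : eps (i + j) = eps i * eps j := zpow_add₀ (by simp) i j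

theorem eps_mul_self (i : ℤ) : eps i * eps i = 1 := by rw [eps, ← mul_zpow]; simp

@[simp] theorem eps_neg (i : ℤ) : eps (-i) = eps i := by
  rw [eps, zpow_neg]; exact inv_eq_of_mul_eq_one_right (eps_mul_self i)

@[simp] theorem eps_zero : eps 0 = 1 := rfl

theorem eps_sub (i j : ℤ) : eps (i - j) = eps i * eps j := by rw [sub_eq_add_neg, eps_add, eps_neg]

theorem eps_odd (h : Odd r) : eps r = -1 := h.neg_one_zpow

/-- The neutral fermions; the index `a : ℕ` of the Fock space stands for the mode `a + 1`. -/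
noncomputable def nf : ℤ → Module.End ℂ (Fk ℕ)
  | Int.ofNat 0 => fpar
  | Int.ofNat (a + 1) => fW a 0 1
  | Int.negSucc a => fW a (2 * eps (a + 1)) 0

theorem nf_zero : nf 0 = fpar := rfl

theorem nf_succ (a : ℕ) : nf (a + 1) = fW a 0 1 := rfl

theorem nf_neg_succ (a : ℕ) : nf (-(a + 1)) = fW a (2 * eps (a + 1)) 0 := rfl

attribute [irreducible] nf

theorem int_cases (i : ℤ) : i = 0 ∨ (∃ a : ℕ, i = a + 1) ∨ ∃ a : ℕ, i = -(a + 1) := by
  rcases i with (_ | a) | a
  exacts [.inl rfl, .inr (.inl ⟨a, rfl⟩), .inr (.inr ⟨a, rfl⟩)]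

theorem nf_nf (i j : ℤ) (v : Fk ℕ) :
    nf i (nf j v) = (if i + j = 0 then 2 * eps i else 0) • v - nf j (nf i v) := by
  rcases int_cases i with rfl | ⟨a, rfl⟩ | ⟨a, rfl⟩ <;>
    rcases int_cases j with rfl | ⟨b, rfl⟩ | ⟨b, rfl⟩ <;>
    simp only [nf_zero, nf_succ, nf_neg_succ, fpar_fpar, fpar_fW]
  · simp [two_smul]
  iterate 3 rw [if_neg (by omega)]; simp
  · rw [fW_fW, if_neg (c := _ + _ = _) (by omega)]; simp
  · rw [fW_fW]; congr 2; exact if_ctx_congr (by omega) (fun h => by simp [show a = b by omega])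
      fun _ => rfl
  · rw [if_neg (by omega)]; simp
  · rw [fW_fW]; congr 2; exact if_congr (by omega) (by rw [eps_neg]; ring) rfl
  · rw [fW_fW, if_neg (c := _ + _ = _) (by omega)]; simp

theorem fB_nf (i : ℤ) (u v : Fk ℕ) : fB 2 (nf i u) v = eps i * fB 2 u (nf (-i) v) := by
  rcases int_cases i with rfl | ⟨a, rfl⟩ | ⟨a, rfl⟩
  · simp [nf_zero, fB_fpar]
  · rw [nf_succ, nf_neg_succ, fB_fW two_ne_zero, ← smul_eq_mul (eps _), ← map_smul,
      ← LinearMap.smul_apply, ← fW_smul, mul_left_comm, eps_mul_self]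
    simp
  · rw [neg_neg, nf_succ, nf_neg_succ, fB_fW two_ne_zero, ← smul_eq_mul (eps _), ← map_smul,
      ← LinearMap.smul_apply, ← fW_smul, eps_neg]
    simp

theorem exists_nf_eq_zero (v : Fk ℕ) : ∃ K : ℕ, ∀ j, j < -(K : ℤ) → nf j v = 0 := by
  refine ⟨(v.support.biUnion id).sup id + 1, fun j hj => ?_⟩
  rcases int_cases j with rfl | ⟨a, rfl⟩ | ⟨a, rfl⟩
  · omega
  · omega
  ext T
  rw [nf_neg_succ, fW_apply]
  split_ifs with h
  · simp
  refine mul_eq_zero_of_right _ (not_not.1 fun h0 => ?_)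
  have : a ≤ (v.support.biUnion id).sup id := le_sup (f := id)
    (mem_biUnion.2 ⟨_, mem_support_iff.2 h0, by simp [mem_tog, h]⟩)
  omega

/-- The vacuum. -/
noncomputable def vac : Fk ℕ := single ∅ 1

theorem nf_vac (h : j < 0) : nf j vac = 0 := by
  rcases int_cases j with rfl | ⟨a, rfl⟩ | ⟨a, rfl⟩
  · omega
  · omega
  · rw [nf_neg_succ]; simp [vac, fW_single]

theorem nf_apply_empty (h : 0 < j) (v : Fk ℕ) : nf j v ∅ = 0 := by
  rcases int_cases j with rfl | ⟨a, rfl⟩ | ⟨a, rfl⟩
  · omega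
  · simp [nf_succ, fW_apply]
  · omega

theorem nf_zero_vac : nf 0 vac = vac := by simp [nf_zero, vac, fpar_single]

theorem fB_vac (v : Fk ℕ) : fB 2 vac v = v ∅ := by simp [vac, fB_single]

/-- The terms of the boson operators. -/
noncomputable def nT (r j : ℤ) : Module.End ℂ (Fk ℕ) := (eps j / 4) • (nf (j - r) * nf (-j))

theorem nT_apply (r j : ℤ) (v : Fk ℕ) : nT r j v = (eps j / 4) • nf (j - r) (nf (-j) v) := rfl

theorem nT_eq_zero (hr : r ≠ 0) (h : nf (-j) v = 0 ∨ nf (j - r) v = 0) : nT r j v = 0 := by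
  rw [nT_apply]
  rcases h with h | h
  · simp [h]
  · rw [nf_nf, if_neg (by omega), h]; simp

theorem finite_nT (hr : Odd r) (v : Fk ℕ) : Function.HasFiniteSupport fun j => nT r j v := by
  obtain ⟨K, hK⟩ := exists_nf_eq_zero v
  refine (Set.finite_Icc (r - K) K).subset fun j hj => ?_
  by_contra h
  refine hj (nT_eq_zero (by rintro rfl; simp at hr) ?_)
  rcases not_and_or.1 h with h | h
  exacts [.inr (hK _ (by omega)), .inl (hK _ (by omega))]

open Classical in
/-- The bosons: `nP r` removes `r`-bars, `nP (-r)` multiplies by the power sum `p_r`. -/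
noncomputable def nP (r : ℤ) : Module.End ℂ (Fk ℕ) :=
  if h : Odd r then
    { toFun := fun v => ∑ᶠ j, nT r j v
      map_add' := fun u v => by
        simp only [map_add]; exact finsum_add_distrib (finite_nT h u) (finite_nT h v)
      map_smul' := fun c v => by
        simp only [map_smul]; exact (smul_finsum' c (finite_nT h v)).symm }
  else 0

theorem nP_apply (h : Odd r) (v : Fk ℕ) : nP r v = ∑ᶠ j, nT r j v := by rw [nP, dif_pos h]; rfl

theorem nP_even (h : ¬ Odd r) : nP r = 0 := dif_neg h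

attribute [irreducible] nP

theorem nP_nf (h : Odd r) (a : ℤ) (v : Fk ℕ) :
    nP r (nf a v) = nf a (nP r v) + nf (a - r) v := by
  have h1 : ∀ j, nT r j (nf a v) - nf a (nT r j v) =
      (if j = a then (1 / 2 : ℂ) • nf (a - r) v else 0) +
        if j = r - a then (1 / 2 : ℂ) • nf (a - r) v else 0 := fun j => by
    simp only [nT_apply, map_smul]
    rw [nf_nf (-j) a, map_sub, nf_nf (j - r) a, map_smul, ← smul_sub, sub_sub, sub_add_cancel,
      smul_sub, smul_smul, smul_smul, sub_eq_add_neg, ← neg_smul]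
    congr 1
    · split_ifs with h1 h2 h2
      · subst h2; congr 1; rw [eps_neg]; linear_combination (1 / 2) * eps_mul_self j
      · omega
      · omega
      · simp
    · split_ifs with h1 h2 h2
      · rw [show a - r = -j by omega, eps_sub, eps_odd h]; congr 1
        linear_combination (1 / 2) * eps_mul_self j
      · omega
      · omega
      · simp
  have h2 : ∀ (b : ℤ) (x : Fk ℕ), Function.HasFiniteSupport fun j => if j = b then x else 0 :=
    fun b x => (Set.finite_singleton b).subset fun j hj => by_contra fun e => hj (if_neg e)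
  rw [nP_apply h, nP_apply h, map_finsum _ (finite_nT h v), ← sub_eq_iff_eq_add',
    ← finsum_sub_distrib (finite_nT h _) ((finite_nT h v).subset fun j hj e => hj (by simp [e]))]
  simp only [h1]
  rw [finsum_add_distrib (h2 _ _) (h2 _ _), finsum_eq_single _ a fun _ h => if_neg h,
    finsum_eq_single _ (r - a) fun _ h => if_neg h, if_pos rfl, if_pos rfl, ← add_smul]
  norm_num

theorem fB_nP (r : ℤ) (u v : Fk ℕ) : fB 2 (nP r u) v = fB 2 u (nP (-r) v) := by
  by_cases h : Odd r
  swap
  · simp [nP_even h, nP_even (mt odd_neg.1 h)]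
  rw [nP_apply h, nP_apply h.neg, map_finsum _ (finite_nT h.neg v), ← LinearMap.flip_apply,
    map_finsum _ (finite_nT h u), ← finsum_comp_equiv (Equiv.addRight r)]
  refine finsum_congr fun j => ?_
  simp only [nT_apply, map_smul, LinearMap.flip_apply, fB_nf, Equiv.coe_addRight, eps_neg,
    add_sub_cancel_right, neg_neg, sub_neg_eq_add, smul_eq_mul]
  linear_combination (eps j / 4 * fB 2 u (nf (j + r) (nf (-j) v))) * eps_mul_self (j + r)

theorem nP_vac (h : 0 < r) : nP r vac = 0 := by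
  by_cases h' : Odd r
  swap
  · simp [nP_even h']
  rw [nP_apply h', finsum_eq_zero_of_forall_eq_zero fun j => nT_eq_zero h.ne' ?_]
  rcases lt_or_ge 0 j with e | e
  exacts [.inl (nf_vac (by omega)), .inr (nf_vac (by omega))]

theorem nP_comm_eq (r s : ℤ) (v : Fk ℕ) :
    nP r (nP s v) = nP s (nP r v) + (nP r (nP s vac) ∅ - nP s (nP r vac) ∅) • v := by
  by_cases hr : Odd r
  swap
  · simp [nP_even hr]
  by_cases hs : Odd s
  swap
  · simp [nP_even hs]
  have h : ∀ a v, (nP r * nP s - nP s * nP r) (nf a v) = nf a ((nP r * nP s - nP s * nP r) v) :=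
    fun a v => by
    simp only [Module.End.mul_apply, LinearMap.sub_apply, nP_nf hr, nP_nf hs, map_add, map_sub,
      sub_right_comm a r s]
    abel
  refine eq_add_of_sub_eq' (eq_smul_of_commute (L := nP r * nP s - nP s * nP r)
    (fun a v => ?_) (fun a => nf_succ a ▸ h (a + 1)) v)
  have : fW a 1 0 = (eps (a + 1) / 2) • nf (-(a + 1)) := by
    rw [nf_neg_succ, ← fW_smul, mul_zero]; congr 1; linear_combination -eps_mul_self (a + 1)
  rw [this, LinearMap.smul_apply, LinearMap.smul_apply, map_smul, h]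

theorem nP_apply_empty (h : r < 0) (v : Fk ℕ) : nP r v ∅ = 0 := by
  rw [← fB_vac, ← neg_neg r, ← fB_nP, nP_vac (by omega)]; simp

theorem nf_nf_vac (i j : ℤ) : nf i (nf j vac) ∅ =
    if i + j = 0 then (if i < 0 then 2 * eps i else if i = 0 then 1 else 0) else 0 := by
  rcases lt_trichotomy i 0 with h | rfl | h
  · rw [nf_nf, nf_vac h]; split_ifs <;> simp [vac]
  · rcases lt_trichotomy j 0 with h | rfl | h
    · simp [nf_vac h, h.ne]
    · simp [nf_zero_vac]; simp [vac]
    · simp [nf_zero, fpar_apply, nf_apply_empty h, h.ne']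
  · simp [nf_apply_empty h, h.ne', h.le]

theorem nP_nP_vac {r t : ℕ} (hr : Odd r) (ht : Odd t) :
    nP r (nP (-t) vac) ∅ = if r = t then (r : ℂ) / 2 else 0 := by
  have hr' : Odd (r : ℤ) := by exact_mod_cast hr
  have ht' : Odd (-t : ℤ) := odd_neg.2 (by exact_mod_cast ht)
  have h0 := hr.pos
  rw [nP_apply ht', finsum_eq_sum_of_support_subset (s := Icc (-t : ℤ) 0)]
  swap
  · intro j hj
    by_contra h
    refine hj (nT_eq_zero (by have := ht.pos; omega) ?_)
    simp only [coe_Icc, Set.mem_Icc, not_and_or] at h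
    rcases h with h | h
    exacts [.inr (nf_vac (by omega)), .inl (nf_vac (by omega))]
  simp only [map_sum, nT_apply, map_smul, nP_nf hr', nP_vac (show (0 : ℤ) < r by omega), map_zero,
    zero_add, finsetSum_apply, Finsupp.smul_apply, Finsupp.add_apply, nf_nf_vac,
    smul_eq_mul]
  split_ifs with h
  swap
  · exact sum_eq_zero fun j _ => by rw [if_neg (by omega), if_neg (by omega)]; simp
  subst h
  rw [Finset.sum_congr rfl (g := fun j : ℤ => 1 / 2 - (if j = -r then 1 / 4 else 0) -
    if j = 0 then 1 / 4 else 0)]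
  · simp only [sum_sub_distrib, Finset.sum_ite_eq', sum_const, Int.card_Icc, mem_Icc]
    rw [if_pos (by omega), if_pos (by omega), show (0 + 1 - -(r : ℤ)).toNat = r + 1 by omega]
    simp; ring
  intro j hj
  rw [mem_Icc] at hj
  rw [if_pos (by omega), if_neg (by omega), show j - -r - r = j by omega, if_pos (add_neg_cancel j)]
  have := eps_mul_self j
  split_ifs with h1 h2 h3 h4 <;> try omega
  · rw [show j = -r by omega, eps_neg, eps_odd hr']; norm_num
  · linear_combination (1 / 2) * this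
  · subst_vars; norm_num

instance : LeftCommutative fun (r : ℕ) (v : Fk ℕ) => nP (-r) v := ⟨fun r t v => by
  rcases r.eq_zero_or_pos with rfl | hr
  · simp [nP_even]
  rcases t.eq_zero_or_pos with rfl | ht
  · simp [nP_even]
  rw [nP_comm_eq, nP_apply_empty (by omega), nP_apply_empty (by omega)]; simp⟩

/-- The power sum `p_μ` in the Fock space. -/
noncomputable def pv (μ : Multiset ℕ) : Fk ℕ := μ.foldr (fun (r : ℕ) v => nP (-r) v) vac

theorem pv_zero : pv 0 = vac := rfl

theorem pv_cons (r : ℕ) (μ : Multiset ℕ) : pv (r ::ₘ μ) = nP (-r) (pv μ) :=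
  Multiset.foldr_cons ..

/-- The Heisenberg relation. -/
theorem nP_pv {r : ℕ} (hr : Odd r) {μ : Multiset ℕ} (hμ : ∀ k ∈ μ, Odd k) :
    nP r (pv μ) = ((r * μ.count r : ℕ) / 2 : ℂ) • pv (μ.erase r) := by
  induction μ using Multiset.induction with
  | empty => simp [pv_zero, nP_vac, hr.pos]
  | cons t μ ih =>
    rw [pv_cons, nP_comm_eq, nP_nP_vac hr (hμ t (by simp)),
      nP_vac (show (0 : ℤ) < r by exact_mod_cast hr.pos), map_zero, Finsupp.zero_apply, sub_zero,
      ih fun k hk => hμ k (by simp [hk]), map_smul, ← pv_cons]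
    split_ifs with h
    · subst h
      rw [Multiset.count_cons_self, Multiset.erase_cons_head]
      by_cases h : r ∈ μ
      · rw [Multiset.cons_erase h, ← add_smul]; congr 1; push_cast; ring
      · simp [Multiset.count_eq_zero.2 h]
    · rw [Multiset.count_cons_of_ne h, Multiset.erase_cons_tail _ (Ne.symm h)]; simp

/-- Orthogonality of the power sums. -/
theorem fB_pv {μ : Multiset ℕ} : ∀ {ν : Multiset ℕ}, (∀ k ∈ μ, Odd k) → (∀ k ∈ ν, Odd k) →
    fB 2 (pv μ) (pv ν) = if μ = ν then (zc μ : ℂ) / 2 ^ μ.card else 0 := by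
  induction μ using Multiset.induction with
  | empty =>
    intro ν _ hν
    rw [pv_zero, fB_vac]
    split_ifs with h
    · simp [← h, pv_zero, vac, zc]
    · obtain ⟨k, hk⟩ := Multiset.exists_mem_of_ne_zero (Ne.symm h)
      obtain ⟨ν, rfl⟩ := Multiset.exists_cons_of_mem hk
      rw [pv_cons, nP_apply_empty (by have := (hν k hk).pos; omega)]
  | cons k μ ih =>
    intro ν hμ hν
    rw [pv_cons, fB_nP, neg_neg, nP_pv (hμ k (by simp)) hν, map_smul,
      ih (fun j hj => hμ j (by simp [hj])) fun j hj => hν j (Multiset.mem_of_mem_erase hj)]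
    by_cases hk : k ∈ ν
    · obtain ⟨ν, rfl⟩ := Multiset.exists_cons_of_mem hk
      simp only [Multiset.erase_cons_head, Multiset.cons_inj_right]
      split_ifs with h
      · subst h; rw [zc_cons]; simp [pow_succ]; ring
      · simp
    · rw [Multiset.count_eq_zero.2 hk, if_neg (c := k ::ₘ μ = ν) fun h => hk (by simp [← h])]; simp

end Cfsg.Sym

set_option linter.all false in
theorem Cfsg.Rz.Sym_Neutral_0 : True := by
  have := @_root_.Cfsg.Sym.nT.eq_def
  have := @_root_.Cfsg.Sym.nT.eq_1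
  have := @_root_.Cfsg.Sym.nT.fun_cases
  have := @_root_.Cfsg.Sym.vac.eq_def
  have := @_root_.Cfsg.Sym.vac.fun_cases
  have := @_root_.Cfsg.Sym.nf.eq_def
  have := @_root_.Cfsg.Sym.nf.eq_1
  have := @_root_.Cfsg.Sym.nf.fun_cases
  have := @_root_.Cfsg.Sym.nP.eq_def
  have := @_root_.Cfsg.Sym.nP.fun_cases
  have := @_root_.Cfsg.Sym.pv.eq_def
  have := @_root_.Cfsg.Sym.pv.eq_1
  have := @_root_.Cfsg.Sym.pv.fun_cases
  have := @_root_.Cfsg.Sym.eps.eq_def
  have := @_root_.Cfsg.Sym.eps.fun_cases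
  trivial
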