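import Cfsg.Agent.Sym.Char
import Cfsg.Agent.GA.Conj
import Mathlib.GroupTheory.SpecificGroups.Alternating
import Mathlib.GroupTheory.GroupAction.FixingSubgroup

/-!
# Sylow subgroups of symmetric groups: centres
-/

set_option autoImplicit false
set_option linter.unusedSectionVars false

namespace Cfsg.Sym

open Equiv Equiv.Perm Finset Subgroup GA

variable {p : ℕ} {α : Type*} [Fintype α] [DecidableEq α] {P : Subgroup (Perm α)} {u σ : Perm α}
  {F : Set α}

/-- Elements centralising `P` and fixing its orbits. -/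
def orbC (P : Subgroup (Perm α)) : Subgroup (Perm α) where
  carrier := {σ | (∀ d ∈ P, Commute σ d) ∧ ∀ x, ∃ d ∈ P, σ x = d x}
  one_mem' := ⟨fun _ _ => .one_left _, fun _ => ⟨1, P.one_mem, rfl⟩⟩
  mul_mem' := fun {σ τ} h h' => ⟨fun d hd => (h.1 d hd).mul_left (h'.1 d hd), fun x => by
    obtain ⟨d, hd, e⟩ := h'.2 x
    obtain ⟨d', hd', e'⟩ := h.2 (d x)
    exact ⟨d' * d, P.mul_mem hd' hd, by simp [e, e']⟩⟩
  inv_mem' := fun {σ} h => ⟨fun d hd => (h.1 d hd).inv_left, fun x => by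
    obtain ⟨d, hd, e⟩ := h.2 (σ⁻¹ x)
    exact ⟨d⁻¹, P.inv_mem hd, d.injective (by simpa using e.symm)⟩⟩

theorem isPGroup_orbC [Fact p.Prime] (hP : IsPGroup p P) : IsPGroup p (orbC P) := fun σ => by
  obtain ⟨k, hk⟩ := hP.exists_card_eq
  refine ⟨k, Subtype.ext (Equiv.ext fun x => ?_)⟩
  obtain ⟨d, hd, e⟩ := σ.2.2 x
  have : ∀ n, (σ.1 ^ n) x = (d ^ n) x := fun n => by
    induction n with
    | zero => rfl
    | succ n ih =>
      rw [pow_succ', Perm.mul_apply, ih, ← Perm.mul_apply, ((σ.2.1 d hd).pow_right n).eq,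
        Perm.mul_apply, e, pow_succ, Perm.mul_apply]
  rw [Subgroup.coe_pow, this, ← hk,
    show d ^ Nat.card P = 1 from congrArg Subtype.val (pow_card_eq_one' (x := (⟨d, hd⟩ : P)))]
  rfl

theorem conj_mem_orbC {g : Perm α} (hg : g ∈ normalizer (P : Set (Perm α))) (h : σ ∈ orbC P) :
    g * σ * g⁻¹ ∈ orbC P := by
  refine ⟨fun d hd => ?_, fun x => ?_⟩
  · simpa [mul_assoc] using
      (h.1 _ ((mem_normalizer_iff''.1 hg d).1 hd)).map (MulAut.conj g).toMonoidHom
  · obtain ⟨d, hd, e⟩ := h.2 (g⁻¹ x)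
    exact ⟨_, (mem_normalizer_iff.1 hg d).1 hd, by simpa using e⟩

theorem orbC_le_fixing (h : P ≤ fixingSubgroup (Perm α) F) : orbC P ≤ fixingSubgroup (Perm α) F :=
  fun σ hσ x => by
    obtain ⟨d, hd, e⟩ := hσ.2 x
    exact e.trans (h hd x)

theorem exists_mem_orbC [hp : Fact p.Prime] (hP : IsPGroup p P) {d : Perm α} (hd : d ∈ P) {x : α}
    (hx : d x ≠ x) : ∃ a ∈ orbC P, a ^ p = 1 ∧ a ≠ 1 ∧ ∀ y, a y ≠ y → ∃ e ∈ P, y = e x := by
  classical
  have h1 : ∀ e : P, ∀ y, (∃ e' ∈ P, e.1 y = e' x) ↔ ∃ e' ∈ P, y = e' x := fun e y =>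
    ⟨fun ⟨e', h, h'⟩ => ⟨e.1⁻¹ * e', P.mul_mem (P.inv_mem e.2) h, by simp [← h']⟩,
      fun ⟨e', h, h'⟩ => ⟨e.1 * e', P.mul_mem e.2 h, by simp [h']⟩⟩
  let r : P →* Perm α := ofSubtype.comp
    { toFun := fun e => e.1.subtypePerm (p := fun y => ∃ e' ∈ P, y = e' x) (h1 e)
      map_one' := rfl
      map_mul' := fun _ _ => rfl }
  have h2 : ∀ e y, (∃ e' ∈ P, y = e' x) → r e y = e.1 y := fun e y h =>
    ofSubtype_subtypePerm_of_mem (h1 e) h
  have h3 : ∀ e y, (¬ ∃ e' ∈ P, y = e' x) → r e y = y := fun e y h =>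
    ofSubtype_subtypePerm_of_not_mem (h1 e) h
  have : Nontrivial r.range := ⟨⟨_, ⟨d, hd⟩, rfl⟩, 1, fun e =>
    hx ((h2 ⟨d, hd⟩ x ⟨1, P.one_mem, rfl⟩).symm.trans (congrArg (·.1 x) e))⟩
  have h4 := hP.of_surjective _ r.rangeRestrict_surjective
  have := h4.center_nontrivial
  obtain ⟨k, hk, h5⟩ := (h4.to_subgroup (center _)).nontrivial_iff_card.1 this
  obtain ⟨⟨⟨_, a, rfl⟩, ha⟩, h6⟩ := exists_prime_orderOf_dvd_card' (G := center r.range) p
    (h5 ▸ dvd_pow_self p hk.ne')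
  simp only [← Subgroup.orderOf_coe] at h6
  refine ⟨r a, ⟨fun e he => Equiv.ext fun y => ?_, fun y => ?_⟩, h6 ▸ pow_orderOf_eq_one _,
    fun e => hp.out.ne_one (by simp [← h6, e]), fun y => not_imp_comm.1 (h3 a y)⟩
  · by_cases h : ∃ e' ∈ P, y = e' x
    · have := congrArg (·.1 y) (mem_center_iff.1 ha ⟨_, ⟨e, he⟩, rfl⟩)
      simp only [Subgroup.coe_mul, Perm.mul_apply, h2 _ y h, h2 _ _ ((h1 a y).2 h)] at this
      simp only [Perm.mul_apply, h2 _ y h, this]
    · simp only [Perm.mul_apply, h3 _ y h, h3 _ _ (mt (h1 ⟨e, he⟩ y).1 h)]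
  · by_cases h : ∃ e' ∈ P, y = e' x
    · exact ⟨a, a.2, h2 a y h⟩
    · exact ⟨1, P.one_mem, h3 a y h⟩

theorem mem_orbC_zpowers : σ ∈ orbC (zpowers u) ↔ Commute σ u ∧ ∀ x, u.SameCycle x (σ x) :=
  and_congr ⟨fun h => h u (mem_zpowers u), fun h _ ⟨k, e⟩ => e ▸ h.zpow_right k⟩
    (forall_congr' fun _ => ⟨fun ⟨_, ⟨k, e⟩, h⟩ => ⟨k, (e ▸ h).symm⟩,
      fun ⟨k, e⟩ => ⟨_, ⟨k, rfl⟩, e.symm⟩⟩)

theorem cycleOf_mem_orbC (u : Perm α) (x : α) : u.cycleOf x ∈ orbC (zpowers u) := by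
  refine mem_orbC_zpowers.2 ⟨?_, fun y => ?_⟩
  · by_cases h : x ∈ u.support
    · exact self_mem_cycle_factors_commute (cycleOf_mem_cycleFactorsFinset_iff.2 h)
    · simp [notMem_support.1 h, (cycleOf_eq_one_iff u).2]
  · simp only [cycleOf_apply]
    split_ifs <;> simp [SameCycle.rfl]

theorem card_orbC_zpowers_le : Nat.card (orbC (zpowers u)) ≤ u.cycleType.prod := by
  choose b hb using fun c : u.cycleFactorsFinset =>
    (mem_cycleFactorsFinset_iff.1 c.2).1.nonempty_support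
  have h1 : ∀ c, u.cycleOf (b c) = c := fun c => (cycle_is_cycleOf (hb c) c.2).symm
  let f : orbC (zpowers u) → ∀ c : u.cycleFactorsFinset, c.1.support := fun σ c =>
    ⟨σ.1 (b c), h1 c ▸ mem_support_cycleOf_iff.2 ⟨(mem_orbC_zpowers.1 σ.2).2 _,
      mem_cycleFactorsFinset_support_le c.2 (hb c)⟩⟩
  refine (Nat.card_le_card_of_injective f fun σ τ e => Subtype.ext (Equiv.ext fun x => ?_)).trans ?_
  · have hσ := mem_orbC_zpowers.1 σ.2
    have hτ := mem_orbC_zpowers.1 τ.2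
    by_cases h : u x = x
    · rw [← (hσ.2 x).eq_of_left h, ← (hτ.2 x).eq_of_left h]
    · let c : u.cycleFactorsFinset := ⟨_, cycleOf_mem_cycleFactorsFinset_iff.2 (mem_support.2 h)⟩
      obtain ⟨k, hk⟩ := (mem_support_cycleOf_iff.1 (hb c)).1.symm
      rw [← hk, ← Perm.mul_apply, (hσ.1.zpow_right k).eq, ← Perm.mul_apply, (hτ.1.zpow_right k).eq]
      exact congrArg _ (congrArg Subtype.val (congrFun e _))
  · rw [Nat.card_pi]
    simp only [Nat.card_eq_fintype_card, Fintype.card_coe]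
    simp [cycleType_def, prod_attach _ fun c : Perm α => #c.support]

theorem exists_central [hp : Fact p.Prime] (hP : IsSylowIn p P (fixingSubgroup (Perm α) F)) :
    ∃ u ∈ P, (∀ d ∈ P, Commute u d) ∧ u ^ p = 1 ∧ (∀ d ∈ P, d.support ⊆ u.support) ∧
      orbC (zpowers u) ≤ P := by
  classical
  have h1 : ∀ Q : Subgroup (Perm α), IsPGroup p Q → Q ≤ fixingSubgroup (Perm α) F →
      (∀ d ∈ P, ∀ σ ∈ Q, d * σ * d⁻¹ ∈ Q) → Q ≤ P := fun Q hQ hF h =>
    le_sup_right.trans (hP.maximal _ (sup_le hP.le hF) (hP.isPGroup.to_sup_of_normal_right' hQ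
      fun d hd => mem_normalizer_fintype (h d hd)) le_sup_left).le
  have h2 := h1 _ (isPGroup_orbC hP.isPGroup) (orbC_le_fixing hP.le) fun d hd σ =>
    conj_mem_orbC (le_normalizer hd)
  obtain ⟨u, hu, h3⟩ := exists_max_image {u | u ∈ orbC P ∧ u ^ p = 1} (fun u => #u.support)
    ⟨1, by simp⟩
  simp only [mem_filter_univ] at hu h3
  refine ⟨u, h2 hu.1, hu.1.1, hu.2, fun d hd x hx => by_contra fun h4 => ?_,
    h1 _ (isPGroup_orbC fun ⟨_, k, rfl⟩ => ⟨1, Subtype.ext ?_⟩)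
      (orbC_le_fixing (zpowers_le.2 (hP.le (h2 hu.1)))) fun d hd σ => conj_mem_orbC ?_⟩
  · obtain ⟨a, h5, h6, h7, h8⟩ := exists_mem_orbC hP.isPGroup hd (mem_support.1 hx)
    have h9 : u.Disjoint a := fun y => or_iff_not_imp_right.2 fun e => by
      obtain ⟨e', he, rfl⟩ := h8 y e
      rw [← Perm.mul_apply, (hu.1.1 e' he).eq, Perm.mul_apply, notMem_support.1 h4]
    have := h3 (u * a) ⟨mul_mem hu.1 h5, by rw [h9.commute.mul_pow, hu.2, h6, one_mul]⟩
    rw [h9.card_support_mul, add_le_iff_nonpos_right, nonpos_iff_eq_zero, card_support_eq_zero]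
      at this
    exact h7 this
  · simp [← zpow_natCast (u ^ k), zpow_comm u k, hu.2]
  · exact centralizer_le_normalizer _ (by
      rintro _ ⟨k, rfl⟩; exact ((hu.1.1 d hd).zpow_left k).eq)

theorem card_le_or_card_center_lt {G : Type*} [Group G] [Finite G] {D E : Subgroup G} (h : E ≤ D)
    (h' : ∀ σ ∈ D, (∀ e ∈ E, Commute σ e) → σ ∈ E) :
    Nat.card D ≤ Nat.card E ∨ Nat.card (center D) < Nat.card E := by
  have h1 : (center D).map D.subtype ≤ E := by
    rintro _ ⟨σ, hσ, rfl⟩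
    exact h' _ σ.2 fun e he => (congrArg Subtype.val (mem_center_iff.1 hσ ⟨e, h he⟩)).symm
  refine h1.eq_or_lt.imp (fun e => card_le_of_le fun σ hσ => h' σ hσ fun x hx => ?_) fun e => ?_
  · obtain ⟨x, hx', rfl⟩ := e.ge hx
    exact congrArg Subtype.val (mem_center_iff.1 hx' ⟨σ, hσ⟩)
  · rw [← card_map_of_injective D.subtype_injective]
    exact (card_le_of_le e.le).lt_of_ne fun e' => e.ne (eq_of_le_of_card_ge e.le e'.ge)

theorem card_support_eq [hp : Fact p.Prime] (hu : u ^ p = 1) : #u.support = p * u.cycleType.card ∧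
    Nat.card (orbC (zpowers u)) ≤ p ^ u.cycleType.card := by
  have h := cycleType_of_pow_prime_eq_one hu
  refine ⟨by rw [← sum_cycleType, h]; simp [mul_comm], card_orbC_zpowers_le.trans_eq ?_⟩
  rw [h]; simp

theorem card_le_or_odd [hp : Fact p.Prime] (hP : IsSylowIn p P (fixingSubgroup (Perm α) F)) :
    ∃ u ∈ P, ∃ w, (∀ d ∈ P, Commute u d) ∧ u ^ p = 1 ∧ #u.support = p * w ∧
      (Nat.card P ≤ p ^ w ∨ Nat.card (center P) < p ^ w) := by
  obtain ⟨u, h1, h2, h3, h4, h5⟩ := exists_central hP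
  obtain ⟨h6, h7⟩ := card_support_eq h3
  refine ⟨u, h1, _, h2, h3, h6, (card_le_or_card_center_lt h5 fun σ hσ h => mem_orbC_zpowers.2
    ⟨(h2 σ hσ).symm, fun x => ?_⟩).imp (·.trans h7) (·.trans_le h7)⟩
  by_cases hx : x ∈ u.support
  · exact (mem_support_cycleOf_iff.1 ((mem_support_iff_of_commute (h _ (cycleOf_mem_orbC u x)) x).2
      (mem_support_cycleOf_iff.2 ⟨.rfl, hx⟩))).1
  · rw [notMem_support.1 fun e => hx (h4 σ hσ e)]

theorem two_mul_card_inf_le {E : Subgroup (Perm α)} (h : σ ∈ E) (h' : sign σ = -1) :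
    2 * Nat.card (E ⊓ alternatingGroup α : Subgroup _) ≤ Nat.card E := by
  obtain ⟨k, hk⟩ := card_dvd_of_le (inf_le_left : E ⊓ alternatingGroup α ≤ E)
  have h1 : k ≠ 1 := fun e => by
    have := (eq_of_le_of_card_ge inf_le_left (by rw [hk, e, mul_one])).ge h
    simpa [h'] using this.2
  have h2 : k ≠ 0 := fun e => Nat.card_pos.ne' (by rw [hk, e, mul_zero])
  rw [hk, mul_comm]
  exact Nat.mul_le_mul_left _ (by omega)

theorem card_le_or_two (hP : IsSylowIn 2 P (fixingSubgroup (Perm α) F)) :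
    ∃ u ∈ P, ∃ w, (∀ d ∈ P, Commute u d) ∧ u ^ 2 = 1 ∧ #u.support = 2 * w ∧
      (Nat.card (P ⊓ alternatingGroup α : Subgroup _) ≤ 4 ∨
        2 * Nat.card (P ⊓ alternatingGroup α : Subgroup _) ≤ 2 ^ w ∨
        2 * Nat.card (center (P ⊓ alternatingGroup α : Subgroup _)) < 2 ^ w) := by
  obtain ⟨u, h1, h2, h3, h4, h5⟩ := exists_central hP
  obtain ⟨h6, h7⟩ := card_support_eq h3
  refine ⟨u, h1, _, h2, h3, h6, ?_⟩
  have h8 : ∀ c ∈ u.cycleFactorsFinset, c ∈ orbC (zpowers u) ∧ sign c = -1 := fun c hc => by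
    have h9 := (mem_cycleFactorsFinset_iff.1 hc).1
    obtain ⟨x, hx⟩ := h9.nonempty_support
    refine ⟨cycle_is_cycleOf hx hc ▸ cycleOf_mem_orbC u x, ?_⟩
    have : #c.support ∈ u.cycleType := Multiset.mem_map_of_mem _ hc
    rw [cycleType_of_pow_prime_eq_one h3] at this
    rw [h9.sign, Multiset.eq_of_mem_replicate this]
    rfl
  have h9 : u.cycleType.card = #u.cycleFactorsFinset := by simp [cycleType_def]
  have h10 : Nat.card P ∣ (#u.support).factorial := by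
    refine (card_dvd_of_le fun d hd => (mem_range_ofSubtype_iff (p := (· ∈ u.support))).2
      (h4 d hd)).trans ?_
    rw [← Nat.card_congr (MonoidHom.ofInjective ofSubtype_injective).toEquiv, Nat.card_perm,
      Nat.card_eq_fintype_card, Fintype.card_coe]
  rcases u.cycleFactorsFinset.eq_empty_or_nonempty with e | ⟨c, hc⟩
  · rw [h6, h9, e] at h10
    exact .inl ((card_le_of_le inf_le_left).trans ((Nat.le_of_dvd one_pos h10).trans (by simp)))
  rcases le_or_gt u.cycleType.card 2 with e | e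
  · obtain ⟨k, hk⟩ := hP.isPGroup.exists_card_eq
    have := two_mul_card_inf_le (h5 (h8 c hc).1) (h8 c hc).2
    have h11 : 2 ^ k ∣ 24 := hk ▸ h10.trans (Nat.factorial_dvd_factorial (n := 4) (by omega))
    have h12 : k < 4 := not_le.1 fun e => by simpa using (pow_dvd_pow 2 e).trans h11
    have := Nat.pow_le_pow_right two_pos (Nat.le_of_lt_succ h12)
    omega
  have := two_mul_card_inf_le (h8 c hc).1 (h8 c hc).2
  refine .inr ((card_le_or_card_center_lt (inf_le_inf_right (alternatingGroup α) h5)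
    fun σ hσ h => ⟨mem_orbC_zpowers.2 ⟨(h2 σ hσ.1).symm, fun x => ?_⟩, hσ.2⟩).imp
      (by omega) (by omega))
  by_cases hx : x ∈ u.support
  swap
  · rw [notMem_support.1 fun e => hx (h4 σ hσ.1 e)]
  have h11 := cycleOf_mem_cycleFactorsFinset_iff.2 hx
  have h12 : ∀ d ∈ u.cycleFactorsFinset.erase (u.cycleOf x),
      σ x ∈ (u.cycleOf x).support ∨ σ x ∈ d.support := fun d hd => by
    have h13 := mem_of_mem_erase hd
    have h14 := cycleFactorsFinset_pairwise_disjoint u h11 h13 (ne_of_mem_erase hd).symm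
    rw [← mem_union, ← h14.support_mul, mem_support_iff_of_commute (h _
      ⟨mul_mem (h8 _ h11).1 (h8 _ h13).1, by simp [(h8 _ h11).2, (h8 _ h13).2]⟩), h14.support_mul]
    exact mem_union_left _ (mem_support_cycleOf_iff.2 ⟨.rfl, hx⟩)
  obtain ⟨a, ha, b, hb, hab⟩ := one_lt_card.1 (show 1 < #(u.cycleFactorsFinset.erase (u.cycleOf x))
    by rw [card_erase_of_mem h11]; omega)
  refine (mem_support_cycleOf_iff.1 (by_contra fun e' => ?_)).1
  exact disjoint_left.1 (cycleFactorsFinset_pairwise_disjoint u (mem_of_mem_erase ha)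
    (mem_of_mem_erase hb) hab).disjoint_support ((h12 a ha).resolve_left e')
    ((h12 b hb).resolve_left e')

theorem card_support_le_sum_filter [hp : Fact p.Prime] {y : Perm α} {k : ℕ} (hu : u ^ p ^ k = 1)
    (hy : ¬ p ∣ orderOf y) (h : Commute u y) :
    #u.support ≤ ((pt (u * y)).filter (p ∣ ·)).sum := by
  have h0 : ∀ x m, ((u * y) ^ m) x = x → x ∈ u.support → p ∣ m := fun x m h1 hx => by
    by_contra e
    obtain ⟨j, hj⟩ := exists_pow_eq_self_of_coprime (x := u) (n := m * orderOf y)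
      ((Nat.Coprime.pow_right k (hp.out.coprime_iff_not_dvd.2 (hp.out.not_dvd_mul e hy)).symm
        ).coprime_dvd_right (orderOf_dvd_of_pow_eq_one hu))
    have := pow_apply_eq_self_of_apply_eq_self (pow_apply_eq_self_of_apply_eq_self h1 (orderOf y)) j
    rw [← pow_mul _ m, h.mul_pow, pow_mul' y, pow_orderOf_eq_one, one_pow, mul_one, hj] at this
    exact mem_support.1 hx this
  have h1 : u.support ⊆ {c ∈ (u * y).cycleFactorsFinset | p ∣ #c.support}.biUnion support := by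
    intro x hx
    have h3 : x ∈ (u * y).support :=
      mem_support.2 fun e => hp.out.not_dvd_one (h0 x 1 (by rwa [pow_one]) hx)
    exact mem_biUnion.2 ⟨_, mem_filter.2 ⟨cycleOf_mem_cycleFactorsFinset_iff.2 h3, h0 x _
      (by simp [← pow_mod_card_support_cycleOf_self_apply (u * y) #_]) hx⟩,
      mem_support_cycleOf_iff.2 ⟨.rfl, h3⟩⟩
  refine ((card_le_card h1).trans card_biUnion_le).trans ?_
  rw [pt_eq, Multiset.filter_add, Multiset.sum_add, cycleType_def, Multiset.filter_map]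
  exact Nat.le_add_right ..

end Cfsg.Sym

set_option linter.all false in
theorem Cfsg.Rz.Sym_OrbC_0 : True := by
  have := @_root_.Cfsg.Sym.orbC.eq_def.{0}
  have := @_root_.Cfsg.Sym.orbC.eq_1.{0}
  have := @_root_.Cfsg.Sym.orbC.fun_cases
  trivial
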