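import Cfsg.Agent.Sym.Neutral
import Cfsg.Agent.Sym.Char
import Mathlib.RingTheory.MvPolynomial.Basic
import Mathlib.LinearAlgebra.Lagrange

/-!
# The coefficients of Schur's `Q`-functions
-/

set_option autoImplicit false
set_option linter.unusedSectionVars false

namespace Cfsg.Sym

open Finset Finsupp Equiv
open scoped symmDiff

variable {N : ℕ} {r j : ℤ} {v : Fk ℕ} {S T : Finset ℕ}

/-- A word in the neutral fermions applied to the vacuum. -/
noncomputable def wd : {N : ℕ} → (Fin N → ℤ) → Fk ℕ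
  | 0, _ => vac
  | _ + 1, a => nf (a 0) (wd (Fin.tail a))

theorem wd_succ (a : Fin (N + 1) → ℤ) : wd a = nf (a 0) (wd (Fin.tail a)) := rfl

theorem nP_wd (hr : Odd r) (h0 : 0 < r) (a : Fin N → ℤ) :
    nP r (wd a) = ∑ i, wd (a - Pi.single i r) := by
  induction N with
  | zero => simp [wd, nP_vac h0]
  | succ N ih =>
    rw [wd_succ, nP_nf hr, ih, Fin.sum_univ_succ, add_comm, map_sum]
    congr 1
    · rw [wd_succ]; congr 2
      ext i; simp [Fin.tail]
    · refine Finset.sum_congr rfl fun i _ => ?_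
      rw [wd_succ]; congr 2
      · simp
      · ext k; simp [Fin.tail, Pi.single_apply]

theorem exists_wd_eq (S : Finset ℕ) :
    ∃ a : Fin #S → ℤ, (∀ i, 0 < a i) ∧ wd a = single S 1 := by
  induction S using Finset.induction_on_max with
  | empty => exact ⟨fun _ => 1, fun _ => one_pos, rfl⟩
  | insert b S hb ih =>
    obtain ⟨a, h1, h2⟩ := ih
    have h3 : b ∉ S := fun h => (hb b h).false
    rw [card_insert_of_notMem h3]
    refine ⟨Fin.cons (b + 1) a, fun i => i.cases (by simp) h1, ?_⟩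
    rw [wd_succ, Fin.cons_zero, Fin.tail_cons, h2, nf_succ, fW_single, tog_of_notMem h3, fsg,
      filter_false_of_mem fun c hc => (hb c hc).not_gt]
    simp [h3]

theorem exists_wd_int (a : Fin N → ℤ) (T : Finset ℕ) : ∃ z : ℤ,
    wd a T = 2 ^ #{i | a i < 0} * z ∧ (z ≠ 0 → #T + #{i | a i < 0} = #{i | 0 < a i}) := by
  induction N generalizing T with
  | zero => by_cases h : ∅ = T <;> simp [wd, vac, h, eq_comm]
  | succ N ih =>
    have e1 : #{i | a i < 0} = (if a 0 < 0 then 1 else 0) + #{i | Fin.tail a i < 0} :=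
      Fin.card_filter_univ_succ' _
    have e2 : #{i | 0 < a i} = (if 0 < a 0 then 1 else 0) + #{i | 0 < Fin.tail a i} :=
      Fin.card_filter_univ_succ' _
    rw [wd_succ, e1, e2]
    rcases int_cases (a 0) with h | ⟨b, h⟩ | ⟨b, h⟩ <;> rw [h]
    · obtain ⟨z, h1, h2⟩ := ih (Fin.tail a) T
      refine ⟨(-1) ^ #T * z, ?_, fun e => by simpa using h2 (right_ne_zero_of_mul e)⟩
      rw [nf_zero, fpar_apply, h1]; simp; ring
    · obtain ⟨z, h1, h2⟩ := ih (Fin.tail a) (T ∆ {b})
      rw [nf_succ, fW_apply, h1, if_neg (show ¬ (b + 1 : ℤ) < 0 by omega),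
        if_pos (show (0 : ℤ) < b + 1 by omega), fsg]
      split_ifs with hb
      · refine ⟨(-1) ^ #{c ∈ T | b < c} * z, by simp; ring, fun e => ?_⟩
        have := h2 (right_ne_zero_of_mul e)
        rw [tog_of_mem hb] at this
        rw [← card_erase_add_one hb]
        omega
      · exact ⟨0, by simp, fun e => absurd rfl e⟩
    · obtain ⟨z, h1, h2⟩ := ih (Fin.tail a) (T ∆ {b})
      rw [nf_neg_succ, fW_apply, h1, if_pos (show -(b + 1 : ℤ) < 0 by omega),
        if_neg (show ¬ (0 : ℤ) < -(b + 1) by omega), fsg]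
      split_ifs with hb
      · exact ⟨0, by simp, fun e => absurd rfl e⟩
      · refine ⟨(-1) ^ (b + 1) * (-1) ^ #{c ∈ T | b < c} * z, ?_, fun e => ?_⟩
        · rw [eps, ← Nat.cast_succ, zpow_natCast]; simp; ring
        have := h2 (right_ne_zero_of_mul e)
        rw [tog_of_notMem hb, card_insert_of_notMem hb] at this
        omega

theorem exists_wd_empty (a : Fin N → ℤ) : ∃ z : ℤ, wd a ∅ = 2 ^ #{i | 0 < a i} * z := by
  obtain ⟨z, h1, h2⟩ := exists_wd_int a ∅
  by_cases h : z = 0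
  · exact ⟨0, by simp [h1, h]⟩
  · exact ⟨z, by rw [h1, ← h2 h]; simp⟩

section poly

open MvPolynomial

/-- Pairing of a polynomial with the vacuum expectation values. -/
noncomputable def QL (a : Fin N → ℤ) : MvPolynomial (Fin N) ℤ →ₗ[ℤ] ℂ :=
  (basisMonomials (Fin N) ℤ).constr ℤ fun m => wd (a - fun i => (m i : ℤ)) ∅

theorem QL_monomial (a : Fin N → ℤ) (m : Fin N →₀ ℕ) :
    QL a (monomial m 1) = wd (a - fun i => (m i : ℤ)) ∅ :=
  (basisMonomials (Fin N) ℤ).constr_basis ℤ _ m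

theorem QL_psum_mul (a : Fin N → ℤ) (k : ℕ) (Q : MvPolynomial (Fin N) ℤ) :
    QL a (psum (Fin N) ℤ k * Q) = ∑ i, QL (a - Pi.single i (k : ℤ)) Q := by
  induction Q using MvPolynomial.induction_on' with
  | add P Q hP hQ => simp only [mul_add, map_add, hP, hQ, sum_add_distrib]
  | monomial m c =>
    rw [← mul_one c, ← smul_eq_mul c, ← smul_monomial]
    simp only [mul_smul_comm, map_smul, ← Finset.smul_sum, psum, Finset.sum_mul, map_sum, X_pow_eq_monomial,
      monomial_mul, one_mul, QL_monomial]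
    congr 1
    refine Finset.sum_congr rfl fun i _ => ?_
    congr 2
    ext l
    simp only [Pi.sub_apply, Finsupp.add_apply, single_apply, Pi.single_apply, eq_comm (a := l)]
    split_ifs <;> simp [sub_sub]

theorem QL_prod_psum {μ : Multiset ℕ} (hμ : ∀ k ∈ μ, Odd k) (a : Fin N → ℤ) :
    QL a (μ.map (psum (Fin N) ℤ)).prod = fB 2 (pv μ) (wd a) := by
  induction μ using Multiset.induction generalizing a with
  | empty =>
    rw [pv_zero, fB_vac]
    simpa [← Pi.zero_def] using QL_monomial a 0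
  | cons k μ ih =>
    have hk := hμ k (by simp)
    rw [Multiset.map_cons, Multiset.prod_cons, QL_psum_mul, pv_cons, fB_nP, neg_neg,
      nP_wd (by exact_mod_cast hk) (by exact_mod_cast hk.pos), map_sum]
    exact Finset.sum_congr rfl fun i _ => ih (fun j hj => hμ j (by simp [hj])) _

theorem fB_pv_wd {α : Type*} [Fintype α] [DecidableEq α] {g : Perm α} (hg : ∀ k ∈ pt g, Odd k)
    (a : Fin N → ℤ) : fB 2 (pv (pt g)) (wd a) =
      ∑ f : α → Fin N with f ∘ g = f, wd (a - fun i => (#{x | f x = i} : ℤ)) ∅ := by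
  rw [← QL_prod_psum hg, prod_psum, map_sum]
  refine Finset.sum_congr rfl fun f _ => ?_
  rw [show ∏ x, (MvPolynomial.X (f x) : MvPolynomial (Fin N) ℤ) =
    monomial (∑ x, single (f x) 1) 1 by rw [monomial_sum_one]; rfl, QL_monomial]
  simp [single_apply, finsetSum_apply]

end poly

/-! ### Bars and weights -/

/-- The sum of `f` over the parts. -/
def wtf (f : ℤ → ℤ) (S : Finset ℕ) : ℤ := ∑ a ∈ S, f (a + 1)

theorem exists_of_nf_ne_zero (h : nf j v S ≠ 0) :
    ∃ T, v T ≠ 0 ∧ ∀ f : ℤ → ℤ, (∀ i, f (-i) = -f i) → wtf f S = wtf f T + f j := by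
  rcases int_cases j with rfl | ⟨b, rfl⟩ | ⟨b, rfl⟩
  · rw [nf_zero, fpar_apply] at h
    exact ⟨S, right_ne_zero_of_mul h, fun f hf => by have := hf 0; simp at this; omega⟩
  · rw [nf_succ, fW_apply] at h
    refine ⟨_, right_ne_zero_of_mul h, fun f _ => ?_⟩
    have hb : b ∈ S := by_contra fun e => h (by simp [e])
    rw [tog_of_mem hb, wtf, wtf, sum_erase_add _ _ hb]
  · rw [nf_neg_succ, fW_apply] at h
    refine ⟨_, right_ne_zero_of_mul h, fun f hf => ?_⟩
    have hb : b ∉ S := fun e => h (by simp [e])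
    rw [tog_of_notMem hb, wtf, wtf, sum_insert hb, hf]; ring

theorem exists_of_nP_ne_zero (h : nP r v S ≠ 0) : ∃ T j, v T ≠ 0 ∧
    ∀ f : ℤ → ℤ, (∀ i, f (-i) = -f i) → wtf f S = wtf f T + (f (j - r) - f j) := by
  have hr : Odd r := by_contra fun e => h (by simp [nP_even e])
  rw [nP_apply hr, ← lapply_apply (R := ℂ), map_finsum _ (finite_nT hr v)] at h
  obtain ⟨j, hj⟩ : ∃ j, nT r j v S ≠ 0 := by
    by_contra! e; exact h (finsum_eq_zero_of_forall_eq_zero e)
  obtain ⟨T, h1, h2⟩ := exists_of_nf_ne_zero (right_ne_zero_of_mul hj)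
  obtain ⟨U, h3, h4⟩ := exists_of_nf_ne_zero h1
  exact ⟨U, j, h3, fun f hf => by rw [h2 f hf, h4 f hf, hf]; ring⟩

theorem exists_of_pv_ne_zero (p : ℕ) {μ ν : Multiset ℕ} (hμ : ∀ k ∈ μ, p ∣ k)
    (h : pv (μ + ν) S ≠ 0) : ∃ T, pv ν T ≠ 0 ∧ wtf id S = wtf id T + μ.sum ∧
      ∀ f : ℤ → ℤ, (∀ i, f (-i) = -f i) → Function.Periodic f p → wtf f S = wtf f T := by
  induction μ using Multiset.induction generalizing S with
  | empty => exact ⟨S, by simpa using h, by simp, fun _ _ _ => rfl⟩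
  | cons k μ ih =>
    rw [Multiset.cons_add, pv_cons] at h
    obtain ⟨U, j, h1, h2⟩ := exists_of_nP_ne_zero h
    obtain ⟨T, h3, h4, h5⟩ := ih (fun j hj => hμ j (by simp [hj])) h1
    obtain ⟨m, rfl⟩ := hμ k (by simp)
    refine ⟨T, h3, by rw [h2 id fun _ => rfl, h4]; simp; ring, fun f hf hp => ?_⟩
    rw [h2 f hf, h5 f hf hp, sub_neg_eq_add, Nat.cast_mul, mul_comm, hp.nat_mul m j]; simp

theorem sum_eq_of_pv_ne_zero {μ : Multiset ℕ} (h : pv μ S ≠ 0) : ∑ a ∈ S, (a + 1) = μ.sum := by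
  obtain ⟨T, h1, h2, -⟩ := exists_of_pv_ne_zero 1 (ν := 0) (fun _ _ => one_dvd _)
    (by simpa using h)
  obtain rfl : ∅ = T := by_contra fun e => h1 (by simp [pv_zero, vac, e])
  simp only [wtf, id, sum_empty, zero_add] at h2
  exact_mod_cast h2

end Cfsg.Sym

set_option linter.all false in
theorem Cfsg.Rz.Sym_QFun_0 : True := by
  have := @_root_.Cfsg.Sym.wd.induct
  have := @_root_.Cfsg.Sym.wd.fun_cases
  have := @_root_.Cfsg.Sym.wtf.eq_def
  have := @_root_.Cfsg.Sym.wtf.fun_cases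
  have := @_root_.Cfsg.Sym.QL.eq_def
  have := @_root_.Cfsg.Sym.QL.eq_1
  have := @_root_.Cfsg.Sym.QL.fun_cases
  trivial
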